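import Mathlib
import Cfsg.Agent.Lib.helper5.KleinFour
import Cfsg.Agent.Lib.helper5.BlockSecond3
import Cfsg.Agent.Lib.helper5.BlockCanon
import Cfsg.Agent.Lib.helper24.CharComplete

set_option autoImplicit false

/-!
# Brauer–Leonard: groups with a Sylow subgroup all of whose nonidentity elements have the
same centralizer.  Part A: group theory and counting.
-/

namespace Cfsg.Agent.Lib.helper2.BL

open Cfsg Cfsg.Agent.Lib.helper5

universe u

variable {G : Type u} [Group G] {p : ℕ}

/-- the standing hypothesis: every nonidentity element of `P` has the centralizer of `P` -/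
def Star (P : Sylow p G) : Prop :=
  ∀ x ∈ (P : Subgroup G), x ≠ 1 →
    Subgroup.centralizer ({x} : Set G) = Subgroup.centralizer ((P : Subgroup G) : Set G)

theorem star_comm {P : Sylow p G} (hs : Star P) {x y : G} (hx : x ∈ (P : Subgroup G))
    (hy : y ∈ (P : Subgroup G)) : x * y = y * x := by
  by_cases h1 : x = 1
  · subst h1; simp
  · have hxc : x ∈ Subgroup.centralizer ({x} : Set G) :=
      Subgroup.mem_centralizer_singleton_iff.mpr rfl
    rw [hs x hx h1] at hxc
    exact (Subgroup.mem_centralizer_iff.mp hxc y hy).symm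

theorem le_cent {P : Sylow p G} (hs : Star P) :
    (P : Subgroup G) ≤ Subgroup.centralizer ((P : Subgroup G) : Set G) := by
  intro x hx
  rw [Subgroup.mem_centralizer_iff]
  intro y hy
  exact star_comm hs hy hx

theorem isPGroup_zpowers_of_pow [Fact p.Prime] {w : G} {k : ℕ} (h : w ^ p ^ k = 1) :
    IsPGroup p (Subgroup.zpowers w) := by
  obtain ⟨j, -, hj⟩ := (Nat.dvd_prime_pow Fact.out).mp (orderOf_dvd_of_pow_eq_one h)
  exact IsPGroup.of_card (n := j) (by rw [Nat.card_zpowers, hj])

theorem exists_pow_eq_one (P : Sylow p G) {u : G} (hu : u ∈ (P : Subgroup G)) :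
    ∃ k : ℕ, u ^ p ^ k = 1 := by
  obtain ⟨k, hk⟩ := P.isPGroup' ⟨u, hu⟩
  exact ⟨k, by simpa using congrArg Subtype.val hk⟩

theorem exists_orderOf [Fact p.Prime] (P : Sylow p G) {u : G} (hu : u ∈ (P : Subgroup G)) :
    ∃ k : ℕ, orderOf u = p ^ k := by
  obtain ⟨k, hk⟩ := exists_pow_eq_one P hu
  obtain ⟨j, -, hj⟩ := (Nat.dvd_prime_pow Fact.out).mp (orderOf_dvd_of_pow_eq_one hk)
  exact ⟨j, hj⟩

/-- a `p`-element normalizing a Sylow `p`-subgroup lies in it -/
theorem mem_of_pelt [Fact p.Prime] (P : Sylow p G) {w : G}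
    (hw : w ∈ Subgroup.normalizer ((P : Subgroup G) : Set G))
    (hp : IsPGroup p (Subgroup.zpowers w)) : w ∈ (P : Subgroup G) := by
  have h1 : IsPGroup p (Subgroup.zpowers w ⊔ (P : Subgroup G) : Subgroup G) :=
    IsPGroup.to_sup_of_normal_right' hp P.isPGroup' (by rw [Subgroup.zpowers_le]; exact hw)
  have h2 := P.is_maximal' h1 le_sup_right
  have h3 : w ∈ (Subgroup.zpowers w ⊔ (P : Subgroup G) : Subgroup G) :=
    (le_sup_left : Subgroup.zpowers w ≤ _) (Subgroup.mem_zpowers w)
  rw [h2] at h3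
  exact h3

theorem conj_pow_eq_one {u : G} {m : ℕ} (h : u ^ m = 1) (g : G) : (g * u * g⁻¹) ^ m = 1 := by
  rw [conj_pow, h]; group

/-- the trivial intersection property -/
theorem ti [Fact p.Prime] {P : Sylow p G} (hs : Star P) {g x : G}
    (hx : x ∈ (P : Subgroup G)) (hx1 : x ≠ 1) (hgx : g * x * g⁻¹ ∈ (P : Subgroup G)) :
    g ∈ Subgroup.normalizer ((P : Subgroup G) : Set G) := by
  have key : ∀ (g x : G), x ∈ (P : Subgroup G) → x ≠ 1 → g * x * g⁻¹ ∈ (P : Subgroup G) →
      ∀ u ∈ (P : Subgroup G), g * u * g⁻¹ ∈ (P : Subgroup G) := by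
    intro g x hx hx1 hgx u hu
    have hy1 : g * x * g⁻¹ ≠ 1 := by
      intro h
      apply hx1
      have : x = g⁻¹ * (g * x * g⁻¹) * g := by group
      rw [this, h]; group
    obtain ⟨k, hk⟩ := exists_pow_eq_one P hu
    apply mem_of_pelt P _ (isPGroup_zpowers_of_pow (conj_pow_eq_one hk g))
    apply Subgroup.centralizer_le_normalizer
    rw [← hs (g * x * g⁻¹) hgx hy1, Subgroup.mem_centralizer_singleton_iff]
    have h1 := star_comm hs hu hx
    calc g * u * g⁻¹ * (g * x * g⁻¹) = g * (u * x) * g⁻¹ := by group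
      _ = g * (x * u) * g⁻¹ := by rw [h1]
      _ = g * x * g⁻¹ * (g * u * g⁻¹) := by group
  have hy1 : g * x * g⁻¹ ≠ 1 := by
    intro h
    apply hx1
    have : x = g⁻¹ * (g * x * g⁻¹) * g := by group
    rw [this, h]; group
  rw [Subgroup.mem_normalizer_iff]
  intro h
  constructor
  · exact key g x hx hx1 hgx h
  · intro hh
    have h0 : g⁻¹ * (g * x * g⁻¹) * g⁻¹⁻¹ ∈ (P : Subgroup G) := by
      have : g⁻¹ * (g * x * g⁻¹) * g⁻¹⁻¹ = x := by group
      rw [this]; exact hx
    have h1 := key g⁻¹ (g * x * g⁻¹) hgx hy1 h0 (g * h * g⁻¹) hh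
    have : g⁻¹ * (g * h * g⁻¹) * g⁻¹⁻¹ = h := by group
    rw [this] at h1
    exact h1

/-- an element of `N(P)` outside `C(P)` has surjective commutator map on `P` -/
theorem comm_surj [Finite G] {P : Sylow p G} (hs : Star P) {n : G}
    (hn : n ∈ Subgroup.normalizer ((P : Subgroup G) : Set G))
    (hnc : n ∉ Subgroup.centralizer ((P : Subgroup G) : Set G)) (w : G)
    (hw : w ∈ (P : Subgroup G)) : ∃ u ∈ (P : Subgroup G), u⁻¹ * (n * u * n⁻¹) = w := by
  have hnu : ∀ u ∈ (P : Subgroup G), n * u * n⁻¹ ∈ (P : Subgroup G) :=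
    fun u hu => (Subgroup.mem_normalizer_iff.mp hn u).mp hu
  let φ : ↥(P : Subgroup G) → ↥(P : Subgroup G) := fun u =>
    ⟨(u : G)⁻¹ * (n * u * n⁻¹), Subgroup.mul_mem _ (Subgroup.inv_mem _ u.2) (hnu u u.2)⟩
  have hinj : Function.Injective φ := by
    intro u u' h
    have h1 : (u : G)⁻¹ * (n * u * n⁻¹) = (u' : G)⁻¹ * (n * u' * n⁻¹) := congrArg Subtype.val h
    by_contra hne
    have hz : (u' : G) * (u : G)⁻¹ ∈ (P : Subgroup G) :=
      Subgroup.mul_mem _ u'.2 (Subgroup.inv_mem _ u.2)
    have hz1 : (u' : G) * (u : G)⁻¹ ≠ 1 := by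
      intro h2
      apply hne
      apply Subtype.ext
      exact (mul_inv_eq_one.mp h2).symm
    have h2 : n * (u : G) * n⁻¹ = (u : G) * ((u' : G)⁻¹ * (n * u' * n⁻¹)) := by
      rw [← h1]; group
    have hfix : n * ((u' : G) * (u : G)⁻¹) * n⁻¹ = (u' : G) * (u : G)⁻¹ := by
      calc n * ((u' : G) * (u : G)⁻¹) * n⁻¹ = (n * u' * n⁻¹) * (n * u * n⁻¹)⁻¹ := by group
        _ = (n * u' * n⁻¹) * ((u : G) * ((u' : G)⁻¹ * (n * u' * n⁻¹)))⁻¹ := by rw [h2]
        _ = (u' : G) * (u : G)⁻¹ := by group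
    apply hnc
    rw [← hs _ hz hz1, Subgroup.mem_centralizer_singleton_iff]
    calc n * ((u' : G) * (u : G)⁻¹) = n * ((u' : G) * (u : G)⁻¹) * n⁻¹ * n := by group
      _ = (u' : G) * (u : G)⁻¹ * n := by rw [hfix]
  obtain ⟨u, hu⟩ := (Finite.injective_iff_surjective.mp hinj) ⟨w, hw⟩
  exact ⟨u, u.2, congrArg Subtype.val hu⟩

theorem conj_inv_mem {P : Sylow p G} {n : G}
    (hn : n ∈ Subgroup.normalizer ((P : Subgroup G) : Set G)) {u : G}
    (hu : u ∈ (P : Subgroup G)) : n⁻¹ * u * n ∈ (P : Subgroup G) := by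
  rw [Subgroup.mem_normalizer_iff.mp hn (n⁻¹ * u * n)]
  have : n * (n⁻¹ * u * n) * n⁻¹ = u := by group
  rw [this]; exact hu

theorem conj_mem {P : Sylow p G} {n : G}
    (hn : n ∈ Subgroup.normalizer ((P : Subgroup G) : Set G)) {u : G}
    (hu : u ∈ (P : Subgroup G)) : n * u * n⁻¹ ∈ (P : Subgroup G) :=
  (Subgroup.mem_normalizer_iff.mp hn u).mp hu

/-- `N(P)` normalizes `C(P)` -/
theorem conj_cent {P : Sylow p G} {n : G}
    (hn : n ∈ Subgroup.normalizer ((P : Subgroup G) : Set G)) {c : G}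
    (hc : c ∈ Subgroup.centralizer ((P : Subgroup G) : Set G)) :
    n * c * n⁻¹ ∈ Subgroup.centralizer ((P : Subgroup G) : Set G) := by
  rw [Subgroup.mem_centralizer_iff]
  intro u hu
  have h1 := Subgroup.mem_centralizer_iff.mp hc (n⁻¹ * u * n) (conj_inv_mem hn hu)
  calc u * (n * c * n⁻¹) = n * ((n⁻¹ * u * n) * c) * n⁻¹ := by group
    _ = n * (c * (n⁻¹ * u * n)) * n⁻¹ := by rw [h1]
    _ = n * c * n⁻¹ * u := by group

theorem conj_cent' {P : Sylow p G} {n : G}
    (hn : n ∈ Subgroup.normalizer ((P : Subgroup G) : Set G)) {c : G}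
    (hc : c ∈ Subgroup.centralizer ((P : Subgroup G) : Set G)) :
    n⁻¹ * c * n ∈ Subgroup.centralizer ((P : Subgroup G) : Set G) := by
  have h := conj_cent (Subgroup.inv_mem _ hn) hc
  rw [inv_inv] at h
  exact h

theorem orderOf_conj (g h : G) : orderOf (h * g * h⁻¹) = orderOf g :=
  orderOf_injective (MulAut.conj h).toMonoidHom (MulAut.conj h).injective g

theorem orderOf_conj' (g h : G) : orderOf (h⁻¹ * g * h) = orderOf g := by
  have := orderOf_conj g h⁻¹
  rw [inv_inv] at this
  exact this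

open Classical in
/-- the number of elements conjugating a `p`-singular element into `C(P)` -/
theorem card_conj_into [Fintype G] [Fact p.Prime] {P : Sylow p G} (hs : Star P) (g : G) :
    ((Finset.univ.filter (fun h : G =>
        h⁻¹ * g * h ∈ Subgroup.centralizer ((P : Subgroup G) : Set G) ∧
          p ∣ orderOf (h⁻¹ * g * h))).card : ℂ) =
      if p ∣ orderOf g then
        (Nat.card (Subgroup.normalizer ((P : Subgroup G) : Set G)) : ℂ) else 0 := by
  have hp : p.Prime := Fact.out
  by_cases hg : p ∣ orderOf g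
  · rw [if_pos hg]
    have hg0 : orderOf g ≠ 0 := (orderOf_pos g).ne'
    obtain ⟨y, hy⟩ : ∃ y : G, y = g ^ (orderOf g / p) := ⟨_, rfl⟩
    have hyo : orderOf y = p := by rw [hy]; exact orderOf_pow_orderOf_div hg0 hg
    have hy1 : y ≠ 1 := by
      rintro rfl
      rw [orderOf_one] at hyo
      exact hp.one_lt.ne hyo
    obtain ⟨c, hc⟩ := exists_conj_mem_sylow P y ⟨1, by rw [hyo, pow_one]⟩
    have hcy1 : c * y * c⁻¹ ≠ 1 := by
      intro h
      apply hy1
      have : y = c⁻¹ * (c * y * c⁻¹) * c := by group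
      rw [this, h]; group
    have hgy : g * y = y * g := by
      rw [hy, ← pow_succ', ← pow_succ]
    have ha₀ : c * g * c⁻¹ ∈ Subgroup.centralizer ((P : Subgroup G) : Set G) := by
      rw [← hs _ hc hcy1, Subgroup.mem_centralizer_singleton_iff]
      calc c * g * c⁻¹ * (c * y * c⁻¹) = c * (g * y) * c⁻¹ := by group
        _ = c * (y * g) * c⁻¹ := by rw [hgy]
        _ = c * y * c⁻¹ * (c * g * c⁻¹) := by group
    have hcard : (Finset.univ.filter (fun h : G =>
        h⁻¹ * g * h ∈ Subgroup.centralizer ((P : Subgroup G) : Set G) ∧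
          p ∣ orderOf (h⁻¹ * g * h))).card =
        (Finset.univ.filter (fun n : G =>
          n ∈ Subgroup.normalizer ((P : Subgroup G) : Set G))).card := by
      apply Finset.card_bij (fun h _ => c * h)
      · intro h hh
        rw [Finset.mem_filter] at hh ⊢
        refine ⟨Finset.mem_univ _, ?_⟩
        obtain ⟨-, hhC, -⟩ := hh
        -- y' = h⁻¹ y h is a p-element of C(P), hence in P
        have hy'C : h⁻¹ * y * h ∈ Subgroup.centralizer ((P : Subgroup G) : Set G) := by
          have : h⁻¹ * y * h = (h⁻¹ * g * h) ^ (orderOf g / p) := by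
            rw [hy]
            have e : h⁻¹ * g * h = h⁻¹ * g * h⁻¹⁻¹ := by rw [inv_inv]
            rw [e, conj_pow, inv_inv]
          rw [this]
          exact Subgroup.pow_mem _ hhC _
        have hy'P : h⁻¹ * y * h ∈ (P : Subgroup G) := by
          apply mem_of_pelt P (Subgroup.centralizer_le_normalizer _ hy'C)
          apply isPGroup_zpowers_of_pow (k := 1)
          have e : h⁻¹ * y * h = h⁻¹ * y * h⁻¹⁻¹ := by rw [inv_inv]
          rw [e]
          apply conj_pow_eq_one
          rw [pow_one, ← hyo]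
          exact pow_orderOf_eq_one y
        have h1 : (c * h)⁻¹ * (c * y * c⁻¹) * (c * h)⁻¹⁻¹ ∈ (P : Subgroup G) := by
          have : (c * h)⁻¹ * (c * y * c⁻¹) * (c * h)⁻¹⁻¹ = h⁻¹ * y * h := by group
          rw [this]; exact hy'P
        have h2 := ti hs hc hcy1 h1
        have h3 := Subgroup.inv_mem _ h2
        rw [inv_inv] at h3
        exact h3
      · intro a _ b _ hab
        exact mul_left_cancel hab
      · intro n hn
        rw [Finset.mem_filter] at hn
        refine ⟨c⁻¹ * n, ?_, by group⟩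
        rw [Finset.mem_filter]
        refine ⟨Finset.mem_univ _, ?_, ?_⟩
        · have : (c⁻¹ * n)⁻¹ * g * (c⁻¹ * n) = n⁻¹ * (c * g * c⁻¹) * n := by group
          rw [this]
          exact conj_cent' hn.2 ha₀
        · rw [orderOf_conj']
          exact hg
    rw [hcard, Nat.card_eq_fintype_card, Fintype.card_subtype]
  · rw [if_neg hg, Nat.cast_eq_zero, Finset.card_eq_zero, Finset.filter_eq_empty_iff]
    intro h _ hh
    apply hg
    rw [← orderOf_conj' g h]
    exact hh.2

open Classical in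
/-- the sum of a class function over the `p`-singular elements -/
theorem sum_singular [Fintype G] [Fact p.Prime] {P : Sylow p G} (hs : Star P) (F : G → ℂ)
    (hF : IsClassFunction G F) :
    (Nat.card (Subgroup.normalizer ((P : Subgroup G) : Set G)) : ℂ) *
        ∑ g ∈ Finset.univ.filter (fun g : G => p ∣ orderOf g), F g =
      (Nat.card G : ℂ) * ∑ c ∈ Finset.univ.filter (fun g : G =>
        g ∈ Subgroup.centralizer ((P : Subgroup G) : Set G) ∧ p ∣ orderOf g), F c := by
  obtain ⟨A, hA⟩ : ∃ A : Finset G, A = Finset.univ.filter (fun g : G =>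
        g ∈ Subgroup.centralizer ((P : Subgroup G) : Set G) ∧ p ∣ orderOf g) := ⟨_, rfl⟩
  rw [← hA]
  have hmemA : ∀ g : G, g ∈ A ↔ (g ∈ Subgroup.centralizer ((P : Subgroup G) : Set G) ∧
      p ∣ orderOf g) := by
    intro g; rw [hA, Finset.mem_filter]; simp
  have h1 : ∑ h : G, ∑ a ∈ A, F (h * a * h⁻¹) = (Nat.card G : ℂ) * ∑ a ∈ A, F a := by
    rw [Finset.sum_congr rfl (fun h _ => Finset.sum_congr rfl (fun a _ => hF a h))]
    rw [Finset.sum_const, Finset.card_univ, nsmul_eq_mul, Nat.card_eq_fintype_card]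
  have h2 : ∀ h : G, ∑ a ∈ A, F (h * a * h⁻¹) =
      ∑ g : G, if h⁻¹ * g * h ∈ A then F g else 0 := by
    intro h
    rw [← Finset.sum_filter]
    apply Finset.sum_bij (fun a _ => h * a * h⁻¹)
    · intro a ha
      rw [Finset.mem_filter]
      refine ⟨Finset.mem_univ _, ?_⟩
      have : h⁻¹ * (h * a * h⁻¹) * h = a := by group
      rw [this]; exact ha
    · intro a _ b _ hab
      simpa using hab
    · intro b hb
      rw [Finset.mem_filter] at hb
      exact ⟨h⁻¹ * b * h, hb.2, by group⟩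
    · intro a _; rfl
  have h3 : ∀ g : G, (∑ h : G, if h⁻¹ * g * h ∈ A then F g else 0) =
      (if p ∣ orderOf g then
        (Nat.card (Subgroup.normalizer ((P : Subgroup G) : Set G)) : ℂ) else 0) * F g := by
    intro g
    have hfil : Finset.univ.filter (fun h : G => h⁻¹ * g * h ∈ A) =
        Finset.univ.filter (fun h : G =>
          h⁻¹ * g * h ∈ Subgroup.centralizer ((P : Subgroup G) : Set G) ∧
            p ∣ orderOf (h⁻¹ * g * h)) := by
      apply Finset.filter_congr
      intro h _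
      exact hmemA _
    rw [← Finset.sum_filter, Finset.sum_const, nsmul_eq_mul, hfil, card_conj_into hs g]
  rw [← h1, Finset.sum_congr rfl (fun h _ => h2 h), Finset.sum_comm,
    Finset.sum_congr rfl (fun g _ => h3 g), Finset.mul_sum, Finset.sum_filter]
  apply Finset.sum_congr rfl
  intro g _
  split_ifs <;> simp

theorem card_filter_mem [Fintype G] (H : Subgroup G) [DecidablePred (fun g : G => g ∈ H)] :
    (Finset.univ.filter (fun g : G => g ∈ H)).card = Nat.card H := by
  rw [Nat.card_eq_fintype_card, Fintype.card_subtype]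

open Classical in
/-- a sum over `C(P)` of a `P`-invariant function -/
theorem sum_cent_eq [Fintype G] [Fact p.Prime] {P : Sylow p G} (hs : Star P) (F : G → ℂ)
    (hF : ∀ u ∈ (P : Subgroup G), ∀ c ∈ Subgroup.centralizer ((P : Subgroup G) : Set G),
      F (u * c) = F c) :
    ∑ c ∈ Finset.univ.filter (fun g : G =>
        g ∈ Subgroup.centralizer ((P : Subgroup G) : Set G)), F c =
      (Nat.card (P : Subgroup G) : ℂ) * ∑ c ∈ Finset.univ.filter (fun g : G =>
        g ∈ Subgroup.centralizer ((P : Subgroup G) : Set G) ∧ ¬ p ∣ orderOf g), F c := by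
  have e1 : ∑ x ∈ (Finset.univ.filter (fun g : G => g ∈ (P : Subgroup G))) ×ˢ
        (Finset.univ.filter (fun g : G =>
          g ∈ Subgroup.centralizer ((P : Subgroup G) : Set G) ∧ ¬ p ∣ orderOf g)),
        F (x.1 * x.2) =
      ∑ c ∈ Finset.univ.filter (fun g : G =>
        g ∈ Subgroup.centralizer ((P : Subgroup G) : Set G)), F c := by
    apply Finset.sum_bij (fun x _ => x.1 * x.2)
    · intro x hx
      rw [Finset.mem_product, Finset.mem_filter, Finset.mem_filter] at hx
      rw [Finset.mem_filter]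
      exact ⟨Finset.mem_univ _, Subgroup.mul_mem _ (le_cent hs hx.1.2) hx.2.2.1⟩
    · intro x hx x' hx' h
      rw [Finset.mem_product, Finset.mem_filter, Finset.mem_filter] at hx hx'
      have hc : Commute x.1 x.2 :=
        (Subgroup.mem_centralizer_iff.mp hx.2.2.1 x.1 hx.1.2)
      have hc' : Commute x'.1 x'.2 :=
        (Subgroup.mem_centralizer_iff.mp hx'.2.2.1 x'.1 hx'.1.2)
      have hp1 := isPPart_mul hc (exists_orderOf P hx.1.2) hx.2.2.2
      have hp2 := isPPart_mul hc' (exists_orderOf P hx'.1.2) hx'.2.2.2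
      rw [← h] at hp2
      have h1 : x.1 = x'.1 := isPPart_unique hp1 hp2
      have h2 : x.2 = x'.2 := by
        rw [h1] at h
        exact mul_left_cancel h
      exact Prod.ext h1 h2
    · intro c hc
      rw [Finset.mem_filter] at hc
      obtain ⟨x, hx⟩ := exists_isPPart p c
      have hxz := isPPart_mem_zpowers hx
      obtain ⟨y, hxy, hcomm, ⟨k, hk⟩, hy⟩ := hx
      have hxC : x ∈ Subgroup.centralizer ((P : Subgroup G) : Set G) := by
        have : Subgroup.zpowers c ≤ Subgroup.centralizer ((P : Subgroup G) : Set G) := by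
          rw [Subgroup.zpowers_le]; exact hc.2
        exact this hxz
      have hxP : x ∈ (P : Subgroup G) := by
        apply mem_of_pelt P (Subgroup.centralizer_le_normalizer _ hxC)
        apply isPGroup_zpowers_of_pow (k := k)
        rw [← hk]; exact pow_orderOf_eq_one x
      have hyC : y ∈ Subgroup.centralizer ((P : Subgroup G) : Set G) := by
        have : y = x⁻¹ * c := by rw [← hxy]; group
        rw [this]
        exact Subgroup.mul_mem _ (Subgroup.inv_mem _ hxC) hc.2
      refine ⟨(x, y), ?_, hxy⟩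
      rw [Finset.mem_product, Finset.mem_filter, Finset.mem_filter]
      exact ⟨⟨Finset.mem_univ _, hxP⟩, Finset.mem_univ _, hyC, hy⟩
    · intro x _; rfl
  rw [← e1, Finset.sum_product]
  have e2 : ∀ u ∈ Finset.univ.filter (fun g : G => g ∈ (P : Subgroup G)),
      ∑ v ∈ Finset.univ.filter (fun g : G =>
          g ∈ Subgroup.centralizer ((P : Subgroup G) : Set G) ∧ ¬ p ∣ orderOf g), F (u * v) =
        ∑ v ∈ Finset.univ.filter (fun g : G =>
          g ∈ Subgroup.centralizer ((P : Subgroup G) : Set G) ∧ ¬ p ∣ orderOf g), F v := by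
    intro u hu
    rw [Finset.mem_filter] at hu
    apply Finset.sum_congr rfl
    intro v hv
    rw [Finset.mem_filter] at hv
    exact hF u hu.2 v hv.2.1
  rw [Finset.sum_congr rfl e2, Finset.sum_const, nsmul_eq_mul, card_filter_mem]

end Cfsg.Agent.Lib.helper2.BL
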