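import Mathlib
import Cfsg.Agent.Lib.helper2.BLa
import Cfsg.Agent.Lib.helper23.CharSchur
import Cfsg.Agent.Lib.helper24.CharOps
import Cfsg.Agent.Lib.helper24.CharOrth
import Cfsg.Agent.Lib.helper24.CharComplete
import Cfsg.Agent.Lib.helper24.CharComm

set_option autoImplicit false

/-!
# Brauer–Leonard, part B: characters of the centralizer of the Sylow subgroup
-/

namespace Cfsg.Agent.Lib.helper2.BL

open Cfsg Cfsg.Agent.Lib.helper24
open scoped ComplexConjugate

universe u

section abstract

variable {K : Type u} [Group K] [Fintype K]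

/-- Parseval's identity for a class function with natural multiplicities -/
theorem parseval_nat [Fintype (IrrCharacter K)] {f : K → ℂ} (hf : IsClassFunction K f)
    (m : IrrCharacter K → ℕ) (hm : ∀ β : IrrCharacter K, classInner f β.1 = m β) :
    classInner f f = ((∑ β : IrrCharacter K, (m β) ^ 2 : ℕ) : ℂ) := by
  have h0 := classFunction_expansion hf
  have h1 : classInner f f = classInner (∑ β : IrrCharacter K, classInner f β.1 • β.1) f :=
    congrArg (fun φ => classInner φ f) h0
  rw [h1, classInner_sum_left]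
  push_cast
  apply Finset.sum_congr rfl
  intro β _
  rw [classInner_smul_left, classInner_conj_symm f β.1, hm β, Complex.conj_natCast]
  ring

/-- a central element acts on an irreducible character by a scalar of norm one -/
theorem central_scalar (β : IrrCharacter K) (z : K) (hz : z ∈ Subgroup.center K) :
    ∃ c : ℂ, c * conj c = 1 ∧ ∀ k : K, β.1 (z * k) = c * β.1 k := by
  obtain ⟨c, hc, hk⟩ := Cfsg.Agent.Lib.helper23.isIrrCharacter_central β.2 z hz
  have h1 : c ^ orderOf z = 1 := hk _ (pow_orderOf_eq_one z)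
  have h2 : ‖c‖ = 1 := Complex.norm_eq_one_of_pow_eq_one h1 (orderOf_pos z).ne'
  refine ⟨c, ?_, hc⟩
  rw [Complex.mul_conj, Complex.normSq_eq_norm_sq, h2]
  norm_num

/-- a function invariant under a central element is orthogonal to the irreducible characters on
which this element acts nontrivially -/
theorem inner_zero_of_invariant (D : K → ℂ) (z : K) (hz : z ∈ Subgroup.center K)
    (hD : ∀ k : K, D (z * k) = D k) (γ : IrrCharacter K) (hγ : γ.1 z ≠ γ.1 1) :
    classInner D γ.1 = 0 := by
  obtain ⟨c, hcc, hc⟩ := central_scalar γ z hz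
  have hc1 : conj c ≠ 1 := by
    intro h
    apply hγ
    have h2 : c = 1 := by
      have := congrArg (starRingEnd ℂ) h
      rwa [Complex.conj_conj, map_one] at this
    have := hc 1
    rw [mul_one, h2, one_mul] at this
    exact this
  have hS : ∑ k : K, D k * conj (γ.1 k) = conj c * ∑ k : K, D k * conj (γ.1 k) := by
    conv_lhs => rw [← Equiv.sum_comp (Equiv.mulLeft z)]
    rw [Finset.mul_sum]
    apply Finset.sum_congr rfl
    intro k _
    rw [Equiv.coe_mulLeft, hD, hc, map_mul]
    ring
  have hS0 : ∑ k : K, D k * conj (γ.1 k) = 0 := by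
    have h3 : (1 - conj c) * ∑ k : K, D k * conj (γ.1 k) = 0 := by
      linear_combination hS
    rcases mul_eq_zero.mp h3 with h4 | h4
    · exact absurd (sub_eq_zero.mp h4).symm hc1
    · exact h4
  unfold classInner
  rw [hS0, mul_zero]

end abstract

section concrete

variable {G : Type u} [Group G] {p : ℕ}

/-- the centralizer of the Sylow subgroup -/
abbrev cen (P : Sylow p G) : Subgroup G := Subgroup.centralizer ((P : Subgroup G) : Set G)

/-- the normalizer of the Sylow subgroup -/
abbrev nor (P : Sylow p G) : Subgroup G := Subgroup.normalizer ((P : Subgroup G) : Set G)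

/-- conjugation by an element of `N(P)`, as an automorphism of `C(P)` -/
def cj (P : Sylow p G) (n : G) (hn : n ∈ nor P) : ↥(cen P) ≃* ↥(cen P) where
  toFun c := ⟨n * (c : G) * n⁻¹, conj_cent hn c.2⟩
  invFun c := ⟨n⁻¹ * (c : G) * n, conj_cent' hn c.2⟩
  left_inv c := by
    apply Subtype.ext
    show n⁻¹ * (n * (c : G) * n⁻¹) * n = (c : G)
    group
  right_inv c := by
    apply Subtype.ext
    show n * (n⁻¹ * (c : G) * n) * n⁻¹ = (c : G)
    group
  map_mul' a b := by
    apply Subtype.ext
    show n * ((a : G) * (b : G)) * n⁻¹ = (n * (a : G) * n⁻¹) * (n * (b : G) * n⁻¹)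
    group

theorem cj_coe (P : Sylow p G) (n : G) (hn : n ∈ nor P) (c : ↥(cen P)) :
    ((cj P n hn c : ↥(cen P)) : G) = n * (c : G) * n⁻¹ := rfl

/-- the conjugate of an irreducible character of `C(P)` by an element of `N(P)` -/
noncomputable def conjIrr (P : Sylow p G) (n : G) (hn : n ∈ nor P)
    (β : IrrCharacter ↥(cen P)) : IrrCharacter ↥(cen P) :=
  ⟨β.1 ∘ (cj P n hn), isIrrCharacter_comp_equiv (cj P n hn) β.2⟩

theorem conjIrr_apply (P : Sylow p G) (n : G) (hn : n ∈ nor P) (β : IrrCharacter ↥(cen P))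
    (c : ↥(cen P)) : (conjIrr P n hn β).1 c = β.1 (cj P n hn c) := rfl

open Classical in
/-- multiplicities of the restriction of a class function of `G` are invariant under `N(P)` -/
theorem inner_conjIrr [Fintype G] (P : Sylow p G) (n : G) (hn : n ∈ nor P) (ψ : G → ℂ)
    (hψ : IsClassFunction G ψ) (β : IrrCharacter ↥(cen P)) :
    classInner (fun c : ↥(cen P) => ψ c) (conjIrr P n hn β).1 =
      classInner (fun c : ↥(cen P) => ψ c) β.1 := by
  unfold classInner
  congr 1
  rw [← Equiv.sum_comp (cj P n hn).toEquiv (fun c : ↥(cen P) => ψ c * conj (β.1 c))]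
  apply Finset.sum_congr rfl
  intro c _
  rw [conjIrr_apply]
  show ψ c * conj (β.1 (cj P n hn c)) = ψ ((cj P n hn c : ↥(cen P)) : G) * conj (β.1 (cj P n hn c))
  rw [cj_coe, hψ]

theorem mem_center_cen {P : Sylow p G} (hs : Star P) {u : G} (hu : u ∈ (P : Subgroup G)) :
    (⟨u, le_cent hs hu⟩ : ↥(cen P)) ∈ Subgroup.center ↥(cen P) := by
  rw [Subgroup.mem_center_iff]
  intro k
  apply Subtype.ext
  show (k : G) * u = u * (k : G)
  exact (Subgroup.mem_centralizer_iff.mp k.2 u hu).symm

open Classical in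
/-- the orbit of a `P`-nontrivial irreducible character of `C(P)` under `N(P)` has at least
`|N(P) : C(P)|` elements -/
theorem orbit_lemma [Fintype G] [Fact p.Prime] {P : Sylow p G} (hs : Star P) (ψ : G → ℂ)
    (hψ : IsClassFunction G ψ) (β₀ : IrrCharacter ↥(cen P)) (u : G)
    (hu : u ∈ (P : Subgroup G)) (hne : β₀.1 ⟨u, le_cent hs hu⟩ ≠ β₀.1 1) :
    ∃ S : Finset (IrrCharacter ↥(cen P)),
      Nat.card (nor P) ≤ Nat.card (cen P) * S.card ∧
      ∀ β ∈ S, classInner (fun c : ↥(cen P) => ψ c) β.1 =
          classInner (fun c : ↥(cen P) => ψ c) β₀.1 ∧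
        ∃ u' : G, ∃ hu' : u' ∈ (P : Subgroup G), β.1 ⟨u', le_cent hs hu'⟩ ≠ β.1 1 := by
  refine ⟨(Finset.univ : Finset ↥(nor P)).image
    (fun n : ↥(nor P) => conjIrr P (n : G) n.2 β₀), ?_, ?_⟩
  · have h1 := Finset.card_le_mul_card_image
      (f := fun n : ↥(nor P) => conjIrr P (n : G) n.2 β₀)
      (Finset.univ : Finset ↥(nor P)) (Nat.card (cen P)) (by
        intro b hb
        obtain ⟨n₁, -, rfl⟩ := Finset.mem_image.mp hb
        rw [← card_filter_mem (cen P)]
        apply Finset.card_le_card_of_injOn (fun n : ↥(nor P) => (n : G) * (n₁ : G)⁻¹)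
        · intro n hn
          have hn' := (Finset.mem_filter.mp (Finset.mem_coe.mp hn)).2
          rw [Finset.mem_coe, Finset.mem_filter]
          refine ⟨Finset.mem_univ _, ?_⟩
          by_contra hmc
          have hm : (n : G) * (n₁ : G)⁻¹ ∈ nor P :=
            Subgroup.mul_mem _ n.2 (Subgroup.inv_mem _ n₁.2)
          obtain ⟨u', hu', hu'eq⟩ := comm_surj hs hm hmc u hu
          -- invariance of β₀ under conjugation by m
          have hinv : ∀ k : ↥(cen P), β₀.1 ⟨((n : G) * (n₁ : G)⁻¹) * (k : G) *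
              ((n : G) * (n₁ : G)⁻¹)⁻¹, conj_cent hm k.2⟩ = β₀.1 k := by
            intro k
            have h2 := congrFun (congrArg Subtype.val hn')
              ⟨(n₁ : G)⁻¹ * (k : G) * (n₁ : G), conj_cent' n₁.2 k.2⟩
            rw [conjIrr_apply, conjIrr_apply] at h2
            have e1 : cj P n n.2 ⟨(n₁ : G)⁻¹ * (k : G) * (n₁ : G), conj_cent' n₁.2 k.2⟩ =
                ⟨((n : G) * (n₁ : G)⁻¹) * (k : G) * ((n : G) * (n₁ : G)⁻¹)⁻¹,
                  conj_cent hm k.2⟩ := by
              apply Subtype.ext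
              show (n : G) * ((n₁ : G)⁻¹ * (k : G) * (n₁ : G)) * (n : G)⁻¹ = _
              group
            have e2 : cj P n₁ n₁.2 ⟨(n₁ : G)⁻¹ * (k : G) * (n₁ : G), conj_cent' n₁.2 k.2⟩ =
                k := by
              apply Subtype.ext
              show (n₁ : G) * ((n₁ : G)⁻¹ * (k : G) * (n₁ : G)) * (n₁ : G)⁻¹ = _
              group
            rw [e1, e2] at h2
            exact h2
          have h3 := hinv ⟨u', le_cent hs hu'⟩
          obtain ⟨c, hcc, hc⟩ := central_scalar β₀ ⟨u', le_cent hs hu'⟩ (mem_center_cen hs hu')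
          have hc0 : c ≠ 0 := by
            rintro rfl
            rw [zero_mul] at hcc
            exact zero_ne_one hcc
          have e3 : (⟨((n : G) * (n₁ : G)⁻¹) * u' * ((n : G) * (n₁ : G)⁻¹)⁻¹,
              conj_cent hm (le_cent hs hu')⟩ : ↥(cen P)) =
              (⟨u', le_cent hs hu'⟩ : ↥(cen P)) * ⟨u, le_cent hs hu⟩ := by
            apply Subtype.ext
            show ((n : G) * (n₁ : G)⁻¹) * u' * ((n : G) * (n₁ : G)⁻¹)⁻¹ = u' * u
            rw [← hu'eq]; group
          rw [e3, hc] at h3
          have h4 := hc 1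
          rw [mul_one] at h4
          rw [h4] at h3
          exact hne (mul_left_cancel₀ hc0 h3)
        · intro a _ b _ hab
          exact Subtype.ext (mul_right_cancel hab))
    rw [Finset.card_univ, ← Nat.card_eq_fintype_card] at h1
    exact h1
  · intro β hβ
    obtain ⟨n, -, rfl⟩ := Finset.mem_image.mp hβ
    refine ⟨inner_conjIrr P n n.2 ψ hψ β₀, (n : G)⁻¹ * u * (n : G), conj_inv_mem n.2 hu, ?_⟩
    rw [conjIrr_apply, conjIrr_apply]
    have e1 : cj P n n.2 ⟨(n : G)⁻¹ * u * (n : G), le_cent hs (conj_inv_mem n.2 hu)⟩ =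
        ⟨u, le_cent hs hu⟩ := by
      apply Subtype.ext
      show (n : G) * ((n : G)⁻¹ * u * (n : G)) * (n : G)⁻¹ = u
      group
    have e2 : cj P n n.2 1 = 1 := map_one _
    rw [e1, e2]
    exact hne

end concrete

end Cfsg.Agent.Lib.helper2.BL
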