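import Mathlib
import Cfsg.Agent.Lib.helper2.BLb
import Cfsg.Agent.Lib.helper22.CharZ

set_option autoImplicit false

/-!
# Brauer–Leonard, part C: moments over the singular elements and the structure of the
restriction to the centralizer
-/

namespace Cfsg.Agent.Lib.helper2.BL

open Cfsg Cfsg.Agent.Lib.helper24
open scoped ComplexConjugate commutatorElement

universe u

section abstract

variable {K : Type u} [Group K] [Fintype K]

/-- the norm of a function in terms of a real sum -/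
theorem inner_self_real (f : K → ℂ) (r : K → ℝ) (hr : ∀ k, f k * conj (f k) = (r k : ℂ))
    (n : ℕ) (h : classInner f f = (n : ℂ)) :
    (n : ℝ) * (Nat.card K : ℝ) = ∑ k : K, r k := by
  unfold classInner at h
  have hne : (Nat.card K : ℂ) ≠ 0 := by exact_mod_cast (Nat.card_pos (α := K)).ne'
  have h2 : ∑ k : K, f k * conj (f k) = (n : ℂ) * (Nat.card K : ℂ) := by
    rw [← h]
    field_simp
  rw [Finset.sum_congr rfl (fun k _ => hr k)] at h2
  exact_mod_cast h2.symm

theorem sum_sq_le_sq_sum_nat {ι : Type*} (s : Finset ι) (f : ι → ℕ) :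
    ∑ i ∈ s, f i ^ 2 ≤ (∑ i ∈ s, f i) ^ 2 := by
  classical
  induction s using Finset.induction_on with
  | empty => simp
  | insert a s ha ih =>
    rw [Finset.sum_insert ha, Finset.sum_insert ha]
    nlinarith [Nat.zero_le (f a * ∑ i ∈ s, f i)]

end abstract

variable {G : Type u} [Group G] {p : ℕ}

open Classical in
theorem sum_singular_real [Fintype G] [Fact p.Prime] {P : Sylow p G} (hs : Star P) (F : G → ℝ)
    (hF : ∀ g h : G, F (h * g * h⁻¹) = F g) :
    (Nat.card (nor P) : ℝ) * ∑ g ∈ Finset.univ.filter (fun g : G => p ∣ orderOf g), F g =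
      (Nat.card G : ℝ) *
        ∑ c ∈ Finset.univ.filter (fun g : G => g ∈ cen P ∧ p ∣ orderOf g), F c := by
  have h := sum_singular hs (fun g => (F g : ℂ)) (fun g h => by
    show ((F (h * g * h⁻¹) : ℝ) : ℂ) = (F g : ℂ)
    rw [hF])
  exact_mod_cast h

open Classical in
theorem sum_cent_eq_real [Fintype G] [Fact p.Prime] {P : Sylow p G} (hs : Star P) (F : G → ℝ)
    (hF : ∀ u ∈ (P : Subgroup G), ∀ c ∈ cen P, F (u * c) = F c) :
    ∑ c ∈ Finset.univ.filter (fun g : G => g ∈ cen P), F c =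
      (Nat.card (P : Subgroup G) : ℝ) *
        ∑ c ∈ Finset.univ.filter (fun g : G => g ∈ cen P ∧ ¬ p ∣ orderOf g), F c := by
  have h := sum_cent_eq hs (fun g => (F g : ℂ)) (fun u hu c hc => by
    show ((F (u * c) : ℝ) : ℂ) = (F c : ℂ)
    rw [hF u hu c hc])
  exact_mod_cast h

open Classical in
/-- the basic moment identity -/
theorem moment [Fintype G] [Fact p.Prime] {P : Sylow p G} (hs : Star P) (F : G → ℝ)
    (hF : ∀ g h : G, F (h * g * h⁻¹) = F g) :
    (Nat.card (nor P) : ℝ) * ∑ g ∈ Finset.univ.filter (fun g : G => ¬ p ∣ orderOf g), F g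
      + (Nat.card G : ℝ) * ∑ c ∈ Finset.univ.filter (fun g : G => g ∈ cen P), F c
    = (Nat.card (nor P) : ℝ) * ∑ g : G, F g
      + (Nat.card G : ℝ) *
        ∑ c ∈ Finset.univ.filter (fun g : G => g ∈ cen P ∧ ¬ p ∣ orderOf g), F c := by
  have h1 := sum_singular_real hs F hF
  have h2 : ∑ g : G, F g = ∑ g ∈ Finset.univ.filter (fun g : G => p ∣ orderOf g), F g +
      ∑ g ∈ Finset.univ.filter (fun g : G => ¬ p ∣ orderOf g), F g :=
    (Finset.sum_filter_add_sum_filter_not _ _ _).symm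
  have h3 : ∑ c ∈ Finset.univ.filter (fun g : G => g ∈ cen P), F c =
      ∑ c ∈ Finset.univ.filter (fun g : G => g ∈ cen P ∧ p ∣ orderOf g), F c +
      ∑ c ∈ Finset.univ.filter (fun g : G => g ∈ cen P ∧ ¬ p ∣ orderOf g), F c := by
    rw [← Finset.sum_filter_add_sum_filter_not (Finset.univ.filter (fun g : G => g ∈ cen P))
      (fun g => p ∣ orderOf g), Finset.filter_filter, Finset.filter_filter]
  rw [h2, h3]
  linear_combination -h1

open Classical in
/-- a sum over the centralizer, as a sum over a filter -/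
theorem sum_cen [Fintype G] (P : Sylow p G) (F : G → ℝ) :
    ∑ k : ↥(cen P), F (k : G) = ∑ g ∈ Finset.univ.filter (fun g : G => g ∈ cen P), F g :=
  (Finset.sum_subtype (Finset.univ.filter (fun g : G => g ∈ cen P)) (by intro g; simp) F).symm

open Classical in
/-- the number of `p`-regular elements of the centralizer -/
theorem card_reg_cen [Fintype G] [Fact p.Prime] {P : Sylow p G} (hs : Star P) :
    (Nat.card (cen P) : ℝ) = (Nat.card (P : Subgroup G) : ℝ) *
      ((Finset.univ.filter (fun g : G => g ∈ cen P ∧ ¬ p ∣ orderOf g)).card : ℝ) := by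
  have h := sum_cent_eq_real hs (fun _ => (1 : ℝ)) (fun _ _ _ _ => rfl)
  rw [Finset.sum_const, Finset.sum_const, card_filter_mem] at h
  simpa using h

open Classical in
theorem one_mem_reg_cen [Fintype G] [Fact p.Prime] (P : Sylow p G) :
    (1 : G) ∈ Finset.univ.filter (fun g : G => g ∈ cen P ∧ ¬ p ∣ orderOf g) := by
  rw [Finset.mem_filter]
  refine ⟨Finset.mem_univ _, Subgroup.one_mem _, ?_⟩
  rw [orderOf_one]
  exact (Fact.out : p.Prime).one_lt.ne' ∘ Nat.dvd_one.mp

open Classical in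
theorem one_mem_reg [Fintype G] [Fact p.Prime] :
    (1 : G) ∈ Finset.univ.filter (fun g : G => ¬ p ∣ orderOf g) := by
  rw [Finset.mem_filter]
  refine ⟨Finset.mem_univ _, ?_⟩
  rw [orderOf_one]
  exact (Fact.out : p.Prime).one_lt.ne' ∘ Nat.dvd_one.mp

theorem normSq_le_deg [Finite G] (χ : IrrCharacter G) (g : G) :
    Complex.normSq (χ.1 g) ≤ (charDegree χ.1 : ℝ) ^ 2 := by
  rw [← Cfsg.Agent.Lib.helper22.normSq_irr_one χ, Complex.normSq_eq_norm_sq,
    Complex.normSq_eq_norm_sq]
  have := Fintype.ofFinite G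
  have h := irr_norm_le χ g
  have h0 := norm_nonneg (χ.1 g)
  nlinarith

theorem normSq_class (χ : IrrCharacter G) (g h : G) :
    Complex.normSq (χ.1 (h * g * h⁻¹)) = Complex.normSq (χ.1 g) := by
  rw [isClassFunction_irr χ g h]


open Classical in
/-- the restriction of `χ` to `C(P)` is the sum of `|N(P) : C(P)|` distinct irreducible
characters, when `χ(1)^2 < |P|` and `P` is not in the kernel -/
theorem structure_thm [Fintype G] [Fact p.Prime] {P : Sylow p G} (hs : Star P)
    (χ : IrrCharacter G) (hdeg : charDegree χ.1 ^ 2 < Nat.card (P : Subgroup G))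
    (u : G) (hu : u ∈ (P : Subgroup G)) (hχu : χ.1 u ≠ χ.1 1) :
    ∃ 𝒪 : Finset (IrrCharacter ↥(cen P)),
      Nat.card (cen P) * 𝒪.card = Nat.card (nor P) ∧
      ∀ c : ↥(cen P), χ.1 c = ∑ β ∈ 𝒪, β.1 c := by
  have : Fintype (IrrCharacter ↥(cen P)) := Fintype.ofFinite _
  have hresC : IsCharacter ↥(cen P) (fun c : ↥(cen P) => χ.1 c) :=
    isCharacter_restrict (cen P) (isCharacter_irr χ)
  choose m hm using fun β : IrrCharacter ↥(cen P) => isCharacter_inner_irr_nat hresC β
  have hpars := parseval_nat (isCharacter_conj_class hresC) m hm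
  have hsumK : ((∑ β : IrrCharacter ↥(cen P), (m β) ^ 2 : ℕ) : ℝ) * (Nat.card (cen P) : ℝ) =
      ∑ k : ↥(cen P), Complex.normSq (χ.1 k) :=
    inner_self_real (fun c : ↥(cen P) => χ.1 c) (fun k => Complex.normSq (χ.1 k))
      (fun k => Complex.mul_conj _) _ hpars
  rw [sum_cen P (fun g => Complex.normSq (χ.1 g))] at hsumK
  -- the moment identity
  have hmom := moment hs (fun g => Complex.normSq (χ.1 g)) (normSq_class χ)
  rw [Cfsg.Agent.Lib.helper22.sum_normSq_irr χ] at hmom
  have hR : (1 : ℝ) ≤ ∑ g ∈ Finset.univ.filter (fun g : G => ¬ p ∣ orderOf g),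
      Complex.normSq (χ.1 g) := by
    have h1 := Finset.single_le_sum (f := fun g : G => Complex.normSq (χ.1 g))
      (fun g _ => Complex.normSq_nonneg _) (one_mem_reg (G := G) (p := p))
    have h2 := Cfsg.Agent.Lib.helper22.normSq_irr_one χ
    have h3 : (1 : ℝ) ≤ (charDegree χ.1 : ℝ) := by exact_mod_cast charDegree_pos χ
    have h4 : (1 : ℝ) ≤ (charDegree χ.1 : ℝ) ^ 2 := by nlinarith
    calc (1 : ℝ) ≤ (charDegree χ.1 : ℝ) ^ 2 := h4
      _ = Complex.normSq (χ.1 1) := h2.symm
      _ ≤ _ := h1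
  have hV : ∑ c ∈ Finset.univ.filter (fun g : G => g ∈ cen P ∧ ¬ p ∣ orderOf g),
      Complex.normSq (χ.1 c) ≤
      ((Finset.univ.filter (fun g : G => g ∈ cen P ∧ ¬ p ∣ orderOf g)).card : ℝ) *
        (charDegree χ.1 : ℝ) ^ 2 := by
    have h1 := Finset.sum_le_card_nsmul
      (Finset.univ.filter (fun g : G => g ∈ cen P ∧ ¬ p ∣ orderOf g))
      (fun g : G => Complex.normSq (χ.1 g)) ((charDegree χ.1 : ℝ) ^ 2)
      (fun g _ => normSq_le_deg χ g)
    rw [nsmul_eq_mul] at h1
    exact h1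
  have hcard := card_reg_cen hs
  have hvpos : (0 : ℝ) < ((Finset.univ.filter (fun g : G => g ∈ cen P ∧ ¬ p ∣ orderOf g)).card : ℝ) := by
    have : 0 < (Finset.univ.filter (fun g : G => g ∈ cen P ∧ ¬ p ∣ orderOf g)).card :=
      Finset.card_pos.mpr ⟨1, one_mem_reg_cen P⟩
    exact_mod_cast this
  have hgpos : (0 : ℝ) < (Nat.card G : ℝ) := by exact_mod_cast (Nat.card_pos (α := G))
  have hnpos : (0 : ℝ) < (Nat.card (nor P) : ℝ) := by
    exact_mod_cast (Nat.card_pos (α := nor P))
  have hcpos : 0 < Nat.card (cen P) := Nat.card_pos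
  have hdegR : (charDegree χ.1 : ℝ) ^ 2 < (Nat.card (P : Subgroup G) : ℝ) := by
    exact_mod_cast hdeg
  obtain ⟨e, he⟩ : Nat.card (cen P) ∣ Nat.card (nor P) :=
    Subgroup.card_dvd_of_le (Subgroup.centralizer_le_normalizer _)
  -- the key bound
  have hkey : (∑ β : IrrCharacter ↥(cen P), (m β) ^ 2) ≤ e := by
    have h1 : (Nat.card G : ℝ) * ∑ c ∈ Finset.univ.filter (fun g : G => g ∈ cen P),
        Complex.normSq (χ.1 c) <
        (Nat.card G : ℝ) * ((Nat.card (nor P) : ℝ) + (Nat.card (cen P) : ℝ)) := by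
      have hVlt : ∑ c ∈ Finset.univ.filter (fun g : G => g ∈ cen P ∧ ¬ p ∣ orderOf g),
          Complex.normSq (χ.1 c) < (Nat.card (cen P) : ℝ) := by
        calc _ ≤ _ := hV
          _ < ((Finset.univ.filter (fun g : G => g ∈ cen P ∧ ¬ p ∣ orderOf g)).card : ℝ) *
              (Nat.card (P : Subgroup G) : ℝ) := mul_lt_mul_of_pos_left hdegR hvpos
          _ = (Nat.card (cen P) : ℝ) := by rw [hcard]; ring
      have hA := mul_lt_mul_of_pos_left hVlt hgpos
      have hB := mul_le_mul_of_nonneg_left hR hnpos.le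
      linarith
    have h2 := lt_of_mul_lt_mul_left h1 hgpos.le
    rw [← hsumK] at h2
    have h3 : (∑ β : IrrCharacter ↥(cen P), (m β) ^ 2) * Nat.card (cen P) <
        Nat.card (nor P) + Nat.card (cen P) := by exact_mod_cast h2
    rw [he] at h3
    have h4 : (∑ β : IrrCharacter ↥(cen P), (m β) ^ 2) * Nat.card (cen P) <
        (e + 1) * Nat.card (cen P) := by nlinarith
    exact Nat.lt_succ_iff.mp (Nat.lt_of_mul_lt_mul_right h4)
  have he1 : 1 ≤ e := by
    rcases Nat.eq_zero_or_pos e with h | h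
    · rw [h, mul_zero] at he
      exact absurd he (Nat.card_pos (α := nor P)).ne'
    · exact h
  -- a P-nontrivial constituent
  have hexp := classFunction_expansion_apply (isCharacter_conj_class hresC)
  obtain ⟨β₀, hβ₀m, hβ₀u⟩ : ∃ β₀ : IrrCharacter ↥(cen P), m β₀ ≠ 0 ∧
      β₀.1 ⟨u, le_cent hs hu⟩ ≠ β₀.1 1 := by
    by_contra hcon
    push Not at hcon
    apply hχu
    have e1 := hexp ⟨u, le_cent hs hu⟩
    have e2 := hexp 1
    have e3 : ∀ β : IrrCharacter ↥(cen P),
        classInner (fun c : ↥(cen P) => χ.1 c) β.1 * β.1 ⟨u, le_cent hs hu⟩ =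
        classInner (fun c : ↥(cen P) => χ.1 c) β.1 * β.1 1 := by
      intro β
      by_cases hβ : m β = 0
      · rw [hm β, hβ]; simp
      · rw [hcon β hβ]
    rw [Finset.sum_congr rfl (fun β _ => e3 β), ← e2] at e1
    exact e1
  obtain ⟨S, hS1, hS2⟩ := orbit_lemma hs χ.1 (isClassFunction_irr χ) β₀ u hu hβ₀u
  have hmS : ∀ β ∈ S, m β = m β₀ := by
    intro β hβ
    have h1 := (hS2 β hβ).1
    rw [hm β, hm β₀] at h1
    exact_mod_cast h1
  have heS : e ≤ S.card := by
    rw [he] at hS1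
    exact Nat.le_of_mul_le_mul_left hS1 hcpos
  have hsumS : ∑ β ∈ S, (m β) ^ 2 = S.card * (m β₀) ^ 2 := by
    rw [Finset.sum_congr rfl (fun β hβ => by rw [hmS β hβ]), Finset.sum_const, smul_eq_mul]
  have hsplit : ∑ β ∈ S, (m β) ^ 2 + ∑ β ∈ Sᶜ, (m β) ^ 2 =
      ∑ β : IrrCharacter ↥(cen P), (m β) ^ 2 := Finset.sum_add_sum_compl S _
  have hm0 : 1 ≤ m β₀ := Nat.pos_of_ne_zero hβ₀m
  have hm0' : m β₀ = 1 := by
    by_contra hne
    have h2 : 2 ≤ m β₀ := by omega
    have h3 : S.card * 4 ≤ S.card * (m β₀) ^ 2 := by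
      apply Nat.mul_le_mul_left
      nlinarith
    have h4 : 1 ≤ S.card := le_trans he1 heS
    omega
  rw [hm0', one_pow, mul_one] at hsumS
  have hcompl : ∑ β ∈ Sᶜ, (m β) ^ 2 = 0 := by omega
  have hScard : S.card = e := by omega
  have hmoff : ∀ β : IrrCharacter ↥(cen P), β ∉ S → m β = 0 := by
    intro β hβ
    have h1 := (Finset.sum_eq_zero_iff.mp hcompl) β (Finset.mem_compl.mpr hβ)
    exact pow_eq_zero_iff (two_ne_zero) |>.mp h1
  refine ⟨S, by rw [hScard, he], ?_⟩
  intro c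
  rw [hexp c]
  rw [← Finset.sum_subset (Finset.subset_univ S) (fun β _ hβ => by
    rw [hm β, hmoff β hβ]; simp)]
  apply Finset.sum_congr rfl
  intro β hβ
  rw [hm β, hmS β hβ, hm0']
  simp


open Classical in
/-- the index of `C(P)` in `N(P)` divides `|P| - 1` -/
theorem index_dvd [Fintype G] [Fact p.Prime] {P : Sylow p G} (hs : Star P) (e : ℕ)
    (he : Nat.card (nor P) = Nat.card (cen P) * e) : e ∣ Nat.card (P : Subgroup G) - 1 := by
  obtain ⟨T, hT⟩ : ∃ T : Finset G,
      T = Finset.univ.filter (fun x : G => x ∈ (P : Subgroup G) ∧ x ≠ 1) := ⟨_, rfl⟩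
  have hmT : ∀ x : G, x ∈ T ↔ (x ∈ (P : Subgroup G) ∧ x ≠ 1) := by
    intro x; rw [hT, Finset.mem_filter]; simp
  have hTcard : T.card = Nat.card (P : Subgroup G) - 1 := by
    have h1 : T = (Finset.univ.filter (fun x : G => x ∈ (P : Subgroup G))).erase 1 := by
      ext x
      rw [hmT, Finset.mem_erase, Finset.mem_filter]
      simp [and_comm]
    rw [h1, Finset.card_erase_of_mem (by
      rw [Finset.mem_filter]; exact ⟨Finset.mem_univ _, Subgroup.one_mem _⟩), card_filter_mem]
  obtain ⟨orb, horb⟩ : ∃ orb : G → Finset G, orb = fun x =>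
      Finset.univ.filter (fun y : G => ∃ n ∈ nor P, n * x * n⁻¹ = y) := ⟨_, rfl⟩
  have hmo : ∀ x y : G, y ∈ orb x ↔ ∃ n ∈ nor P, n * x * n⁻¹ = y := by
    intro x y; rw [horb, Finset.mem_filter]; simp
  have hcpos : 0 < Nat.card (cen P) := Nat.card_pos
  -- each orbit has e elements
  have horbcard : ∀ x ∈ T, (orb x).card = e := by
    intro x hx
    rw [hmT] at hx
    have h1 : (Finset.univ.filter (fun n : G => n ∈ nor P)).card =
        ∑ y ∈ orb x, ((Finset.univ.filter (fun n : G => n ∈ nor P)).filter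
          (fun n => n * x * n⁻¹ = y)).card :=
      Finset.card_eq_sum_card_fiberwise (fun n hn => by
        rw [Finset.mem_coe, Finset.mem_filter] at hn
        rw [Finset.mem_coe, hmo]
        exact ⟨n, hn.2, rfl⟩)
    have h2 : ∀ y ∈ orb x, ((Finset.univ.filter (fun n : G => n ∈ nor P)).filter
        (fun n => n * x * n⁻¹ = y)).card = Nat.card (cen P) := by
      intro y hy
      rw [hmo] at hy
      obtain ⟨n₀, hn₀, rfl⟩ := hy
      rw [← card_filter_mem (cen P)]
      apply Finset.card_bij (fun n _ => n₀⁻¹ * n)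
      · intro n hn
        rw [Finset.mem_filter, Finset.mem_filter] at hn
        rw [Finset.mem_filter]
        refine ⟨Finset.mem_univ _, ?_⟩
        have hmem : n₀⁻¹ * n ∈ Subgroup.centralizer ({x} : Set G) := by
          rw [Subgroup.mem_centralizer_singleton_iff]
          have h3 := hn.2
          calc n₀⁻¹ * n * x = n₀⁻¹ * (n * x * n⁻¹) * n := by group
            _ = n₀⁻¹ * (n₀ * x * n₀⁻¹) * n := by rw [h3]
            _ = x * (n₀⁻¹ * n) := by group
        rw [hs x hx.1 hx.2] at hmem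
        exact hmem
      · intro a _ b _ h
        exact mul_left_cancel h
      · intro c hc
        rw [Finset.mem_filter] at hc
        refine ⟨n₀ * c, ?_, by group⟩
        rw [Finset.mem_filter, Finset.mem_filter]
        refine ⟨⟨Finset.mem_univ _, Subgroup.mul_mem _ hn₀
          (Subgroup.centralizer_le_normalizer _ hc.2)⟩, ?_⟩
        have hcx : c * x = x * c := (Subgroup.mem_centralizer_iff.mp hc.2 x hx.1).symm
        calc n₀ * c * x * (n₀ * c)⁻¹ = n₀ * (c * x) * c⁻¹ * n₀⁻¹ := by group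
          _ = n₀ * (x * c) * c⁻¹ * n₀⁻¹ := by rw [hcx]
          _ = n₀ * x * n₀⁻¹ := by group
    rw [Finset.sum_congr rfl h2, Finset.sum_const, smul_eq_mul, card_filter_mem, he] at h1
    have h3 : Nat.card (cen P) * e = Nat.card (cen P) * (orb x).card := by
      rw [h1, mul_comm]
    exact (Nat.eq_of_mul_eq_mul_left hcpos h3).symm
  have horbT : ∀ x ∈ T, orb x ⊆ T := by
    intro x hx y hy
    rw [hmT] at hx ⊢
    rw [hmo] at hy
    obtain ⟨n, hn, rfl⟩ := hy
    refine ⟨conj_mem hn hx.1, ?_⟩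
    intro h
    apply hx.2
    have h2 : x = n⁻¹ * (n * x * n⁻¹) * n := by group
    rw [h2, h]; group
  have hfib : ∀ x₀ ∈ T, T.filter (fun x => orb x = orb x₀) = orb x₀ := by
    intro x₀ hx₀
    ext x
    rw [Finset.mem_filter]
    constructor
    · rintro ⟨hx, hxo⟩
      rw [← hxo, hmo]
      exact ⟨1, Subgroup.one_mem _, by group⟩
    · intro hx
      refine ⟨horbT x₀ hx₀ hx, ?_⟩
      rw [hmo] at hx
      obtain ⟨n, hn, rfl⟩ := hx
      ext y
      rw [hmo, hmo]
      constructor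
      · rintro ⟨m, hm, rfl⟩
        exact ⟨m * n, Subgroup.mul_mem _ hm hn, by group⟩
      · rintro ⟨m, hm, rfl⟩
        exact ⟨m * n⁻¹, Subgroup.mul_mem _ hm (Subgroup.inv_mem _ hn), by group⟩
  have h3 : T.card = ∑ O ∈ T.image orb, (T.filter (fun x => orb x = O)).card :=
    Finset.card_eq_sum_card_fiberwise (fun x hx => Finset.mem_image_of_mem _ hx)
  have h4 : ∀ O ∈ T.image orb, (T.filter (fun x => orb x = O)).card = e := by
    intro O hO
    obtain ⟨x₀, hx₀, rfl⟩ := Finset.mem_image.mp hO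
    rw [hfib x₀ hx₀, horbcard x₀ hx₀]
  rw [Finset.sum_congr rfl h4, Finset.sum_const, smul_eq_mul, hTcard] at h3
  exact ⟨_, by rw [h3, mul_comm]⟩

/-- the case `N(P) = C(P)` -/
theorem case_one [Finite G] [Fact p.Prime] {P : Sylow p G} (hs : Star P) (χ : IrrCharacter G)
    (β₀ : IrrCharacter ↥(cen P)) (hres : ∀ c : ↥(cen P), χ.1 c = β₀.1 c)
    (hNC : Nat.card (nor P) = Nat.card (cen P)) :
    (∃ K : Subgroup G, K.Normal ∧ K ≠ ⊤ ∧ (P : Subgroup G) ≤ K) ∨
      ((∃ N : Subgroup G, N.Normal ∧ N.index = Nat.card (P : Subgroup G)) ∧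
        charDegree χ.1 = 1) := by
  classical
  have := Fintype.ofFinite G
  have hPz : (P : Subgroup G) ≤ Cfsg.Agent.Lib.helper22.zchar χ := by
    intro a ha
    rw [Cfsg.Agent.Lib.helper22.mem_zchar]
    intro g
    obtain ⟨c, hcc, hc⟩ := central_scalar β₀ ⟨a, le_cent hs ha⟩ (mem_center_cen hs ha)
    have h1 := hc 1
    rw [mul_one] at h1
    have hχa : χ.1 a = c * χ.1 1 := by
      have e1 := hres ⟨a, le_cent hs ha⟩
      have e2 := hres 1
      rw [h1, ← e2] at e1
      exact e1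
    have hcn : ‖c‖ = 1 := by
      have h2 : Complex.normSq c = 1 := by
        have h3 := hcc
        rw [Complex.mul_conj] at h3
        exact_mod_cast h3
      rw [Complex.normSq_eq_norm_sq] at h2
      have h4 := norm_nonneg c
      nlinarith
    have hnorm : ‖χ.1 a‖ = ‖χ.1 1‖ := by rw [hχa, norm_mul, hcn, one_mul]
    obtain ⟨n, ρ, hirr, hρ⟩ := χ.2
    have hfin : ρ.character 1 = (Module.finrank ℂ (Fin n → ℂ) : ℂ) := Representation.char_one ρ
    have hnorm' : ‖ρ.character a‖ = (Module.finrank ℂ (Fin n → ℂ) : ℝ) := by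
      rw [hρ, hnorm, ← hρ, hfin]
      simp
    obtain ⟨ω, hω⟩ := Cfsg.Agent.Lib.helper23.genrep_scalar_of_norm_eq ρ a
      (isOfFinOrder_of_finite a) hnorm'
    have hcom : ρ (a * g) = ρ (g * a) := by
      rw [map_mul, map_mul, hω]
      ext v
      simp
    have hone : ρ ((a * g) * (g * a)⁻¹) = 1 := by
      rw [map_mul, hcom, ← map_mul, mul_inv_cancel, map_one]
    have h2 : χ.1 ((a * g) * (g * a)⁻¹) = χ.1 1 := by
      rw [← hρ]
      show LinearMap.trace ℂ _ (ρ _) = LinearMap.trace ℂ _ (ρ 1)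
      rw [hone, map_one ρ]
    rw [mem_irrKer]
    have h3 : ⁅a, g⁆ = (a * g) * (g * a)⁻¹ := by rw [commutatorElement_def]; group
    rw [h3]; exact h2
  by_cases hz : Cfsg.Agent.Lib.helper22.zchar χ = ⊤
  · right
    constructor
    · have hle : nor P ≤ cen P := by
        have h := Subgroup.eq_of_le_of_card_ge
          (Subgroup.centralizer_le_normalizer ((P : Subgroup G) : Set G)) (le_of_eq hNC)
        exact le_of_eq h.symm
      have hcompl := MonoidHom.ker_transferSylow_isComplement' P hle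
      exact ⟨_, MonoidHom.normal_ker _, hcompl.symm.index_eq_card⟩
    · have h1 := Cfsg.Agent.Lib.helper22.sum_normSq_irr χ
      have h2 : ∀ g : G, Complex.normSq (χ.1 g) = (charDegree χ.1 : ℝ) ^ 2 := fun g =>
        Cfsg.Agent.Lib.helper22.irr_normSq_on_zchar χ g (by rw [hz]; exact Subgroup.mem_top g)
      rw [Finset.sum_congr rfl (fun g _ => h2 g), Finset.sum_const, Finset.card_univ,
        nsmul_eq_mul, ← Nat.card_eq_fintype_card] at h1
      have hg : (0 : ℝ) < Nat.card G := by exact_mod_cast (Nat.card_pos (α := G))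
      have h3 : (charDegree χ.1 : ℝ) ^ 2 = 1 := by
        have h5 : (Nat.card G : ℝ) * ((charDegree χ.1 : ℝ) ^ 2 - 1) = 0 := by linarith
        rcases mul_eq_zero.mp h5 with h | h
        · exact absurd h hg.ne'
        · linarith
      have h4 : charDegree χ.1 ^ 2 = 1 := by exact_mod_cast h3
      have h6 := charDegree_pos χ
      exact le_antisymm (by nlinarith) h6
  · left
    exact ⟨_, Cfsg.Agent.Lib.helper22.zchar_normal χ, hz, hPz⟩

end Cfsg.Agent.Lib.helper2.BL
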