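import Mathlib
import Cfsg.Agent.Lib.helper2.BLc

set_option autoImplicit false

/-!
# Brauer–Leonard, part D: the key inequality between fourth moments
-/

namespace Cfsg.Agent.Lib.helper2.BL

open Cfsg Cfsg.Agent.Lib.helper24
open scoped ComplexConjugate

universe u

variable {G : Type u} [Group G] {p : ℕ}

open Classical in
/-- a character which is nontrivial on `u ∈ P` has a constituent on `C(P)` nontrivial on `u` -/
theorem exists_nontriv [Fintype G] {P : Sylow p G} (hs : Star P) (ψ : G → ℂ)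
    (hψ : IsCharacter G ψ) [Fintype (IrrCharacter ↥(cen P))]
    (m : IrrCharacter ↥(cen P) → ℕ)
    (hm : ∀ β : IrrCharacter ↥(cen P), classInner (fun c : ↥(cen P) => ψ c) β.1 = (m β : ℂ))
    (u : G) (hu : u ∈ (P : Subgroup G)) (hχu : ψ u ≠ ψ 1) :
    ∃ β₀ : IrrCharacter ↥(cen P), m β₀ ≠ 0 ∧ β₀.1 ⟨u, le_cent hs hu⟩ ≠ β₀.1 1 := by
  have hexp := classFunction_expansion_apply
    (isCharacter_conj_class (isCharacter_restrict (cen P) hψ))
  by_contra hcon
  push Not at hcon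
  apply hχu
  have e1 := hexp ⟨u, le_cent hs hu⟩
  have e2 := hexp 1
  have e3 : ∀ β : IrrCharacter ↥(cen P),
      classInner (fun c : ↥(cen P) => ψ c) β.1 * β.1 ⟨u, le_cent hs hu⟩ =
      classInner (fun c : ↥(cen P) => ψ c) β.1 * β.1 1 := by
    intro β
    by_cases hβ : m β = 0
    · rw [hm β, hβ]; simp
    · rw [hcon β hβ]
  rw [Finset.sum_congr rfl (fun β _ => e3 β), ← e2] at e1
  exact e1

open Classical in
/-- the key inequality -/
theorem key_ineq [Fintype G] [Fact p.Prime] {P : Sylow p G} (hs : Star P)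
    (χ : IrrCharacter G) (𝒪 : Finset (IrrCharacter ↥(cen P)))
    (hres : ∀ c : ↥(cen P), χ.1 c = ∑ β ∈ 𝒪, β.1 c)
    (e : ℕ) (he : Nat.card (nor P) = Nat.card (cen P) * e)
    (hNP : ∀ ψ : IrrCharacter G, ψ ≠ trivIrr G → ∃ u ∈ (P : Subgroup G), ψ.1 u ≠ ψ.1 1) :
    ∃ a b c : ℕ,
      (a : ℝ) * (Nat.card (cen P) : ℝ) = ∑ k : ↥(cen P), (Complex.normSq (χ.1 k)) ^ 2 ∧
      (b : ℝ) * (Nat.card G : ℝ) = ∑ g : G, (Complex.normSq (χ.1 g)) ^ 2 ∧
      (c : ℝ) * (Nat.card (cen P) : ℝ) =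
        ∑ k : ↥(cen P), (∑ β ∈ 𝒪, Complex.normSq (β.1 k)) ^ 2 ∧
      c + e * b ≤ a + e ∧ 𝒪.card ^ 2 ≤ c := by
  have : Fintype (IrrCharacter ↥(cen P)) := Fintype.ofFinite _
  have : Fintype (IrrCharacter G) := Fintype.ofFinite _
  have hθ : IsCharacter G (fun g => χ.1 g * conj (χ.1 g)) :=
    isCharacter_mul (isCharacter_irr χ) (isCharacter_conj (isCharacter_irr χ))
  have hθC : IsCharacter ↥(cen P) (fun c : ↥(cen P) => χ.1 c * conj (χ.1 c)) :=
    isCharacter_restrict (cen P) hθ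
  have hββ : ∀ β β' : IrrCharacter ↥(cen P),
      IsCharacter ↥(cen P) (fun c => β.1 c * conj (β'.1 c)) :=
    fun β β' => isCharacter_mul (isCharacter_irr β) (isCharacter_conj (isCharacter_irr β'))
  have hD : IsCharacter ↥(cen P) (fun c : ↥(cen P) => ∑ β ∈ 𝒪, β.1 c * conj (β.1 c)) := by
    have h1 := isCharacter_finset_sum 𝒪
      (fun β => fun c : ↥(cen P) => β.1 c * conj (β.1 c)) (fun β _ => hββ β β)
    convert h1 using 1
    funext c; rw [Finset.sum_apply]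
  have hE : IsCharacter ↥(cen P)
      (fun c : ↥(cen P) => ∑ β ∈ 𝒪, ∑ β' ∈ 𝒪.erase β, β.1 c * conj (β'.1 c)) := by
    have h1 := isCharacter_finset_sum 𝒪
      (fun β => fun c : ↥(cen P) => ∑ β' ∈ 𝒪.erase β, β.1 c * conj (β'.1 c)) (fun β _ => by
        have h2 := isCharacter_finset_sum (𝒪.erase β)
          (fun β' => fun c : ↥(cen P) => β.1 c * conj (β'.1 c)) (fun β' _ => hββ β β')
        convert h2 using 1
        funext c; rw [Finset.sum_apply])
    convert h1 using 1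
    funext c; rw [Finset.sum_apply]
  have hsplit : (fun c : ↥(cen P) => χ.1 c * conj (χ.1 c)) =
      (fun c : ↥(cen P) => ∑ β ∈ 𝒪, β.1 c * conj (β.1 c)) +
      (fun c : ↥(cen P) => ∑ β ∈ 𝒪, ∑ β' ∈ 𝒪.erase β, β.1 c * conj (β'.1 c)) := by
    funext c
    rw [Pi.add_apply, hres c, map_sum, Finset.sum_mul, ← Finset.sum_add_distrib]
    apply Finset.sum_congr rfl
    intro β hβ
    rw [Finset.mul_sum, ← Finset.add_sum_erase 𝒪 _ hβ]
  choose nn hnn using fun ψ : IrrCharacter G => isCharacter_inner_irr_nat hθ ψ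
  choose M hM using fun γ : IrrCharacter ↥(cen P) => isCharacter_inner_irr_nat hθC γ
  choose dd hdd using fun γ : IrrCharacter ↥(cen P) => isCharacter_inner_irr_nat hD γ
  choose ee hee using fun γ : IrrCharacter ↥(cen P) => isCharacter_inner_irr_nat hE γ
  choose mm hmm using fun (ψ : IrrCharacter G) (γ : IrrCharacter ↥(cen P)) =>
    isCharacter_inner_irr_nat (isCharacter_restrict (cen P) (isCharacter_irr ψ)) γ
  have hMde : ∀ γ, M γ = dd γ + ee γ := by
    intro γ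
    have h1 := hM γ
    rw [hsplit, classInner_add_left, hdd γ, hee γ] at h1
    exact_mod_cast h1.symm
  have hMexp : ∀ γ, M γ = ∑ ψ : IrrCharacter G, nn ψ * mm ψ γ := by
    intro γ
    have hfun : (fun c : ↥(cen P) => χ.1 c * conj (χ.1 c)) =
        ∑ ψ : IrrCharacter G, (nn ψ : ℂ) • (fun c : ↥(cen P) => ψ.1 c) := by
      funext c
      have h1 : χ.1 c * conj (χ.1 c) = ∑ ψ : IrrCharacter G,
          classInner (fun g => χ.1 g * conj (χ.1 g)) ψ.1 * ψ.1 c :=
        classFunction_expansion_apply (isCharacter_conj_class hθ) (c : G)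
      rw [h1, Finset.sum_apply]
      apply Finset.sum_congr rfl
      intro ψ _
      rw [hnn ψ]; rfl
    have h1 := hM γ
    rw [hfun, classInner_sum_left] at h1
    simp only [classInner_smul_left, hmm] at h1
    exact_mod_cast h1.symm
  have hnn1 : nn (trivIrr G) = 1 := by
    have h1 := hnn (trivIrr G)
    have h2 : classInner (fun g => χ.1 g * conj (χ.1 g)) (trivIrr G).1 =
        classInner χ.1 χ.1 := by
      unfold classInner
      congr 1
      apply Finset.sum_congr rfl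
      intro g _
      rw [trivIrr_apply, map_one, mul_one]
    rw [h2, irr_inner_self] at h1
    exact_mod_cast h1.symm
  have hDinv : ∀ (u : G) (hu : u ∈ (P : Subgroup G)) (k : ↥(cen P)),
      (fun c : ↥(cen P) => ∑ β ∈ 𝒪, β.1 c * conj (β.1 c)) (⟨u, le_cent hs hu⟩ * k) =
      (fun c : ↥(cen P) => ∑ β ∈ 𝒪, β.1 c * conj (β.1 c)) k := by
    intro u hu k
    show ∑ β ∈ 𝒪, β.1 (⟨u, le_cent hs hu⟩ * k) * conj (β.1 (⟨u, le_cent hs hu⟩ * k)) =
      ∑ β ∈ 𝒪, β.1 k * conj (β.1 k)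
    apply Finset.sum_congr rfl
    intro β _
    obtain ⟨c, hcc, hc⟩ := central_scalar β ⟨u, le_cent hs hu⟩ (mem_center_cen hs hu)
    rw [hc k, map_mul]
    linear_combination (β.1 k * conj (β.1 k)) * hcc
  have hdd0 : ∀ γ : IrrCharacter ↥(cen P),
      (∃ u : G, ∃ hu : u ∈ (P : Subgroup G), γ.1 ⟨u, le_cent hs hu⟩ ≠ γ.1 1) → dd γ = 0 := by
    rintro γ ⟨u, hu, hne⟩
    have h1 := inner_zero_of_invariant (fun c : ↥(cen P) => ∑ β ∈ 𝒪, β.1 c * conj (β.1 c))
      ⟨u, le_cent hs hu⟩ (mem_center_cen hs hu) (hDinv u hu) γ hne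
    rw [hdd γ] at h1
    exact_mod_cast h1
  obtain ⟨T, hT⟩ : ∃ T : Finset (IrrCharacter ↥(cen P)), T = Finset.univ.filter
      (fun γ : IrrCharacter ↥(cen P) =>
        ∃ u : G, ∃ hu : u ∈ (P : Subgroup G), γ.1 ⟨u, le_cent hs hu⟩ ≠ γ.1 1) := ⟨_, rfl⟩
  have hmT : ∀ γ : IrrCharacter ↥(cen P), γ ∈ T ↔
      ∃ u : G, ∃ hu : u ∈ (P : Subgroup G), γ.1 ⟨u, le_cent hs hu⟩ ≠ γ.1 1 := by
    intro γ; rw [hT, Finset.mem_filter]; simp
  have hcpos : 0 < Nat.card (cen P) := Nat.card_pos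
  have horb : ∀ ψ : IrrCharacter G, ψ ≠ trivIrr G → e ≤ ∑ γ ∈ T, (mm ψ γ) ^ 2 := by
    intro ψ hψ
    obtain ⟨u, hu, hψu⟩ := hNP ψ hψ
    obtain ⟨γ₀, hγ₀m, hγ₀u⟩ := exists_nontriv hs ψ.1 (isCharacter_irr ψ) (mm ψ) (hmm ψ) u hu hψu
    obtain ⟨S, hS1, hS2⟩ := orbit_lemma hs ψ.1 (isClassFunction_irr ψ) γ₀ u hu hγ₀u
    have heS : e ≤ S.card := by
      rw [he] at hS1
      exact Nat.le_of_mul_le_mul_left hS1 hcpos
    have hST : S ⊆ T := by
      intro γ hγ
      rw [hmT]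
      exact (hS2 γ hγ).2
    have hmS : ∀ γ ∈ S, 1 ≤ (mm ψ γ) ^ 2 := by
      intro γ hγ
      have h1 := (hS2 γ hγ).1
      rw [hmm ψ γ, hmm ψ γ₀] at h1
      have h2 : mm ψ γ = mm ψ γ₀ := by exact_mod_cast h1
      rw [h2]
      exact Nat.one_le_pow _ _ (Nat.pos_of_ne_zero hγ₀m)
    calc e ≤ S.card := heS
      _ = ∑ γ ∈ S, 1 := by simp
      _ ≤ ∑ γ ∈ S, (mm ψ γ) ^ 2 := Finset.sum_le_sum hmS
      _ ≤ ∑ γ ∈ T, (mm ψ γ) ^ 2 := Finset.sum_le_sum_of_subset hST
  -- the three norms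
  have hpa := parseval_nat (isCharacter_conj_class hθC) M hM
  have hpb := parseval_nat (isCharacter_conj_class hθ) nn hnn
  have hpc := parseval_nat (isCharacter_conj_class hD) dd hdd
  have hra := inner_self_real (fun c : ↥(cen P) => χ.1 c * conj (χ.1 c))
    (fun k => (Complex.normSq (χ.1 k)) ^ 2) (fun k => by
      have h1 : χ.1 k * conj (χ.1 k) = ((Complex.normSq (χ.1 k) : ℝ) : ℂ) :=
        Complex.mul_conj _
      show (χ.1 k * conj (χ.1 k)) * conj (χ.1 k * conj (χ.1 k)) = _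
      rw [h1, Complex.conj_ofReal]; push_cast; ring) _ hpa
  have hrb := inner_self_real (fun g : G => χ.1 g * conj (χ.1 g))
    (fun g => (Complex.normSq (χ.1 g)) ^ 2) (fun k => by
      have h1 : χ.1 k * conj (χ.1 k) = ((Complex.normSq (χ.1 k) : ℝ) : ℂ) :=
        Complex.mul_conj _
      show (χ.1 k * conj (χ.1 k)) * conj (χ.1 k * conj (χ.1 k)) = _
      rw [h1, Complex.conj_ofReal]; push_cast; ring) _ hpb
  have hrc := inner_self_real (fun c : ↥(cen P) => ∑ β ∈ 𝒪, β.1 c * conj (β.1 c))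
    (fun k => (∑ β ∈ 𝒪, Complex.normSq (β.1 k)) ^ 2) (fun k => by
      have h1 : ∑ β ∈ 𝒪, β.1 k * conj (β.1 k) =
          ((∑ β ∈ 𝒪, Complex.normSq (β.1 k) : ℝ) : ℂ) := by
        push_cast
        exact Finset.sum_congr rfl (fun β _ => Complex.mul_conj _)
      show (∑ β ∈ 𝒪, β.1 k * conj (β.1 k)) * conj (∑ β ∈ 𝒪, β.1 k * conj (β.1 k)) = _
      rw [h1, Complex.conj_ofReal]; push_cast; ring) _ hpc
  refine ⟨_, _, _, hra, hrb, hrc, ?_, ?_⟩
  · -- the inequality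
    have hb : ∑ ψ : IrrCharacter G, (nn ψ) ^ 2 =
        1 + ∑ ψ ∈ Finset.univ.erase (trivIrr G), (nn ψ) ^ 2 := by
      rw [← Finset.add_sum_erase Finset.univ _ (Finset.mem_univ (trivIrr G)), hnn1]
      norm_num
    have hT1 : e * ∑ ψ ∈ Finset.univ.erase (trivIrr G), (nn ψ) ^ 2 ≤ ∑ γ ∈ T, (M γ) ^ 2 := by
      calc e * ∑ ψ ∈ Finset.univ.erase (trivIrr G), (nn ψ) ^ 2
          = ∑ ψ ∈ Finset.univ.erase (trivIrr G), (nn ψ) ^ 2 * e := by
            rw [Finset.mul_sum]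
            apply Finset.sum_congr rfl
            intro ψ _
            ring
        _ ≤ ∑ ψ ∈ Finset.univ.erase (trivIrr G), (nn ψ) ^ 2 * ∑ γ ∈ T, (mm ψ γ) ^ 2 := by
            apply Finset.sum_le_sum
            intro ψ hψ
            exact Nat.mul_le_mul_left _ (horb ψ (Finset.ne_of_mem_erase hψ))
        _ ≤ ∑ ψ : IrrCharacter G, (nn ψ) ^ 2 * ∑ γ ∈ T, (mm ψ γ) ^ 2 :=
            Finset.sum_le_sum_of_subset (Finset.erase_subset _ _)
        _ = ∑ ψ : IrrCharacter G, ∑ γ ∈ T, (nn ψ * mm ψ γ) ^ 2 := by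
            apply Finset.sum_congr rfl
            intro ψ _
            rw [Finset.mul_sum]
            apply Finset.sum_congr rfl
            intro γ _
            ring
        _ = ∑ γ ∈ T, ∑ ψ : IrrCharacter G, (nn ψ * mm ψ γ) ^ 2 := Finset.sum_comm
        _ ≤ ∑ γ ∈ T, (M γ) ^ 2 := by
            apply Finset.sum_le_sum
            intro γ _
            rw [hMexp γ]
            exact sum_sq_le_sq_sum_nat _ _
    have hT2 : ∑ γ : IrrCharacter ↥(cen P), (dd γ) ^ 2 ≤ ∑ γ ∈ Tᶜ, (M γ) ^ 2 := by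
      rw [← Finset.sum_add_sum_compl T (fun γ => (dd γ) ^ 2)]
      have h0 : ∑ γ ∈ T, (dd γ) ^ 2 = 0 := by
        apply Finset.sum_eq_zero
        intro γ hγ
        rw [hdd0 γ ((hmT γ).mp hγ)]
        norm_num
      rw [h0, zero_add]
      apply Finset.sum_le_sum
      intro γ _
      rw [hMde γ]
      exact Nat.pow_le_pow_left (Nat.le_add_right _ _) 2
    have hsplitM := Finset.sum_add_sum_compl T (fun γ => (M γ) ^ 2)
    rw [hb]
    nlinarith
  · -- the trivial constituent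
    have hddtriv : dd (trivIrr ↥(cen P)) = 𝒪.card := by
      have h1 := hdd (trivIrr ↥(cen P))
      have h2 : classInner (fun c : ↥(cen P) => ∑ β ∈ 𝒪, β.1 c * conj (β.1 c))
          (trivIrr ↥(cen P)).1 = ∑ β ∈ 𝒪, classInner β.1 β.1 := by
        unfold classInner
        rw [← Finset.mul_sum, Finset.sum_comm]
        congr 1
        apply Finset.sum_congr rfl
        intro k _
        rw [trivIrr_apply, map_one, mul_one]
      rw [h2, Finset.sum_congr rfl (fun β _ => irr_inner_self β), Finset.sum_const,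
        nsmul_eq_mul, mul_one] at h1
      exact_mod_cast h1.symm
    rw [← hddtriv]
    exact Finset.single_le_sum (f := fun γ => (dd γ) ^ 2) (fun _ _ => Nat.zero_le _)
      (Finset.mem_univ (trivIrr ↥(cen P)))

end Cfsg.Agent.Lib.helper2.BL
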