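import Mathlib
import Cfsg.Agent.Lib.helper2.BLd

set_option autoImplicit false

/-!
# Brauer–Leonard, part E: the final inequalities
-/

namespace Cfsg.Agent.Lib.helper2.BL

open Cfsg Cfsg.Agent.Lib.helper24
open scoped ComplexConjugate

universe u

section arith

theorem variance_ineq {ι : Type*} (s : Finset ι) (f : ι → ℝ) (i₀ : ι) (h : i₀ ∈ s) (μ : ℝ) :
    (f i₀ - μ) ^ 2 ≤ ∑ i ∈ s, (f i) ^ 2 - 2 * μ * ∑ i ∈ s, f i + μ ^ 2 * (s.card : ℝ) := by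
  have h1 : ∑ i ∈ s, (f i - μ) ^ 2 =
      ∑ i ∈ s, (f i) ^ 2 - 2 * μ * ∑ i ∈ s, f i + μ ^ 2 * (s.card : ℝ) := by
    calc ∑ i ∈ s, (f i - μ) ^ 2 = ∑ i ∈ s, ((f i) ^ 2 - 2 * μ * f i + μ ^ 2) :=
          Finset.sum_congr rfl (fun i _ => by ring)
      _ = ∑ i ∈ s, (f i) ^ 2 - 2 * μ * ∑ i ∈ s, f i + μ ^ 2 * (s.card : ℝ) := by
          rw [Finset.sum_add_distrib, Finset.sum_sub_distrib, ← Finset.mul_sum, Finset.sum_const,
            nsmul_eq_mul]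
          ring
  rw [← h1]
  exact Finset.single_le_sum (f := fun i => (f i - μ) ^ 2) (fun i _ => sq_nonneg _) h

/-- (J) -/
theorem arith1 (g cC e a b c S4r V4 : ℝ) (hg : 0 < g) (hc : 0 < cC)
    (m4 : cC * e * S4r + g * (a * cC) = cC * e * (b * g) + g * V4)
    (hk : c + e * b ≤ a + e) :
    cC * e * S4r ≤ g * (V4 + cC * (e - c)) := by
  have h1 := mul_le_mul_of_nonneg_left hk (mul_pos hc hg).le
  nlinarith

/-- part 1 -/
theorem arith2 (g cC e q c S4r V4 : ℝ) (hg : 0 < g) (hc : 0 < cC) (he : 1 ≤ e)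
    (hq : e ^ 2 < q) (hS : 0 < S4r)
    (J : cC * e * S4r ≤ g * (V4 + cC * (e - c)))
    (hce : e ^ 2 ≤ c)
    (f5 : q * V4 ≤ e ^ 2 * (c * cC)) :
    e * q < q + e ^ 3 := by
  have h1 : 0 < cC * e * S4r := by positivity
  have h2 : 0 < V4 + cC * (e - c) := by
    by_contra hcon
    push Not at hcon
    have := mul_nonpos_of_nonneg_of_nonpos hg.le hcon
    linarith
  -- q cC (c - e) < q V4 ≤ e^2 c cC
  have h3 : q * (cC * (c - e)) < e ^ 2 * (c * cC) := by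
    have hq0 : 0 < q := by nlinarith
    have := mul_lt_mul_of_pos_left (show cC * (c - e) < V4 by linarith) hq0
    linarith
  have h4 : q * (c - e) < e ^ 2 * c := by
    have h5 : cC * (q * (c - e)) < cC * (e ^ 2 * c) := by nlinarith
    exact lt_of_mul_lt_mul_left h5 hc.le
  -- c (q - e^2) < q e ; c ≥ e^2
  have h6 : e ^ 2 * (q - e ^ 2) ≤ c * (q - e ^ 2) :=
    mul_le_mul_of_nonneg_right hce (by linarith)
  have h7 : e ^ 2 * (q - e ^ 2) < q * e := by nlinarith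
  have h8 : e * (e * (q - e ^ 2)) < e * q := by nlinarith
  have h9 := lt_of_mul_lt_mul_left h8 (by linarith : (0:ℝ) ≤ e)
  nlinarith

/-- part 2 -/
theorem arith3 (e x q : ℕ) (he : 2 ≤ e) (hex : e ≤ x) (hxq : x ^ 2 + 1 < q)
    (hdvd : e ∣ q - 1) (h : e * q < q + e ^ 3) : q = e ^ 2 + e + 1 ∧ x = e := by
  obtain ⟨k, hk⟩ := hdvd
  have hq : q = e * k + 1 := by omega
  subst hq
  have h1 : e ^ 2 ≤ x ^ 2 := Nat.pow_le_pow_left hex 2
  have h2 : e < k := by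
    by_contra hcon
    push Not at hcon
    have : e * k ≤ e * e := Nat.mul_le_mul_left e hcon
    nlinarith
  have h3 : k < e + 2 := by
    by_contra hcon
    push Not at hcon
    have h4 : e * (e + 2) ≤ e * k := Nat.mul_le_mul_left e hcon
    nlinarith
  have hk' : k = e + 1 := by omega
  subst hk'
  refine ⟨by ring, ?_⟩
  have h5 : x < e + 1 := by
    by_contra hcon
    push Not at hcon
    have : (e + 1) ^ 2 ≤ x ^ 2 := Nat.pow_le_pow_left hcon 2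
    nlinarith
  omega

/-- part 3 -/
theorem arith4 (g cC v e q c μ S2r S4r R V2 V4 : ℝ) (hg : 0 < g) (hv : 0 < v) (he : 2 ≤ e)
    (hq : q = e ^ 2 + e + 1) (hcC : cC = q * v)
    (hV2 : V2 = μ * e ^ 3 * v)
    (m1 : cC * e * S2r = g * V2)
    (m0 : cC * e * R + g * cC = cC * e * g + g * v)
    (J : cC * e * S4r ≤ g * (V4 + cC * (e - c)))
    (hce : e ^ 2 ≤ c)
    (f6 : V4 ≤ e ^ 2 * V2) (hV2le : V2 ≤ v * e ^ 2) (hV20 : 0 ≤ V2)
    (f7 : (e ^ 2 - μ) ^ 2 ≤ S4r - 2 * μ * S2r + μ ^ 2 * R) : False := by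
  have he0 : 0 < e := by linarith
  have hq0 : 0 < q := by rw [hq]; positivity
  have hve : 0 < v * e := mul_pos hv he0
  -- μ bounds
  have hμ0 : 0 ≤ μ := by
    by_contra hcon
    push Not at hcon
    have : μ * e ^ 3 * v < 0 := by
      have : 0 < e ^ 3 * v := by positivity
      nlinarith
    linarith
  have hμ1 : e * μ ≤ 1 := by
    have h1 : μ * e ^ 3 * v ≤ v * e ^ 2 := by rw [← hV2]; exact hV2le
    have h2 : (v * e ^ 2) * (e * μ) ≤ (v * e ^ 2) * 1 := by nlinarith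
    exact le_of_mul_le_mul_left h2 (by positivity)
  -- (A)
  have hA : q * S2r = g * μ * e ^ 2 := by
    have h1 : (v * e) * (q * S2r) = (v * e) * (g * μ * e ^ 2) := by
      rw [hcC, hV2] at m1
      linear_combination m1
    exact mul_left_cancel₀ hve.ne' h1
  -- (B)
  have hB : q * R = g * e ^ 2 := by
    have h1 : (v * e) * (q * R) = (v * e) * (g * e ^ 2) := by
      rw [hcC] at m0
      have hqe : q * e - q + 1 = e ^ 3 := by rw [hq]; ring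
      have h2 : v * (q * e * R) = v * (g * (q * e - q + 1)) := by linear_combination m0
      rw [hqe] at h2
      linear_combination h2
    exact mul_left_cancel₀ hve.ne' h1
  -- (C)
  have hC : q * S4r ≤ g * (e ^ 4 * μ + q * (1 - e)) := by
    have h1 : (v * e) * (q * S4r) ≤ (v * e) * (g * (e ^ 4 * μ + q * (1 - e))) := by
      rw [hcC] at J
      have h2 : V4 ≤ e ^ 5 * μ * v := by rw [hV2] at f6; linarith
      have h3 : q * v * (e - c) ≤ q * v * (e - e ^ 2) :=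
        mul_le_mul_of_nonneg_left (by linarith) (mul_pos hq0 hv).le
      have h4 : g * (V4 + q * v * (e - c)) ≤ g * (e ^ 5 * μ * v + q * v * (e - e ^ 2)) :=
        mul_le_mul_of_nonneg_left (by linarith) hg.le
      calc (v * e) * (q * S4r) = q * v * e * S4r := by ring
        _ ≤ g * (V4 + q * v * (e - c)) := J
        _ ≤ g * (e ^ 5 * μ * v + q * v * (e - e ^ 2)) := h4
        _ = (v * e) * (g * (e ^ 4 * μ + q * (1 - e))) := by ring
    exact le_of_mul_le_mul_left h1 hve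
  -- (D) times q
  have hD : q * (e ^ 2 - μ) ^ 2 ≤ g * (e ^ 4 * μ + q * (1 - e) - μ ^ 2 * e ^ 2) := by
    have h1 := mul_le_mul_of_nonneg_left f7 hq0.le
    have h2 : q * (S4r - 2 * μ * S2r + μ ^ 2 * R) =
        q * S4r - 2 * μ * (q * S2r) + μ ^ 2 * (q * R) := by ring
    rw [h2, hA, hB] at h1
    nlinarith
  have hfac : e ^ 4 * μ + q * (1 - e) - μ ^ 2 * e ^ 2 = -((e * μ - 1) * (e * μ - e ^ 3 + 1)) := by
    rw [hq]; ring
  have hprod : 0 ≤ (e * μ - 1) * (e * μ - e ^ 3 + 1) := by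
    apply mul_nonneg_of_nonpos_of_nonpos
    · linarith
    · have : (8 : ℝ) ≤ e ^ 3 := by nlinarith [sq_nonneg e]
      linarith
  have hD' : q * (e ^ 2 - μ) ^ 2 ≤ 0 := by
    rw [hfac] at hD
    have : g * -((e * μ - 1) * (e * μ - e ^ 3 + 1)) ≤ 0 := by
      have := mul_nonneg hg.le hprod
      linarith
    linarith
  have hpos : 0 < e ^ 2 - μ := by
    have h1 : μ ≤ 1 := by nlinarith
    nlinarith
  have : 0 < q * (e ^ 2 - μ) ^ 2 := by positivity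
  linarith

end arith

variable {G : Type u} [Group G] {p : ℕ}

open Classical in
theorem res_norm [Fintype G] {P : Sylow p G} (χ : IrrCharacter G)
    (𝒪 : Finset (IrrCharacter ↥(cen P)))
    (hres : ∀ c : ↥(cen P), χ.1 c = ∑ β ∈ 𝒪, β.1 c) :
    (𝒪.card : ℝ) * (Nat.card (cen P) : ℝ) = ∑ k : ↥(cen P), Complex.normSq (χ.1 k) := by
  apply inner_self_real (fun c : ↥(cen P) => χ.1 c) (fun k => Complex.normSq (χ.1 k))
    (fun k => Complex.mul_conj _)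
  have hfun : (fun c : ↥(cen P) => χ.1 c) = ∑ β ∈ 𝒪, β.1 := by
    funext c; rw [hres c, Finset.sum_apply]
  rw [hfun, classInner_sum_left]
  simp only [classInner_sum_right, irr_orthonormal]
  rw [Finset.sum_congr rfl (fun β hβ => by rw [Finset.sum_ite_eq, if_pos hβ])]
  simp

theorem card_le_deg [Finite G] {P : Sylow p G} (χ : IrrCharacter G)
    (𝒪 : Finset (IrrCharacter ↥(cen P)))
    (hres : ∀ c : ↥(cen P), χ.1 c = ∑ β ∈ 𝒪, β.1 c) : 𝒪.card ≤ charDegree χ.1 := by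
  have h1 : χ.1 1 = ∑ β ∈ 𝒪, β.1 1 := hres 1
  have h2 : (charDegree χ.1 : ℂ) = ((∑ β ∈ 𝒪, charDegree β.1 : ℕ) : ℂ) := by
    rw [charDegree_cast χ]; push_cast
    rw [Finset.sum_congr rfl (fun β _ => charDegree_cast β)]
    exact h1
  have h3 : charDegree χ.1 = ∑ β ∈ 𝒪, charDegree β.1 := by exact_mod_cast h2
  rw [h3]
  calc 𝒪.card = ∑ β ∈ 𝒪, 1 := by simp
    _ ≤ _ := Finset.sum_le_sum (fun β _ => charDegree_pos β)

open Classical in
theorem fourth_bound [Fintype G] [Fact p.Prime] {P : Sylow p G} (hs : Star P)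
    (χ : IrrCharacter G) (𝒪 : Finset (IrrCharacter ↥(cen P)))
    (hres : ∀ c : ↥(cen P), χ.1 c = ∑ β ∈ 𝒪, β.1 c) :
    (Nat.card (P : Subgroup G) : ℝ) *
        ∑ g ∈ Finset.univ.filter (fun g : G => g ∈ cen P ∧ ¬ p ∣ orderOf g),
          (Complex.normSq (χ.1 g)) ^ 2
      ≤ (𝒪.card : ℝ) ^ 2 * ∑ k : ↥(cen P), (∑ β ∈ 𝒪, Complex.normSq (β.1 k)) ^ 2 := by
  obtain ⟨DG, hDG⟩ : ∃ DG : G → ℝ, DG = fun g =>
      if h : g ∈ cen P then ∑ β ∈ 𝒪, Complex.normSq (β.1 ⟨g, h⟩) else 0 := ⟨_, rfl⟩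
  have hDGmem : ∀ (g : G) (h : g ∈ cen P),
      DG g = ∑ β ∈ 𝒪, Complex.normSq (β.1 ⟨g, h⟩) := by
    intro g h
    subst hDG
    exact dif_pos h
  have h1 : ∑ k : ↥(cen P), (∑ β ∈ 𝒪, Complex.normSq (β.1 k)) ^ 2 =
      ∑ g ∈ Finset.univ.filter (fun g : G => g ∈ cen P), (DG g) ^ 2 := by
    rw [← sum_cen P (fun g => (DG g) ^ 2)]
    apply Finset.sum_congr rfl
    intro k _
    rw [hDGmem k k.2]
  have hinv : ∀ u ∈ (P : Subgroup G), ∀ c ∈ cen P, (DG (u * c)) ^ 2 = (DG c) ^ 2 := by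
    intro u hu c hc
    rw [hDGmem _ (Subgroup.mul_mem _ (le_cent hs hu) hc), hDGmem c hc]
    congr 1
    apply Finset.sum_congr rfl
    intro β _
    obtain ⟨z, hzz, hz⟩ := central_scalar β ⟨u, le_cent hs hu⟩ (mem_center_cen hs hu)
    have e1 : (⟨u * c, Subgroup.mul_mem _ (le_cent hs hu) hc⟩ : ↥(cen P)) =
        ⟨u, le_cent hs hu⟩ * ⟨c, hc⟩ := rfl
    rw [e1, hz, map_mul]
    have hz1 : Complex.normSq z = 1 := by
      have h3 := hzz
      rw [Complex.mul_conj] at h3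
      exact_mod_cast h3
    rw [hz1, one_mul]
  have h2 := sum_cent_eq_real hs (fun g => (DG g) ^ 2) hinv
  have h3 : ∀ g ∈ Finset.univ.filter (fun g : G => g ∈ cen P ∧ ¬ p ∣ orderOf g),
      (Complex.normSq (χ.1 g)) ^ 2 ≤ (𝒪.card : ℝ) ^ 2 * (DG g) ^ 2 := by
    intro g hg
    rw [Finset.mem_filter] at hg
    have hgC := hg.2.1
    have e1 : χ.1 g = ∑ β ∈ 𝒪, β.1 ⟨g, hgC⟩ := hres ⟨g, hgC⟩
    have e2 : Complex.normSq (χ.1 g) ≤ (𝒪.card : ℝ) * DG g := by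
      rw [e1, hDGmem g hgC, Complex.normSq_eq_norm_sq]
      calc ‖∑ β ∈ 𝒪, β.1 ⟨g, hgC⟩‖ ^ 2 ≤ (∑ β ∈ 𝒪, ‖β.1 ⟨g, hgC⟩‖) ^ 2 :=
            pow_le_pow_left₀ (norm_nonneg _) (norm_sum_le _ _) 2
        _ ≤ (𝒪.card : ℝ) * ∑ β ∈ 𝒪, ‖β.1 ⟨g, hgC⟩‖ ^ 2 := sq_sum_le_card_mul_sum_sq
        _ = (𝒪.card : ℝ) * ∑ β ∈ 𝒪, Complex.normSq (β.1 ⟨g, hgC⟩) := by
            congr 1
            apply Finset.sum_congr rfl
            intro β _
            rw [Complex.normSq_eq_norm_sq]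
    have e3 : 0 ≤ Complex.normSq (χ.1 g) := Complex.normSq_nonneg _
    calc (Complex.normSq (χ.1 g)) ^ 2 ≤ ((𝒪.card : ℝ) * DG g) ^ 2 := pow_le_pow_left₀ e3 e2 2
      _ = _ := by ring
  calc (Nat.card (P : Subgroup G) : ℝ) *
        ∑ g ∈ Finset.univ.filter (fun g : G => g ∈ cen P ∧ ¬ p ∣ orderOf g),
          (Complex.normSq (χ.1 g)) ^ 2
      ≤ (Nat.card (P : Subgroup G) : ℝ) *
        ∑ g ∈ Finset.univ.filter (fun g : G => g ∈ cen P ∧ ¬ p ∣ orderOf g),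
          (𝒪.card : ℝ) ^ 2 * (DG g) ^ 2 :=
        mul_le_mul_of_nonneg_left (Finset.sum_le_sum h3) (Nat.cast_nonneg _)
    _ = (𝒪.card : ℝ) ^ 2 * ((Nat.card (P : Subgroup G) : ℝ) *
        ∑ g ∈ Finset.univ.filter (fun g : G => g ∈ cen P ∧ ¬ p ∣ orderOf g), (DG g) ^ 2) := by
        rw [← Finset.mul_sum]; ring
    _ = _ := by rw [← h2, ← h1]


open Classical in
/-- if `|N(P) : C(P)| ≥ 2`, some nonprincipal irreducible character has `P` in its kernel -/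
theorem no_exc [Fintype G] [Fact p.Prime] {P : Sylow p G} (hs : Star P)
    (χ : IrrCharacter G) (hdeg : charDegree χ.1 ^ 2 + 1 < Nat.card (P : Subgroup G))
    (𝒪 : Finset (IrrCharacter ↥(cen P)))
    (hcard : Nat.card (cen P) * 𝒪.card = Nat.card (nor P))
    (hres : ∀ c : ↥(cen P), χ.1 c = ∑ β ∈ 𝒪, β.1 c)
    (he2 : 2 ≤ 𝒪.card)
    (hNP : ∀ ψ : IrrCharacter G, ψ ≠ trivIrr G → ∃ u ∈ (P : Subgroup G), ψ.1 u ≠ ψ.1 1) :
    False := by
  obtain ⟨a, b, c, ha, hb, hc, hk, hce⟩ := key_ineq hs χ 𝒪 hres 𝒪.card hcard.symm hNP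
  rw [sum_cen P (fun g => (Complex.normSq (χ.1 g)) ^ 2)] at ha
  obtain ⟨Rf, hRf⟩ : ∃ Rf : Finset G,
      Rf = Finset.univ.filter (fun g : G => ¬ p ∣ orderOf g) := ⟨_, rfl⟩
  obtain ⟨Vf, hVf⟩ : ∃ Vf : Finset G,
      Vf = Finset.univ.filter (fun g : G => g ∈ cen P ∧ ¬ p ∣ orderOf g) := ⟨_, rfl⟩
  have h1R : (1 : G) ∈ Rf := by rw [hRf]; exact one_mem_reg
  have h1V : (1 : G) ∈ Vf := by rw [hVf]; exact one_mem_reg_cen P
  have hnN : (Nat.card (nor P) : ℝ) = (Nat.card (cen P) : ℝ) * (𝒪.card : ℝ) := by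
    exact_mod_cast hcard.symm
  -- second moments
  have mom1 := moment hs (fun g => Complex.normSq (χ.1 g)) (normSq_class χ)
  rw [Cfsg.Agent.Lib.helper22.sum_normSq_irr χ, ← sum_cen P (fun g => Complex.normSq (χ.1 g)),
    ← res_norm χ 𝒪 hres, ← hRf, ← hVf, hnN] at mom1
  -- zeroth moments
  have mom0 := moment hs (fun _ => (1 : ℝ)) (fun _ _ => rfl)
  simp only [Finset.sum_const, nsmul_eq_mul, mul_one, card_filter_mem, Finset.card_univ] at mom0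
  rw [← Nat.card_eq_fintype_card, ← hRf, ← hVf, hnN] at mom0
  -- fourth moments
  have mom4 := moment hs (fun g => (Complex.normSq (χ.1 g)) ^ 2) (fun g h => by
    show (Complex.normSq (χ.1 (h * g * h⁻¹))) ^ 2 = (Complex.normSq (χ.1 g)) ^ 2
    rw [normSq_class χ g h])
  rw [← ha, ← hb, ← hRf, ← hVf, hnN] at mom4
  have hcardv := card_reg_cen hs
  rw [← hVf] at hcardv
  have f5 := fourth_bound hs χ 𝒪 hres
  rw [← hc, ← hVf] at f5
  -- elementary bounds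
  have hx1 : 1 ≤ charDegree χ.1 := charDegree_pos χ
  have hxe : 𝒪.card ≤ charDegree χ.1 := card_le_deg χ 𝒪 hres
  have hw1 : Complex.normSq (χ.1 1) = (charDegree χ.1 : ℝ) ^ 2 :=
    Cfsg.Agent.Lib.helper22.normSq_irr_one χ
  have f6a : ∑ g ∈ Vf, (Complex.normSq (χ.1 g)) ^ 2 ≤
      (charDegree χ.1 : ℝ) ^ 2 * ∑ g ∈ Vf, Complex.normSq (χ.1 g) := by
    rw [Finset.mul_sum]
    apply Finset.sum_le_sum
    intro g _
    have h1 := normSq_le_deg χ g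
    have h2 := Complex.normSq_nonneg (χ.1 g)
    calc (Complex.normSq (χ.1 g)) ^ 2 = Complex.normSq (χ.1 g) * Complex.normSq (χ.1 g) := sq _
      _ ≤ (charDegree χ.1 : ℝ) ^ 2 * Complex.normSq (χ.1 g) := mul_le_mul_of_nonneg_right h1 h2
  have f6b : ∑ g ∈ Vf, Complex.normSq (χ.1 g) ≤ (Vf.card : ℝ) * (charDegree χ.1 : ℝ) ^ 2 := by
    have h1 := Finset.sum_le_card_nsmul Vf
      (fun g : G => Complex.normSq (χ.1 g)) ((charDegree χ.1 : ℝ) ^ 2)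
      (fun g _ => normSq_le_deg χ g)
    rw [nsmul_eq_mul] at h1
    exact h1
  have f6c : 0 ≤ ∑ g ∈ Vf, Complex.normSq (χ.1 g) :=
    Finset.sum_nonneg (fun g _ => Complex.normSq_nonneg _)
  have f7 : ∀ μ : ℝ, ((charDegree χ.1 : ℝ) ^ 2 - μ) ^ 2 ≤
      ∑ g ∈ Rf, (Complex.normSq (χ.1 g)) ^ 2 - 2 * μ * ∑ g ∈ Rf, Complex.normSq (χ.1 g) +
        μ ^ 2 * (Rf.card : ℝ) := by
    intro μ
    have h1 := variance_ineq Rf (fun g : G => Complex.normSq (χ.1 g)) 1 h1R μ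
    rw [hw1] at h1
    exact h1
  -- positivity
  have hgpos : (0 : ℝ) < (Nat.card G : ℝ) := by exact_mod_cast (Nat.card_pos (α := G))
  have hcpos : (0 : ℝ) < (Nat.card (cen P) : ℝ) := by
    exact_mod_cast (Nat.card_pos (α := cen P))
  have hvpos : (0 : ℝ) < (Vf.card : ℝ) := by
    have : 0 < Vf.card := Finset.card_pos.mpr ⟨1, h1V⟩
    exact_mod_cast this
  have he2R : (2 : ℝ) ≤ (𝒪.card : ℝ) := by exact_mod_cast he2
  have hxeR : (𝒪.card : ℝ) ≤ (charDegree χ.1 : ℝ) := by exact_mod_cast hxe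
  have hdegR : (charDegree χ.1 : ℝ) ^ 2 + 1 < (Nat.card (P : Subgroup G) : ℝ) := by
    exact_mod_cast hdeg
  have hkR : (c : ℝ) + (𝒪.card : ℝ) * (b : ℝ) ≤ (a : ℝ) + (𝒪.card : ℝ) := by
    exact_mod_cast hk
  have hceR : (𝒪.card : ℝ) ^ 2 ≤ (c : ℝ) := by exact_mod_cast hce
  -- (J)
  have J := arith1 (Nat.card G : ℝ) (Nat.card (cen P) : ℝ) (𝒪.card : ℝ) a b c
    (∑ g ∈ Rf, (Complex.normSq (χ.1 g)) ^ 2) (∑ g ∈ Vf, (Complex.normSq (χ.1 g)) ^ 2)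
    hgpos hcpos (by linarith only [mom4]) hkR
  -- part 1
  have hS4pos : 0 < ∑ g ∈ Rf, (Complex.normSq (χ.1 g)) ^ 2 := by
    have h1 := f7 0
    have h2 : (1 : ℝ) ≤ (charDegree χ.1 : ℝ) := by exact_mod_cast hx1
    have h3 : (1 : ℝ) ≤ ((charDegree χ.1 : ℝ) ^ 2) ^ 2 := one_le_pow₀ (one_le_pow₀ h2)
    have h4 : ∑ g ∈ Rf, (Complex.normSq (χ.1 g)) ^ 2 -
        2 * 0 * ∑ g ∈ Rf, Complex.normSq (χ.1 g) + 0 ^ 2 * (Rf.card : ℝ) =
        ∑ g ∈ Rf, (Complex.normSq (χ.1 g)) ^ 2 := by ring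
    have h5 : ((charDegree χ.1 : ℝ) ^ 2 - 0) ^ 2 = ((charDegree χ.1 : ℝ) ^ 2) ^ 2 := by ring
    rw [h4, h5] at h1
    linarith only [h1, h3]
  have hqe : (𝒪.card : ℝ) ^ 2 < (Nat.card (P : Subgroup G) : ℝ) := by
    have h1 : (𝒪.card : ℝ) ^ 2 ≤ (charDegree χ.1 : ℝ) ^ 2 :=
      pow_le_pow_left₀ (Nat.cast_nonneg _) hxeR 2
    linarith only [h1, hdegR]
  have p1 := arith2 (Nat.card G : ℝ) (Nat.card (cen P) : ℝ) (𝒪.card : ℝ)
    (Nat.card (P : Subgroup G) : ℝ) c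
    (∑ g ∈ Rf, (Complex.normSq (χ.1 g)) ^ 2) (∑ g ∈ Vf, (Complex.normSq (χ.1 g)) ^ 2)
    hgpos hcpos (by linarith only [he2R]) hqe hS4pos J hceR f5
  have p1n : 𝒪.card * Nat.card (P : Subgroup G) < Nat.card (P : Subgroup G) + 𝒪.card ^ 3 := by
    exact_mod_cast p1
  -- part 2
  have hdvd := index_dvd hs 𝒪.card hcard.symm
  obtain ⟨hq, hx⟩ := arith3 𝒪.card (charDegree χ.1) (Nat.card (P : Subgroup G)) he2 hxe hdeg
    hdvd p1n
  have hqR : (Nat.card (P : Subgroup G) : ℝ) = (𝒪.card : ℝ) ^ 2 + (𝒪.card : ℝ) + 1 := by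
    exact_mod_cast hq
  rw [hx] at f6a f6b f7
  -- part 3
  have hμ : ∃ μ : ℝ, ∑ g ∈ Vf, Complex.normSq (χ.1 g) = μ * (𝒪.card : ℝ) ^ 3 * (Vf.card : ℝ) := by
    refine ⟨(∑ g ∈ Vf, Complex.normSq (χ.1 g)) / ((𝒪.card : ℝ) ^ 3 * (Vf.card : ℝ)), ?_⟩
    have h0 : (𝒪.card : ℝ) ^ 3 * (Vf.card : ℝ) ≠ 0 := by positivity
    field_simp
  obtain ⟨μ, hμ⟩ := hμ
  exact arith4 (Nat.card G : ℝ) (Nat.card (cen P) : ℝ) (Vf.card : ℝ) (𝒪.card : ℝ)
    (Nat.card (P : Subgroup G) : ℝ) c μ (∑ g ∈ Rf, Complex.normSq (χ.1 g))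
    (∑ g ∈ Rf, (Complex.normSq (χ.1 g)) ^ 2) (Rf.card : ℝ)
    (∑ g ∈ Vf, Complex.normSq (χ.1 g)) (∑ g ∈ Vf, (Complex.normSq (χ.1 g)) ^ 2)
    hgpos hvpos he2R hqR hcardv hμ (by linarith only [mom1]) (by linarith only [mom0]) J hceR f6a f6b f6c (f7 μ)

/-- the Brauer–Leonard dichotomy -/
theorem bl_main [Finite G] (hp : p.Prime) (P : Sylow p G) (hs : Star P)
    (χ : IrrCharacter G) (h1 : χ.1 ≠ fun _ => 1)
    (hdeg : charDegree χ.1 ^ 2 + 1 < Nat.card (P : Subgroup G)) :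
    (∃ K : Subgroup G, K.Normal ∧ K ≠ ⊤ ∧ (P : Subgroup G) ≤ K) ∨
      ((∃ N : Subgroup G, N.Normal ∧ N.index = Nat.card (P : Subgroup G)) ∧
        charDegree χ.1 = 1) := by
  classical
  have := Fintype.ofFinite G
  have : Fact p.Prime := ⟨hp⟩
  have hker : ∀ ψ : IrrCharacter G, ψ ≠ trivIrr G →
      (∀ u ∈ (P : Subgroup G), ψ.1 u = ψ.1 1) →
      ∃ K : Subgroup G, K.Normal ∧ K ≠ ⊤ ∧ (P : Subgroup G) ≤ K := by
    intro ψ hψ hu
    refine ⟨irrKer ψ, irrKer_normal ψ, ?_, fun u hu' => (mem_irrKer ψ u).mpr (hu u hu')⟩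
    intro htop
    apply hψ
    have hall : ∀ g, ψ.1 g = ψ.1 1 := fun g =>
      (mem_irrKer ψ g).mp (by rw [htop]; exact Subgroup.mem_top g)
    apply irr_eq_of_inner_ne_zero
    have h2 : classInner ψ.1 (trivIrr G).1 = ψ.1 1 := by
      unfold classInner
      simp only [trivIrr_apply, map_one, mul_one, hall]
      rw [Finset.sum_const, Finset.card_univ, nsmul_eq_mul, ← Nat.card_eq_fintype_card]
      have hne : (Nat.card G : ℂ) ≠ 0 := by exact_mod_cast (Nat.card_pos (α := G)).ne'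
      field_simp
    rw [h2]
    exact irr_one_ne_zero ψ
  by_cases hPk : ∀ u ∈ (P : Subgroup G), χ.1 u = χ.1 1
  · left
    exact hker χ (fun h => h1 (by rw [h]; rfl)) hPk
  · push Not at hPk
    obtain ⟨u, hu, hχu⟩ := hPk
    obtain ⟨𝒪, hcard, hres⟩ := structure_thm hs χ (by omega) u hu hχu
    by_cases hNP : ∀ ψ : IrrCharacter G, ψ ≠ trivIrr G →
        ∃ u ∈ (P : Subgroup G), ψ.1 u ≠ ψ.1 1
    · rcases Nat.lt_or_ge 𝒪.card 2 with h2 | h2
      · have h0 : 𝒪.card ≠ 0 := by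
          intro h0
          rw [h0, mul_zero] at hcard
          exact (Nat.card_pos (α := nor P)).ne' hcard.symm
        have h1' : 𝒪.card = 1 := by omega
        obtain ⟨β₀, hβ₀⟩ := Finset.card_eq_one.mp h1'
        exact case_one hs χ β₀ (fun c => by rw [hres c, hβ₀, Finset.sum_singleton])
          (by rw [← hcard, h1', mul_one])
      · exact (no_exc hs χ hdeg 𝒪 hcard hres h2 hNP).elim
    · push Not at hNP
      obtain ⟨ψ, hψ, hψu⟩ := hNP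
      left
      exact hker ψ hψ hψu

end Cfsg.Agent.Lib.helper2.BL
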