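import Mathlib
import Cfsg.Agent.Lib.helper2.BLe
import Cfsg.Agent.Lib.helper23.LinChar

set_option autoImplicit false

/-!
# Brauer–Leonard, part F: faithful characters of small degree
-/

namespace Cfsg.Agent.Lib.helper2.BL

open Cfsg Cfsg.Agent.Lib.helper24
open scoped ComplexConjugate

universe u

/-- degree of a sum of irreducible characters -/
theorem charDegree_list_sum {G : Type u} [Group G] [Finite G] (l : List (IrrCharacter G)) :
    charDegree ((l.map (fun ψ : IrrCharacter G => ψ.1)).sum) =
      (l.map (fun ψ : IrrCharacter G => charDegree ψ.1)).sum := by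
  have h1 : (l.map (fun ψ : IrrCharacter G => ψ.1)).sum 1 =
      (((l.map (fun ψ : IrrCharacter G => charDegree ψ.1)).sum : ℕ) : ℂ) := by
    induction l with
    | nil => simp
    | cons a l ih =>
      rw [List.map_cons, List.sum_cons, Pi.add_apply, ih, List.map_cons, List.sum_cons,
        Nat.cast_add, charDegree_cast]
  have h2 : ∀ (f : G → ℂ) (n : ℕ), f 1 = (n : ℂ) → charDegree f = n := by
    intro f n hf
    unfold charDegree
    rw [hf]
    simp
  exact h2 _ _ h1

/-- a faithful character of small degree forces the Sylow subgroup to be normal -/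
theorem bl_normal (N : ℕ) : ∀ (G : Type u) [Group G] [Finite G], Nat.card G = N →
    ∀ (p : ℕ) (_ : p.Prime) (P : Sylow p G) (_ : Star P) (χ : G → ℂ) (_ : IsCharacter G χ)
      (_ : ∀ g : G, χ g = χ 1 → g = 1)
      (_ : charDegree χ ^ 2 + 1 < Nat.card (P : Subgroup G)), (P : Subgroup G).Normal := by
  induction N using Nat.strong_induction_on with
  | _ N ih =>
    intro G _ _ hN p hp P hs χ hχ hfaith hdeg
    have : Fact p.Prime := ⟨hp⟩
    by_cases hK : ∃ K : Subgroup G, K.Normal ∧ K ≠ ⊤ ∧ (P : Subgroup G) ≤ K
    · obtain ⟨K, hKn, hKtop, hPK⟩ := hK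
      have hcardK : Nat.card K < N := by
        rw [← hN]
        by_contra hcon
        push Not at hcon
        exact hKtop (Subgroup.eq_top_of_le_card K hcon)
      have hs' : Star (P.subtype hPK) := by
        intro x hx hx1
        have hxP : (x : G) ∈ (P : Subgroup G) := hx
        have hx1' : (x : G) ≠ 1 := fun h => hx1 (Subtype.ext h)
        have hsx := hs (x : G) hxP hx1'
        ext k
        rw [Subgroup.mem_centralizer_singleton_iff, Subgroup.mem_centralizer_iff]
        constructor
        · intro hk h hh
          have hkc : (k : G) ∈ Subgroup.centralizer ({(x : G)} : Set G) := by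
            rw [Subgroup.mem_centralizer_singleton_iff]
            exact congrArg Subtype.val hk
          rw [hsx, Subgroup.mem_centralizer_iff] at hkc
          exact Subtype.ext (hkc (h : G) hh)
        · intro hk
          have hkc : (k : G) ∈ Subgroup.centralizer ((P : Subgroup G) : Set G) := by
            rw [Subgroup.mem_centralizer_iff]
            intro h hh
            exact congrArg Subtype.val (hk ⟨h, hPK hh⟩ hh)
          rw [← hsx, Subgroup.mem_centralizer_singleton_iff] at hkc
          exact Subtype.ext hkc
      have hcardP : Nat.card ((P.subtype hPK : Sylow p ↥K) : Subgroup ↥K) =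
          Nat.card (P : Subgroup G) :=
        Nat.card_congr (Subgroup.subgroupOfEquivOfLe hPK).toEquiv
      have hnorm' := ih (Nat.card K) hcardK ↥K rfl p hp (P.subtype hPK) hs'
        (fun k : ↥K => χ k) (isCharacter_restrict K hχ)
        (fun k hk => Subtype.ext (hfaith k hk)) (by rw [hcardP]; exact hdeg)
      have hKN : K ≤ Subgroup.normalizer ((P : Subgroup G) : Set G) :=
        (Subgroup.normal_subgroupOf_iff_le_normalizer hPK).mp hnorm'
      constructor
      intro u hu g
      apply mem_of_pelt P
      · exact hKN (hKn.conj_mem u (hPK hu) g)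
      · obtain ⟨k, hk⟩ := exists_pow_eq_one P hu
        exact isPGroup_zpowers_of_pow (conj_pow_eq_one hk g)
    · obtain ⟨l, hl⟩ := isCharacter_iff_exists_list.mp hχ
      have hdegl := charDegree_list_sum l
      rw [← hl] at hdegl
      have hlin : ∀ ψ ∈ l, ψ.1 1 = 1 := by
        intro ψ hψ
        have hle : charDegree ψ.1 ≤ charDegree χ := by
          rw [hdegl]
          exact List.single_le_sum (fun x _ => Nat.zero_le x) _ (List.mem_map_of_mem hψ)
        have hd1 : charDegree ψ.1 = 1 := by
          by_cases htriv : ψ.1 = fun _ => 1
          · have h2 := charDegree_cast ψ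
            rw [htriv] at h2 ⊢
            have h3 : ((charDegree (fun _ : G => (1 : ℂ)) : ℕ) : ℂ) = 1 := h2
            exact_mod_cast h3
          · have hdψ : charDegree ψ.1 ^ 2 + 1 < Nat.card (P : Subgroup G) := by
              have h3 : charDegree ψ.1 ^ 2 ≤ charDegree χ ^ 2 := Nat.pow_le_pow_left hle 2
              omega
            rcases bl_main hp P hs ψ htriv hdψ with h | h
            · exact absurd h hK
            · exact h.2
        rw [← charDegree_cast ψ, hd1]
        simp
      have hcomm : ∀ k ∈ commutator G, k = 1 := by
        intro k hk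
        apply hfaith
        rw [hl]
        have hgen : ∀ (l' : List (IrrCharacter G)), (∀ ψ ∈ l', ψ.1 1 = 1) →
            (l'.map (fun ψ : IrrCharacter G => ψ.1)).sum k =
              (l'.map (fun ψ : IrrCharacter G => ψ.1)).sum 1 := by
          intro l' hl'
          induction l' with
          | nil => simp
          | cons a l' ih' =>
            rw [List.map_cons, List.sum_cons, Pi.add_apply, Pi.add_apply,
              ih' (fun ψ hψ => hl' ψ (List.mem_cons_of_mem _ hψ)),
              Cfsg.Agent.Lib.helper23.irr_linear_commutator a (hl' a List.mem_cons_self) k hk,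
              hl' a List.mem_cons_self]
        exact hgen l hlin
      constructor
      intro u hu g
      have h1 : g * u * g⁻¹ * u⁻¹ = 1 := by
        apply hcomm
        rw [commutator_def]
        exact Subgroup.commutator_mem_commutator (Subgroup.mem_top g) (Subgroup.mem_top u)
      have h2 : g * u * g⁻¹ = u := by
        calc g * u * g⁻¹ = (g * u * g⁻¹ * u⁻¹) * u := by group
          _ = u := by rw [h1, one_mul]
      rw [h2]
      exact hu

end Cfsg.Agent.Lib.helper2.BL
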