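import Mathlib
import Cfsg.Agent.Lib.helper2.BS9
import Cfsg.Agent.S4499

set_option autoImplicit false

namespace Cfsg.Agent.Lib.helper2.BS

open Cfsg Cfsg.Agent.Lib.helper24 Cfsg.Agent.Lib.helper23 Cfsg.Agent.Lib.helper8
open scoped ComplexConjugate

universe u

variable {G : Type u} [Group G]

/-- multiplication by a central element scales an irreducible character -/
theorem central_mul [Fintype G] (χ : IrrCharacter G) {t : G} (hcen : ∀ x : G, x * t = t * x)
    (g : G) : χ.1 (t * g) = (χ.1 1)⁻¹ * χ.1 t * χ.1 g := by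
  classical
  have hf : IsClassFunction G (fun x : G => if x = t then (1 : ℂ) else 0) := by
    intro x h
    have e : h * x * h⁻¹ = t ↔ x = t := by
      constructor
      · intro e
        have e1 : x = h⁻¹ * (h * x * h⁻¹) * h := by group
        rw [e1, e, hcen h⁻¹]
        group
      · intro e
        rw [e, hcen h]
        group
    simp only [e]
  have h := irr_classFn_convolution χ hf g
  simp only [ite_mul, one_mul, zero_mul, Finset.sum_ite_eq', Finset.mem_univ, if_true] at h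
  exact h

theorem central_sq [Fintype G] (χ : IrrCharacter G) {t : G} (hcen : ∀ x : G, x * t = t * x)
    (ht : t * t = 1) : χ.1 t = χ.1 1 ∨ χ.1 t = - χ.1 1 := by
  have h := central_mul χ hcen t
  rw [ht] at h
  have hne := irr_one_ne_zero χ
  have h3 : χ.1 1 * χ.1 1 = χ.1 t * χ.1 t := by
    calc χ.1 1 * χ.1 1 = χ.1 1 * ((χ.1 1)⁻¹ * χ.1 t * χ.1 t) := by rw [← h]
      _ = χ.1 t * χ.1 t := by field_simp
  have h2 : (χ.1 t - χ.1 1) * (χ.1 t + χ.1 1) = 0 := by linear_combination -h3
  rcases mul_eq_zero.mp h2 with e | e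
  · left; linear_combination e
  · right; linear_combination e

theorem ppart_order_four [Finite G] (h8 : ∀ g : G, orderOf g ≠ 8) {g x : G}
    (hx : Cfsg.IsPPart 2 g x) (h4 : 4 ∣ orderOf g) : orderOf x = 4 := by
  obtain ⟨v, hxv, hcomm, ⟨k, hk⟩, hv⟩ := hx
  have hcop2 : Nat.Coprime 2 (orderOf v) := (Nat.Prime.coprime_iff_not_dvd Nat.prime_two).mpr hv
  have hord : orderOf g = orderOf x * orderOf v := by
    rw [← hxv]
    exact hcomm.orderOf_mul_eq_mul_orderOf_of_coprime
      (by rw [hk]; exact Nat.Coprime.pow_left k hcop2)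
  have hk2 : 2 ≤ k := by
    have hcop4 : Nat.Coprime (2 ^ 2) (orderOf v) := Nat.Coprime.pow_left 2 hcop2
    have h4' : 2 ^ 2 ∣ 2 ^ k * orderOf v := by rw [← hk, ← hord]; exact h4
    have := hcop4.dvd_of_dvd_mul_right h4'
    exact (Nat.pow_dvd_pow_iff_le_right (by norm_num : 1 < 2)).mp this
  have hk3 : k ≤ 2 := by
    by_contra hk3
    push Not at hk3
    apply no_eight_dvd h8 x
    rw [hk]
    exact pow_dvd_pow 2 hk3
  have hk' : k = 2 := le_antisymm hk3 hk2
  rw [hk, hk']
  norm_num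

theorem conj_into_Cc [Finite G] (h8 : ∀ g : G, orderOf g ≠ 8) {c : G}
    (hall : ∀ z : G, orderOf z = 4 → IsConj z c) {g : G} (h4 : 4 ∣ orderOf g) :
    ∃ x : G, x⁻¹ * g * x ∈ Cc c := by
  have : Fact (Nat.Prime 2) := ⟨Nat.prime_two⟩
  obtain ⟨xg, hxg⟩ := Cfsg.Agent.Lib.helper5.exists_isPPart 2 g
  have hx4 := ppart_order_four h8 hxg h4
  obtain ⟨v, hxv, hcomm, -, -⟩ := hxg
  obtain ⟨w, hw⟩ := isConj_iff.mp (hall xg hx4)
  refine ⟨w⁻¹, ?_⟩
  rw [inv_inv, mem_Cc, ← hw]
  have hgx : g * xg = xg * g := by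
    rw [← hxv]
    calc xg * v * xg = xg * (v * xg) := by group
      _ = xg * (xg * v) := by rw [hcomm.eq]
  calc w * g * w⁻¹ * (w * xg * w⁻¹) = w * (g * xg) * w⁻¹ := by group
    _ = w * (xg * g) * w⁻¹ := by rw [hgx]
    _ = w * xg * w⁻¹ * (w * g * w⁻¹) := by group

/-- **Brauer**: the principal 2-block of a group with quaternion Sylow 2-subgroups of order 8,
a central involution and all elements of order 4 conjugate has exactly 7 characters -/
theorem q8_block_card [Fintype G] (M : Ideal Cfsg.AlgInt) (hM : Cfsg.IsPModular 2 M)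
    (hNK : NK G) (S : Sylow 2 G) (hS8 : Nat.card S = 8) (h8 : ∀ g : G, orderOf g ≠ 8)
    {c : G} (hc : orderOf c = 4) (hcS : c ∈ (S : Subgroup G))
    (hne : ∃ y ∈ (S : Subgroup G), y ∉ Subgroup.zpowers c)
    (hcen : ∀ x : G, x * c ^ 2 = c ^ 2 * x)
    (hall : ∀ z : G, orderOf z = 4 → IsConj z c) :
    Nat.card (Cfsg.principalBlock M G) = 7 := by
  classical
  have : Fact (Nat.Prime 2) := ⟨Nat.prime_two⟩
  have := Fintype.ofFinite (IrrCharacter G)
  have h8P : ∀ q ∈ (S : Subgroup G), orderOf q ≠ 8 := fun q _ => h8 q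
  obtain ⟨hcard, hinvP, hcases, hidx⟩ := p8 hNK (S : Subgroup G) S.isPGroup' h8P hc hcS hne
  have hne' := hne
  obtain ⟨y, hyP, hyc⟩ := hne'
  have hy : y * c * y⁻¹ = c⁻¹ := (hinvP y hyP hyc).2
  obtain ⟨β, hβ⟩ := exists_beta hNK c hc
  have hnorm := (del_norm_y hNK hc hβ hy).2 (beta_sq_comp_eq hβ h8 hy)
  have hgen := del_genchar c β
  obtain ⟨a, ha⟩ := exists_coeff hgen
  have ha0 : a (trivIrr G) = 1 := by
    have : ((a (trivIrr G) : ℤ) : ℂ) = 1 := by rw [← ha]; exact del_inner_one hc hβ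
    exact_mod_cast this
  obtain ⟨hs4, hoff, hac⟩ := q8_block_M hNK hc hβ hy h8 hnorm a ha M hM
  have ht : orderOf (c ^ 2) = 2 := by
    rw [orderOf_pow_of_dvd (by norm_num) (by rw [hc]; norm_num), hc]
  have htt : c ^ 2 * c ^ 2 = 1 := sq_of_order_two ht
  have hcinv : c⁻¹ = c ^ 2 * c := by
    apply inv_eq_of_mul_eq_one_left
    have hc4 : c ^ 4 = 1 := by rw [← hc]; exact pow_orderOf_eq_one c
    calc c ^ 2 * c * c = c ^ 4 := by group
      _ = 1 := hc4
  have htriv : trivIrr G ∈ Cfsg.principalBlock M G :=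
    mem_blockOf_self (isPModular_ne_top hM) (trivIrr G)
  have hN := genchar_norm_eq_sum_sq hgen a ha
  rw [hnorm] at hN
  have hsum : ∑ χ : IrrCharacter G, a χ ^ 2 = 4 := by exact_mod_cast hN.symm
  have hsq : ∀ χ : IrrCharacter G, a χ ^ 2 = if a χ ≠ 0 then 1 else 0 := by
    intro χ
    by_cases h0 : a χ = 0
    · simp [h0]
    · rw [if_pos h0]
      by_cases htr : χ = trivIrr G
      · rw [htr, ha0]; norm_num
      · have h1 : ∑ ψ ∈ ({χ, trivIrr G} : Finset (IrrCharacter G)), a ψ ^ 2 ≤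
            ∑ ψ : IrrCharacter G, a ψ ^ 2 :=
          Finset.sum_le_sum_of_subset_of_nonneg (Finset.subset_univ _)
            (fun ψ _ _ => sq_nonneg (a ψ))
        rw [Finset.sum_pair htr, ha0, hsum] at h1
        have h2 : -1 ≤ a χ := by nlinarith
        have h3 : a χ ≤ 1 := by nlinarith
        have h4 : a χ = 1 ∨ a χ = -1 := by omega
        rcases h4 with h | h <;> rw [h] <;> norm_num
  have hT : (Finset.univ.filter (fun χ : IrrCharacter G => a χ ≠ 0)).card = 4 := by
    have h1 : ∑ χ : IrrCharacter G, a χ ^ 2 =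
        ∑ χ : IrrCharacter G, (if a χ ≠ 0 then (1 : ℤ) else 0) :=
      Finset.sum_congr rfl (fun χ _ => hsq χ)
    rw [hsum, Finset.sum_boole] at h1
    exact_mod_cast h1.symm
  have hω2 := fun χ : IrrCharacter G => central_sq χ hcen htt
  have hminus : ∀ χ ∈ Cfsg.principalBlock M G, χ.1 (c ^ 2) = -χ.1 1 → a χ = 0 := by
    intro χ hχ hχt
    have h1 : χ.1 c⁻¹ = χ.1 c := by rw [← hy]; exact isClassFunction_irr χ c y
    rw [hcinv, central_mul χ hcen c, hχt] at h1
    have hne1 := irr_one_ne_zero χ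
    have h3 : (χ.1 1)⁻¹ * (-χ.1 1) = -1 := by field_simp
    rw [h3] at h1
    have h2 : χ.1 c = 0 := by linear_combination (-1 / 2 : ℂ) * h1
    rw [hac χ hχ] at h2
    exact_mod_cast h2
  have heven2 : 2 ∣ Nat.card G := by
    have h1 : orderOf (c ^ 2) ∣ Nat.card G := orderOf_dvd_natCard _
    rw [ht] at h1
    exact h1
  have hplus : ∀ χ ∈ Cfsg.principalBlock M G, χ.1 (c ^ 2) = χ.1 1 → a χ ≠ 0 := by
    intro χ hχ hχt h0
    have hχc : χ.1 c = 0 := by rw [hac χ hχ, h0]; simp
    obtain ⟨n, hn⟩ := int_I1 (S : Subgroup G) hcard hcases ((S : Subgroup G).pow_mem hcS 2)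
      (ne_one_of_order_two ht) (isCharacter_irr χ)
      (fun q hq => isClassFunction_of_isConj (isClassFunction_irr χ) (hall q hq))
    rw [hχc, hχt] at hn
    have hdeg : χ.1 1 = ((4 * n : ℕ) : ℂ) := by
      push_cast
      linear_combination (1 / 2 : ℂ) * hn
    have hfac : (Nat.card G).factorization 2 = 3 := by
      have h1 := Sylow.card_eq_multiplicity S
      rw [hS8] at h1
      have h2 : 2 ^ (Nat.card G).factorization 2 = 2 ^ 3 := by rw [← h1]; norm_num
      exact Nat.pow_right_injective (le_refl 2) h2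
    have hdiv : 2 ^ ((Nat.card G).factorization 2 - 1) ∣ Cfsg.charDegree χ.1 := by
      rw [hfac]
      unfold Cfsg.charDegree
      rw [hdeg, Complex.natCast_re, Nat.floor_natCast]
      exact ⟨n, by norm_num⟩
    have h2 := Cfsg.Agent.S4499.result 2 M hM heven2 (Cfsg.principalBlock M G)
      ⟨trivIrr G, rfl⟩ χ hχ hdiv (trivIrr G) htriv
    rw [hfac] at h2
    have h3 : Cfsg.charDegree (trivIrr G).1 = 1 := by
      unfold Cfsg.charDegree
      rw [trivIrr_apply]
      simp
    rw [h3] at h2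
    have := Nat.le_of_dvd (by norm_num) h2
    omega
  have hDel : ∀ g : G, ∑ χ : IrrCharacter G,
      (if χ ∈ Cfsg.principalBlock M G then χ.1 (c ^ 2 * g) * conj (χ.1 g) else 0) =
        Del c β g := by
    intro g
    by_cases h4 : 4 ∣ orderOf g
    · obtain ⟨x, hx⟩ := conj_into_Cc h8 hall h4
      have h4x : 4 ∣ orderOf (x⁻¹ * g * x) := by
        have h1 := orderOf_conj' x⁻¹ g
        rw [inv_inv] at h1
        rw [h1]
        exact h4
      have hD : Del c β g = 4 := by
        have e : Del c β (x⁻¹ * g * x) = Del c β g := by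
          have h1 := genchar_isClassFunction hgen g x⁻¹
          rw [inv_inv] at h1
          exact h1
        rw [← e]
        exact del_eq_four hNK hc hβ hy (no_eight_dvd h8) ⟨_, hx⟩ h4x
      rw [hD]
      have h4t : 4 ∣ orderOf (c ^ 2 * g) := four_dvd_central_mul htt hcen h4
      have ext : x⁻¹ * (c ^ 2 * g) * x = c ^ 2 * (x⁻¹ * g * x) := by
        have h1 := hcen x⁻¹
        calc x⁻¹ * (c ^ 2 * g) * x = (x⁻¹ * c ^ 2) * g * x := by group
          _ = c ^ 2 * x⁻¹ * g * x := by rw [h1]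
          _ = c ^ 2 * (x⁻¹ * g * x) := by group
      have hxt : x⁻¹ * (c ^ 2 * g) * x ∈ Cc c := by
        rw [ext]
        exact (Cc c).mul_mem ((Cc c).pow_mem (mem_Cc.mpr rfl) 2) hx
      have h4xt : 4 ∣ orderOf (x⁻¹ * (c ^ 2 * g) * x) := by
        have h1 := orderOf_conj' x⁻¹ (c ^ 2 * g)
        rw [inv_inv] at h1
        rw [h1]
        exact h4t
      have hterm : ∀ χ ∈ Cfsg.principalBlock M G,
          χ.1 (c ^ 2 * g) * conj (χ.1 g) = ((a χ ^ 2 : ℤ) : ℂ) := by
        intro χ hχ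
        have e1 : χ.1 g = χ.1 c := by
          have h1 := isClassFunction_irr χ g x⁻¹
          rw [inv_inv] at h1
          rw [← h1]
          exact block_const hNK hc hy h8 M hM χ hχ (mem_Cc.mp hx) h4x
        have e2 : χ.1 (c ^ 2 * g) = χ.1 c := by
          have h1 := isClassFunction_irr χ (c ^ 2 * g) x⁻¹
          rw [inv_inv] at h1
          rw [← h1]
          exact block_const hNK hc hy h8 M hM χ hχ (mem_Cc.mp hxt) h4xt
        rw [e1, e2, hac χ hχ, map_intCast]
        push_cast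
        ring
      have hrw : ∑ χ : IrrCharacter G,
          (if χ ∈ Cfsg.principalBlock M G then χ.1 (c ^ 2 * g) * conj (χ.1 g) else 0) =
          ((∑ χ : IrrCharacter G,
            (if χ ∈ Cfsg.principalBlock M G then a χ ^ 2 else 0) : ℤ) : ℂ) := by
        rw [Int.cast_sum]
        apply Finset.sum_congr rfl
        intro χ _
        by_cases hχ : χ ∈ Cfsg.principalBlock M G
        · rw [if_pos hχ, if_pos hχ, hterm χ hχ]
        · rw [if_neg hχ, if_neg hχ, Int.cast_zero]
      rw [hrw, hs4]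
      norm_num
    · rw [del_vanish hβ g h4]
      obtain ⟨xg, hxg⟩ := Cfsg.Agent.Lib.helper5.exists_isPPart 2 g
      have hxg' := hxg
      obtain ⟨v, hxv, hcomm, ⟨k, hk⟩, hv⟩ := hxg'
      have hcop2 : Nat.Coprime 2 (orderOf v) :=
        (Nat.Prime.coprime_iff_not_dvd Nat.prime_two).mpr hv
      have hk1 : k ≤ 1 := by
        by_contra hk1
        push Not at hk1
        apply h4
        rw [← hxv, hcomm.orderOf_mul_eq_mul_orderOf_of_coprime
          (by rw [hk]; exact Nat.Coprime.pow_left k hcop2), hk]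
        exact Dvd.dvd.mul_right (pow_dvd_pow 2 hk1 : 2 ^ 2 ∣ 2 ^ k) _
      have hpart : Cfsg.IsPPart 2 (c ^ 2 * g) (c ^ 2 * xg) ∧
          orderOf (c ^ 2 * xg) ≠ orderOf xg := by
        have hk' : k = 0 ∨ k = 1 := by omega
        rcases hk' with rfl | rfl
        · have hx1 : xg = 1 := by
            rw [pow_zero, orderOf_eq_one_iff] at hk
            exact hk
          refine ⟨⟨v, ?_, ?_, ⟨1, ?_⟩, hv⟩, ?_⟩
          · rw [← hxv, hx1]; group
          · rw [hx1, mul_one]; exact (hcen v).symm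
          · rw [hx1, mul_one, ht]; norm_num
          · rw [hx1, mul_one, ht, orderOf_one]; norm_num
        · have hx2 : xg = c ^ 2 :=
            invol_eq_of_comm hNK (by rw [hk]; norm_num) ht (hcen xg)
          refine ⟨⟨v, ?_, ?_, ⟨0, ?_⟩, hv⟩, ?_⟩
          · rw [← hxv, hx2]; group
          · rw [hx2, htt]; exact Commute.one_left v
          · rw [hx2, htt, orderOf_one]; norm_num
          · rw [hx2, htt, orderOf_one, ht]; norm_num
      have hnc : ¬ IsConj (c ^ 2 * xg) xg := by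
        intro hconj
        obtain ⟨w, hw⟩ := isConj_iff.mp hconj
        apply hpart.2
        have h5 := orderOf_conj' w (c ^ 2 * xg)
        rw [hw] at h5
        exact h5.symm
      have horth := (Cfsg.Agent.S0925.result 2 M hM).2 (c ^ 2 * g) g (c ^ 2 * xg) xg hpart.1 hxg
        hnc (Cfsg.principalBlock M G) ⟨trivIrr G, rfl⟩
      rw [finsum_mem_def, finsum_eq_sum_of_fintype] at horth
      refine Eq.trans ?_ horth
      apply Finset.sum_congr rfl
      intro χ _
      rw [Set.indicator_apply]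
      by_cases hχ : χ ∈ Cfsg.principalBlock M G
      · rw [if_pos hχ, if_pos hχ, irr_inv]
      · rw [if_neg hχ, if_neg hχ]
  have htrace : ∑ χ : IrrCharacter G,
      (if χ ∈ Cfsg.principalBlock M G then (χ.1 1)⁻¹ * χ.1 (c ^ 2) else 0) = 1 := by
    have h1 : ∀ χ : IrrCharacter G, (χ.1 1)⁻¹ * χ.1 (c ^ 2) =
        (Nat.card G : ℂ)⁻¹ * ∑ g : G, χ.1 (c ^ 2 * g) * conj (χ.1 g) := by
      intro χ
      have h2 : ∀ g : G, χ.1 (c ^ 2 * g) * conj (χ.1 g) =
          ((χ.1 1)⁻¹ * χ.1 (c ^ 2)) * (χ.1 g * conj (χ.1 g)) := by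
        intro g
        rw [central_mul χ hcen g]
        ring
      simp only [h2]
      rw [← Finset.mul_sum, mul_left_comm]
      have h3 : (Nat.card G : ℂ)⁻¹ * ∑ g : G, χ.1 g * conj (χ.1 g) = 1 := irr_inner_self χ
      rw [h3, mul_one]
    calc ∑ χ : IrrCharacter G,
          (if χ ∈ Cfsg.principalBlock M G then (χ.1 1)⁻¹ * χ.1 (c ^ 2) else 0)
        = ∑ χ : IrrCharacter G, (Nat.card G : ℂ)⁻¹ * ∑ g : G,
            (if χ ∈ Cfsg.principalBlock M G then χ.1 (c ^ 2 * g) * conj (χ.1 g) else 0) := by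
          apply Finset.sum_congr rfl
          intro χ _
          by_cases hχ : χ ∈ Cfsg.principalBlock M G
          · simp only [if_pos hχ]
            exact h1 χ
          · simp only [if_neg hχ]
            simp
      _ = (Nat.card G : ℂ)⁻¹ * ∑ g : G, ∑ χ : IrrCharacter G,
            (if χ ∈ Cfsg.principalBlock M G then χ.1 (c ^ 2 * g) * conj (χ.1 g) else 0) := by
          rw [← Finset.mul_sum, Finset.sum_comm]
      _ = (Nat.card G : ℂ)⁻¹ * ∑ g : G, Del c β g := by simp only [hDel]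
      _ = 1 := by
          have h5 := del_inner_one hc hβ
          unfold classInner at h5
          simpa using h5
  have hω : ∀ χ ∈ Cfsg.principalBlock M G,
      (χ.1 1)⁻¹ * χ.1 (c ^ 2) = if a χ ≠ 0 then 1 else -1 := by
    intro χ hχ
    have hne1 := irr_one_ne_zero χ
    rcases hω2 χ with h | h
    · rw [if_pos (hplus χ hχ h), h]
      field_simp
    · rw [if_neg (not_not.mpr (hminus χ hχ h)), h]
      field_simp
  have hcount : ∑ χ : IrrCharacter G, (if χ ∈ Cfsg.principalBlock M G then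
      (if a χ ≠ 0 then (1 : ℤ) else -1) else 0) = 1 := by
    have h1 : ((∑ χ : IrrCharacter G, (if χ ∈ Cfsg.principalBlock M G then
        (if a χ ≠ 0 then (1 : ℤ) else -1) else 0) : ℤ) : ℂ) = 1 := by
      rw [← htrace, Int.cast_sum]
      apply Finset.sum_congr rfl
      intro χ _
      by_cases hχ : χ ∈ Cfsg.principalBlock M G
      · rw [if_pos hχ, if_pos hχ, hω χ hχ]
        by_cases h0 : a χ ≠ 0
        · rw [if_pos h0, if_pos h0]; norm_num
        · rw [if_neg h0, if_neg h0]; norm_num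
      · rw [if_neg hχ, if_neg hχ, Int.cast_zero]
    exact_mod_cast h1
  have hBcard : Nat.card (Cfsg.principalBlock M G) =
      (Finset.univ.filter (fun χ : IrrCharacter G => χ ∈ Cfsg.principalBlock M G)).card :=
    Nat.subtype_card _ (fun x => by simp)
  rw [hBcard]
  have h3 : ∑ χ : IrrCharacter G, (if χ ∈ Cfsg.principalBlock M G then
      (if a χ ≠ 0 then (1 : ℤ) else -1) else 0) =
      2 * ((Finset.univ.filter (fun χ : IrrCharacter G => a χ ≠ 0)).card : ℤ) -
      ((Finset.univ.filter (fun χ : IrrCharacter G => χ ∈ Cfsg.principalBlock M G)).card : ℤ) := by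
    have e : ∀ χ : IrrCharacter G, (if χ ∈ Cfsg.principalBlock M G then
        (if a χ ≠ 0 then (1 : ℤ) else -1) else 0) =
        2 * (if a χ ≠ 0 then 1 else 0) - (if χ ∈ Cfsg.principalBlock M G then 1 else 0) := by
      intro χ
      by_cases hχ : χ ∈ Cfsg.principalBlock M G
      · by_cases h0 : a χ ≠ 0
        · rw [if_pos hχ, if_pos h0, if_pos h0, if_pos hχ]; norm_num
        · rw [if_pos hχ, if_neg h0, if_neg h0, if_pos hχ]; norm_num
      · have h0 : ¬ a χ ≠ 0 := not_not.mpr (hoff χ hχ)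
        rw [if_neg hχ, if_neg h0, if_neg hχ]; norm_num
    simp only [e]
    rw [Finset.sum_sub_distrib, ← Finset.mul_sum, Finset.sum_boole, Finset.sum_boole]
  rw [h3, hT] at hcount
  omega

/-- **Brauer**: if a Sylow 2-subgroup of `G` is quaternion of order 8, `O(G) = 1` and `G` is not
a 2-group, then the principal 2-block of `G` has exactly 7 irreducible characters -/
theorem q8_main [Finite G] (M : Ideal Cfsg.AlgInt) (hM : Cfsg.IsPModular 2 M) (S : Sylow 2 G)
    (e : (S : Subgroup G) ≃* QuaternionGroup 2)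
    (hO : ∀ N : Subgroup G, N.Normal → Odd (Nat.card N) → N = ⊥)
    (hG : (S : Subgroup G) ≠ ⊤) : Nat.card (Cfsg.principalBlock M G) = 7 := by
  have : Fact (Nat.Prime 2) := ⟨Nat.prime_two⟩
  have := Fintype.ofFinite G
  have hNK : NK G := nk_of_quat S 2 (by norm_num) e
  have heven : Even (Nat.card G) := even_of_quat S 2 (by norm_num) e
  have hS8 : Nat.card S = 8 := by
    rw [Nat.card_congr e.toEquiv, Nat.card_eq_fintype_card, QuaternionGroup.card]
  have hconj : ∀ x : G, (∃ k, orderOf x = 2 ^ k) →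
      ∃ w : G, w * x * w⁻¹ ∈ (S : Subgroup G) := by
    rintro x ⟨k, hk⟩
    have hp : IsPGroup 2 (Subgroup.zpowers x) := by
      apply IsPGroup.of_card (n := k)
      rw [Nat.card_zpowers, hk]
    obtain ⟨Q, hQ⟩ := hp.exists_le_sylow
    obtain ⟨w, hw⟩ := MulAction.exists_smul_eq G S Q
    have hxQ : x ∈ (Q : Subgroup G) := hQ (Subgroup.mem_zpowers x)
    rw [← hw, Sylow.coe_subgroup_smul, Subgroup.mem_pointwise_smul_iff_inv_smul_mem] at hxQ
    have e1 : (MulAut.conj w)⁻¹ • x = w⁻¹ * x * w⁻¹⁻¹ := by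
      rw [← map_inv, MulAut.smul_def, MulAut.conj_apply]
    rw [e1] at hxQ
    exact ⟨w⁻¹, hxQ⟩
  have h8 : ∀ g : G, orderOf g ≠ 8 := by
    intro g hg
    obtain ⟨w, hw⟩ := hconj g ⟨3, by rw [hg]; norm_num⟩
    have h1 : orderOf (e ⟨w * g * w⁻¹, hw⟩) = 8 := by
      rw [MulEquiv.orderOf_eq, Subgroup.orderOf_mk, orderOf_conj', hg]
    have h2 : orderOf (e ⟨w * g * w⁻¹, hw⟩) ∣ Monoid.exponent (QuaternionGroup 2) :=
      Monoid.order_dvd_exponent _
    have h3 : (2 : ℕ) * lcm 2 2 = 4 := by decide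
    rw [h1, QuaternionGroup.exponent, h3] at h2
    omega
  have hc : orderOf ((e.symm (QuaternionGroup.a 1) : (S : Subgroup G)) : G) = 4 := by
    rw [Subgroup.orderOf_coe, MulEquiv.orderOf_eq, QuaternionGroup.orderOf_a_one]
  have hne : ∃ y ∈ (S : Subgroup G),
      y ∉ Subgroup.zpowers ((e.symm (QuaternionGroup.a 1) : (S : Subgroup G)) : G) := by
    refine ⟨((e.symm (QuaternionGroup.xa 0) : (S : Subgroup G)) : G), Subtype.property _,
      fun h => ?_⟩
    have hcomm : ((e.symm (QuaternionGroup.xa 0) : (S : Subgroup G)) : G) *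
        ((e.symm (QuaternionGroup.a 1) : (S : Subgroup G)) : G) =
        ((e.symm (QuaternionGroup.a 1) : (S : Subgroup G)) : G) *
        ((e.symm (QuaternionGroup.xa 0) : (S : Subgroup G)) : G) := by
      obtain ⟨k, hk⟩ := Subgroup.mem_zpowers_iff.mp h
      rw [← hk]
      exact (Commute.zpow_left (Commute.refl _) k).eq
    have h2 : e.symm (QuaternionGroup.xa 0) * e.symm (QuaternionGroup.a 1) =
        e.symm (QuaternionGroup.a 1) * e.symm (QuaternionGroup.xa 0) := Subtype.ext hcomm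
    have h3 := congrArg e h2
    rw [map_mul, map_mul, MulEquiv.apply_symm_apply, MulEquiv.apply_symm_apply,
      QuaternionGroup.xa_mul_a, QuaternionGroup.a_mul_xa] at h3
    have h4 : (0 : ZMod (2 * 2)) + 1 = 0 - 1 := by injection h3
    revert h4
    decide
  obtain ⟨z, hz, Mz, hMn, hModd, hMz⟩ := main hNK heven
  have hMbot := hO Mz hMn hModd
  have hzc : ∀ g : G, g * z = z * g := by
    intro g
    have h1 := hMz g
    rw [hMbot, Subgroup.mem_bot] at h1
    have h2 : z * g * z⁻¹ * g⁻¹ * (g * z) = g * z := by rw [h1, one_mul]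
    rw [← h2]
    group
  have ht : orderOf (((e.symm (QuaternionGroup.a 1) : (S : Subgroup G)) : G) ^ 2) = 2 := by
    rw [orderOf_pow_of_dvd (by norm_num) (by rw [hc]; norm_num), hc]
  have hcz : ((e.symm (QuaternionGroup.a 1) : (S : Subgroup G)) : G) ^ 2 = z :=
    invol_eq_of_comm hNK ht hz (hzc _)
  have hcen : ∀ x : G, x * ((e.symm (QuaternionGroup.a 1) : (S : Subgroup G)) : G) ^ 2 =
      ((e.symm (QuaternionGroup.a 1) : (S : Subgroup G)) : G) ^ 2 * x := by
    rw [hcz]
    exact hzc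
  have hall : ∀ z' : G, orderOf z' = 4 →
      IsConj z' ((e.symm (QuaternionGroup.a 1) : (S : Subgroup G)) : G) := by
    intro z' hz'
    by_contra hzc'
    obtain ⟨K, hKn, hKodd, hK⟩ := q8_fusion_or hNK S hS8 h8 hc (Subtype.property _) hne hz' hzc'
    have hKbot := hO K hKn hKodd
    apply hG
    have hp : IsPGroup 2 (⊤ : Subgroup G) := by
      intro g
      obtain ⟨j, hj⟩ := hK g.1
      rw [hKbot, Subgroup.mem_bot] at hj
      exact ⟨j, Subtype.ext hj⟩
    exact (S.is_maximal' hp le_top).symm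
  exact q8_block_card M hM hNK S hS8 h8 hc (Subtype.property _) hne hcen hall

end Cfsg.Agent.Lib.helper2.BS
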