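import Mathlib
import Cfsg.Agent.Lib.helper2.BS10
import Cfsg.Agent.Lib.helper2.SE2

set_option autoImplicit false

namespace Cfsg.Agent.Lib.helper2.BS

universe u

variable {G : Type u} [Group G]

theorem mem_normalizer_of_conj_mem [Finite G] {H : Subgroup G} {n : G}
    (h : ∀ x ∈ H, n * x * n⁻¹ ∈ H) : n ∈ Subgroup.normalizer (H : Set G) := by
  rw [Subgroup.mem_normalizer_iff]
  intro x
  constructor
  · exact h x
  · intro hx
    let f : H → H := fun x => ⟨n * x * n⁻¹, h x x.2⟩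
    have hinj : Function.Injective f := by
      intro x y hxy
      have h1 : n * (x : G) * n⁻¹ = n * (y : G) * n⁻¹ := congrArg Subtype.val hxy
      exact Subtype.ext (mul_left_cancel (mul_right_cancel h1))
    obtain ⟨y, hy⟩ := Finite.surjective_of_injective hinj ⟨n * x * n⁻¹, hx⟩
    have h1 : n * (y : G) * n⁻¹ = n * x * n⁻¹ := congrArg Subtype.val hy
    have h2 : (y : G) = x := mul_left_cancel (mul_right_cancel h1)
    rw [← h2]
    exact y.2

/-- basic facts on a group with a quaternion Sylow 2-subgroup of order 8 -/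
theorem q8_basic [Finite G] (S : Sylow 2 G) (e : (S : Subgroup G) ≃* QuaternionGroup 2) :
    NK G ∧ Nat.card S = 8 ∧ ∀ g : G, orderOf g ≠ 8 := by
  have : Fact (Nat.Prime 2) := ⟨Nat.prime_two⟩
  have hNK : NK G := nk_of_quat S 2 (by norm_num) e
  have hS8 : Nat.card S = 8 := by
    rw [Nat.card_congr e.toEquiv, Nat.card_eq_fintype_card, QuaternionGroup.card]
  refine ⟨hNK, hS8, ?_⟩
  intro g hg
  have hp : IsPGroup 2 (Subgroup.zpowers g) := by
    apply IsPGroup.of_card (n := 3)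
    rw [Nat.card_zpowers, hg]
    norm_num
  obtain ⟨Q, hQ⟩ := hp.exists_le_sylow
  obtain ⟨w, hw⟩ := MulAction.exists_smul_eq G S Q
  have hxQ : g ∈ (Q : Subgroup G) := hQ (Subgroup.mem_zpowers g)
  rw [← hw, Sylow.coe_subgroup_smul, Subgroup.mem_pointwise_smul_iff_inv_smul_mem] at hxQ
  have e1 : (MulAut.conj w)⁻¹ • g = w⁻¹ * g * w⁻¹⁻¹ := by
    rw [← map_inv, MulAut.smul_def, MulAut.conj_apply]
  rw [e1] at hxQ
  have h1 : orderOf (e ⟨w⁻¹ * g * w⁻¹⁻¹, hxQ⟩) = 8 := by
    rw [MulEquiv.orderOf_eq, Subgroup.orderOf_mk, orderOf_conj', hg]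
  have h2 : orderOf (e ⟨w⁻¹ * g * w⁻¹⁻¹, hxQ⟩) ∣ Monoid.exponent (QuaternionGroup 2) :=
    Monoid.order_dvd_exponent _
  have h3 : (2 : ℕ) * lcm 2 2 = 4 := by decide
  rw [h1, QuaternionGroup.exponent, h3] at h2
  omega

theorem cyc4_gen [Finite G] (hNK : NK G) (A : Subgroup G) (hA4 : Nat.card A = 4) :
    ∃ a : G, orderOf a = 4 ∧ A = Subgroup.zpowers a := by
  have hcyc : IsCyclic A := cyclic_of_card_dvd_four (hNK.subgroup A) (by rw [hA4])
  obtain ⟨a, ha⟩ := IsCyclic.exists_ofOrder_eq_natCard (α := A)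
  refine ⟨(a : G), by rw [Subgroup.orderOf_coe, ha, hA4], ?_⟩
  symm
  apply Subgroup.eq_of_le_of_card_ge (Subgroup.zpowers_le.mpr a.2)
  rw [Nat.card_zpowers, Subgroup.orderOf_coe, ha]

/-- a normal subgroup of odd order with 2-group quotient is a normal complement of a Sylow
2-subgroup -/
theorem complement_of_pow [Finite G] (S : Sylow 2 G) (K : Subgroup G) [hKn : K.Normal]
    (hKodd : Odd (Nat.card K)) (hK : ∀ g : G, ∃ j : ℕ, g ^ (2 ^ j) ∈ K) :
    Subgroup.IsComplement' K (S : Subgroup G) := by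
  have : Fact (Nat.Prime 2) := ⟨Nat.prime_two⟩
  have hq : IsPGroup 2 (G ⧸ K) := by
    intro q
    obtain ⟨g, rfl⟩ := QuotientGroup.mk_surjective q
    obtain ⟨j, hj⟩ := hK g
    exact ⟨j, by rw [← QuotientGroup.mk_pow]; exact (QuotientGroup.eq_one_iff _).mpr hj⟩
  obtain ⟨n, hn⟩ := (IsPGroup.iff_card).mp hq
  obtain ⟨s, hs⟩ := (IsPGroup.iff_card).mp S.isPGroup'
  have h1 : Nat.card G = Nat.card (G ⧸ K) * Nat.card K :=
    Subgroup.card_eq_card_quotient_mul_card_subgroup K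
  have h2 : Nat.card S * (S : Subgroup G).index = Nat.card G := Subgroup.card_mul_index _
  have hc1 : Nat.Coprime 2 (Nat.card K) := (Nat.coprime_two_left).mpr hKodd
  have hc2 : Nat.Coprime 2 (S : Subgroup G).index :=
    (Nat.Prime.coprime_iff_not_dvd Nat.prime_two).mpr S.not_dvd_index
  have h3 : 2 ^ n = 2 ^ s := by
    apply Nat.dvd_antisymm
    · have h4 : 2 ^ n ∣ 2 ^ s * (S : Subgroup G).index := by
        rw [← hs, h2, h1, hn]
        exact dvd_mul_right _ _
      exact (Nat.Coprime.pow_left n hc2).dvd_of_dvd_mul_right h4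
    · have h4 : 2 ^ s ∣ 2 ^ n * Nat.card K := by
        rw [← hn, ← h1, ← h2, hs]
        exact dvd_mul_right _ _
      exact (Nat.Coprime.pow_left s hc1).dvd_of_dvd_mul_right h4
  apply Subgroup.isComplement'_of_coprime
  · rw [hs, ← h3, ← hn, mul_comm]
    exact h1.symm
  · rw [hs]
    exact (Nat.Coprime.pow_left s hc1).symm

/-- in a group with quaternion Sylow 2-subgroup `S` of order 8 and no normal 2-complement, any
two subgroups of order 4 of `S` are conjugate under the normalizer of `S` -/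
theorem q8_conj_subgroups [Finite G] (S : Sylow 2 G) (e : (S : Subgroup G) ≃* QuaternionGroup 2)
    (hnc : ∀ N : Subgroup G, N.Normal → ¬ Subgroup.IsComplement' N (S : Subgroup G))
    (A B : Subgroup G) (hA : A ≤ S) (hB : B ≤ S) (hA4 : Nat.card A = 4) (hB4 : Nat.card B = 4) :
    ∃ n ∈ Subgroup.normalizer ((S : Subgroup G) : Set G),
      B = A.map (MulAut.conj n).toMonoidHom := by
  have : Fact (Nat.Prime 2) := ⟨Nat.prime_two⟩
  obtain ⟨hNK, hS8, h8⟩ := q8_basic S e
  obtain ⟨a, ha, rfl⟩ := cyc4_gen hNK A hA4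
  obtain ⟨b, hb, rfl⟩ := cyc4_gen hNK B hB4
  have haS : a ∈ (S : Subgroup G) := hA (Subgroup.mem_zpowers a)
  have hbS : b ∈ (S : Subgroup G) := hB (Subgroup.mem_zpowers b)
  have hne : ∀ x : G, orderOf x = 4 → ∃ y ∈ (S : Subgroup G), y ∉ Subgroup.zpowers x := by
    intro x hx
    by_contra hcon
    push Not at hcon
    have h1 := Subgroup.card_le_of_le (show (S : Subgroup G) ≤ Subgroup.zpowers x from hcon)
    rw [hS8, Nat.card_zpowers, hx] at h1
    omega
  have h8P : ∀ q ∈ (S : Subgroup G), orderOf q ≠ 8 := fun q _ => h8 q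
  obtain ⟨-, hinva, -, -⟩ := p8 hNK (S : Subgroup G) S.isPGroup' h8P ha haS (hne a ha)
  obtain ⟨-, hinvb, -, -⟩ := p8 hNK (S : Subgroup G) S.isPGroup' h8P hb hbS (hne b hb)
  -- a and b are conjugate
  have hconj : IsConj a b := by
    by_contra hzc
    obtain ⟨K, hKn, hKodd, hK⟩ := q8_fusion_or hNK S hS8 h8 hb hbS (hne b hb) ha hzc
    exact hnc K hKn (complement_of_pow S K hKodd hK)
  obtain ⟨g, hg⟩ := isConj_iff.mp hconj
  -- elements of S conjugate a into `⟨a⟩` and b into `⟨b⟩`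
  have hSa : ∀ s ∈ (S : Subgroup G), s * a * s⁻¹ ∈ Subgroup.zpowers a := by
    intro s hs
    by_cases hsa : s ∈ Subgroup.zpowers a
    · exact Subgroup.mul_mem _ (Subgroup.mul_mem _ hsa (Subgroup.mem_zpowers a))
        (Subgroup.inv_mem _ hsa)
    · rw [(hinva s hs hsa).2]
      exact Subgroup.inv_mem _ (Subgroup.mem_zpowers a)
  have hSb : ∀ s ∈ (S : Subgroup G), s * b * s⁻¹ ∈ Subgroup.zpowers b := by
    intro s hs
    by_cases hsb : s ∈ Subgroup.zpowers b
    · exact Subgroup.mul_mem _ (Subgroup.mul_mem _ hsb (Subgroup.mem_zpowers b))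
        (Subgroup.inv_mem _ hsb)
    · rw [(hinvb s hs hsb).2]
      exact Subgroup.inv_mem _ (Subgroup.mem_zpowers b)
  have hnorm_of : ∀ s : G, s * b * s⁻¹ ∈ Subgroup.zpowers b →
      s ∈ Subgroup.normalizer ((Subgroup.zpowers b : Subgroup G) : Set G) := by
    intro s hs
    apply mem_normalizer_of_conj_mem
    intro x hx
    obtain ⟨k, rfl⟩ := Subgroup.mem_zpowers_iff.mp hx
    have e1 : s * b ^ k * s⁻¹ = (s * b * s⁻¹) ^ k := (conj_zpow (a := s) (b := b) (i := k)).symm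
    rw [e1]
    exact Subgroup.zpow_mem _ hs k
  set H := Subgroup.normalizer ((Subgroup.zpowers b : Subgroup G) : Set G) with hH
  have hSH : (S : Subgroup G) ≤ H := fun s hs => hnorm_of s (hSb s hs)
  -- a Sylow 2-subgroup of H whose image is S
  have hSp : IsPGroup 2 ((S : Subgroup G).subgroupOf H) := S.isPGroup'.comap_subtype
  obtain ⟨P, hP⟩ := hSp.exists_le_sylow
  have hPS : (P : Subgroup H).map H.subtype = (S : Subgroup G) := by
    apply S.is_maximal' (P.isPGroup'.map _)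
    intro s hs
    exact ⟨⟨s, hSH hs⟩, hP (show (⟨s, hSH hs⟩ : H) ∈ (S : Subgroup G).subgroupOf H from hs), rfl⟩
  -- the conjugate of S by g lies in H
  have hX : (S : Subgroup G).map (MulAut.conj g).toMonoidHom ≤ H := by
    rintro x ⟨s, hs, rfl⟩
    show MulAut.conj g s ∈ H
    rw [MulAut.conj_apply]
    apply hnorm_of
    obtain ⟨k, hk⟩ := Subgroup.mem_zpowers_iff.mp (hSa s hs)
    have e1 : g * s * g⁻¹ * b * (g * s * g⁻¹)⁻¹ = g * (s * a * s⁻¹) * g⁻¹ := by
      rw [← hg]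
      group
    rw [e1, ← hk]
    have e2 : g * a ^ k * g⁻¹ = (g * a * g⁻¹) ^ k := (conj_zpow (a := g) (b := a) (i := k)).symm
    rw [e2, hg]
    exact Subgroup.zpow_mem _ (Subgroup.mem_zpowers b) k
  obtain ⟨h, hhH, hh⟩ := Cfsg.Agent.Lib.helper2.SE.rel_sylow H P _ hX (S.isPGroup'.map _)
  rw [hPS] at hh
  refine ⟨h * g, ?_, ?_⟩
  · apply mem_normalizer_of_conj_mem
    intro s hs
    have e1 : h * g * s * (h * g)⁻¹ = h * (g * s * g⁻¹) * h⁻¹ := by group
    rw [e1]
    apply hh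
    exact ⟨s, hs, by rw [MulEquiv.coe_toMonoidHom, MulAut.conj_apply]⟩
  · rw [MonoidHom.map_zpowers]
    have e1 : (MulAut.conj (h * g)).toMonoidHom a = h * b * h⁻¹ := by
      rw [MulEquiv.coe_toMonoidHom, MulAut.conj_apply, ← hg]
      group
    rw [e1]
    -- zpowers (h b h⁻¹) = zpowers b since h normalizes
    have hmem : h * b * h⁻¹ ∈ Subgroup.zpowers b :=
      (Subgroup.mem_normalizer_iff.mp hhH b).mp (Subgroup.mem_zpowers b)
    symm
    apply Subgroup.eq_of_le_of_card_ge (Subgroup.zpowers_le.mpr hmem)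
    rw [Nat.card_zpowers, Nat.card_zpowers, orderOf_conj']

end Cfsg.Agent.Lib.helper2.BS
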