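import Mathlib
import Cfsg.Agent.Lib.helper1.Klein
import Cfsg.Agent.Lib.helper5.KleinFour
import Cfsg.Agent.Lib.helper9.PPrimeCore

set_option autoImplicit false

/-!
# Groups of order `4 * odd` without a normal 2-complement: Klein four Sylow 2-subgroups

Group-theoretic part of Brauer's order formula.
-/

namespace Cfsg.Agent.Lib.helper2.K4

universe u

variable {G : Type u} [Group G] [Finite G]

theorem card_sylow_four {g₀ : ℕ} (hg₀ : Odd g₀) (hG : Nat.card G = 4 * g₀) (P : Sylow 2 G) :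
    Nat.card (P : Subgroup G) = 4 := by
  have : Fact (Nat.Prime 2) := ⟨Nat.prime_two⟩
  rw [Sylow.card_eq_multiplicity, hG, Nat.factorization_mul (by norm_num) hg₀.pos.ne',
    Finsupp.add_apply]
  have h1 : (4 : ℕ).factorization 2 = 2 := by
    have : (4 : ℕ) = 2 ^ 2 := by norm_num
    rw [this, Nat.Prime.factorization_pow Nat.prime_two]
    simp
  have h2 : g₀.factorization 2 = 0 :=
    Nat.factorization_eq_zero_of_not_dvd hg₀.not_two_dvd_nat
  rw [h1, h2]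
  norm_num

theorem klein_of_hyp {g₀ : ℕ} (hg₀ : Odd g₀) (hG : Nat.card G = 4 * g₀)
    (hnc : ¬ ∃ N : Subgroup G, N.Normal ∧ Nat.card N = g₀) (P : Sylow 2 G) :
    IsKleinFour (P : Subgroup G) := by
  have : Fact (Nat.Prime 2) := ⟨Nat.prime_two⟩
  have h4 := card_sylow_four hg₀ hG P
  refine ⟨h4, ?_⟩
  apply (not_isCyclic_iff_exponent_eq_prime Nat.prime_two (by rw [h4]; norm_num)).mp
  intro hcyc
  have h2 : (Nat.card G).minFac = 2 := by
    rw [Nat.minFac_eq_two_iff, hG]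
    exact Dvd.dvd.mul_right (by norm_num) g₀
  have hc := IsCyclic.isComplement' h2 hcyc
  apply hnc
  refine ⟨_, MonoidHom.normal_ker (MonoidHom.transferSylow P (hcyc.normalizer_le_centralizer h2)), ?_⟩
  have hcard := hc.card_mul_card
  rw [h4, hG, mul_comm] at hcard
  exact Nat.eq_of_mul_eq_mul_left (by norm_num) hcard

/-- all involutions are conjugate -/
theorem one_class {g₀ : ℕ} (hg₀ : Odd g₀) (hG : Nat.card G = 4 * g₀)
    (hnc : ¬ ∃ N : Subgroup G, N.Normal ∧ Nat.card N = g₀) (P : Sylow 2 G)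
    (J : G) (hJ : J ∈ (P : Subgroup G)) (hJ2 : orderOf J = 2) :
    ∀ s : G, orderOf s = 2 → IsConj J s := by
  have : Fact (Nat.Prime 2) := ⟨Nat.prime_two⟩
  have hK := klein_of_hyp hg₀ hG hnc P
  have h4 := card_sylow_four hg₀ hG P
  have hNC : ¬ Subgroup.normalizer ((P : Subgroup G) : Set G) ≤
      Subgroup.centralizer ((P : Subgroup G) : Set G) := by
    intro hNC
    apply hnc
    refine ⟨_, MonoidHom.normal_ker (MonoidHom.transferSylow P hNC), ?_⟩
    have hcard := (MonoidHom.ker_transferSylow_isComplement' P hNC).card_mul_card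
    rw [h4, hG, mul_comm] at hcard
    exact Nat.eq_of_mul_eq_mul_left (by norm_num) hcard
  rw [SetLike.not_le_iff_exists] at hNC
  obtain ⟨n, hn, hnC⟩ := hNC
  rw [Subgroup.mem_centralizer_iff] at hnC
  push Not at hnC
  obtain ⟨q, hq, hqn⟩ := hnC
  have hq' : q ∈ (P : Subgroup G) := hq
  have hb : n * q * n⁻¹ ∈ (P : Subgroup G) := (Subgroup.mem_normalizer_iff.mp hn q).mp hq'
  have hq1 : q ≠ 1 := by
    rintro rfl
    simp at hqn
  have hb1 : n * q * n⁻¹ ≠ 1 := by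
    intro h
    apply hq1
    have : q = n⁻¹ * (n * q * n⁻¹) * n := by group
    rw [this, h]; group
  have hqb : q ≠ n * q * n⁻¹ := by
    intro h
    apply hqn
    calc q * n = (n * q * n⁻¹) * n := by rw [← h]
      _ = n * q := by group
  have hconj : IsConj q (n * q * n⁻¹) := isConj_iff.mpr ⟨n, rfl⟩
  have hfus := Cfsg.Agent.Lib.helper1.klein_fusion P hK hq' hb hq1 hb1 hqb hconj
  have key : ∀ z : G, z ∈ (P : Subgroup G) → z ≠ 1 → IsConj q z := by
    intro z hz hz1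
    rcases Cfsg.Agent.Lib.helper1.klein_cases P hK hq' hb hz hq1 hb1 hqb with h | h | h | h
    · exact absurd h hz1
    · rw [h]
    · rw [h]; exact hconj
    · rw [h]; exact hfus
  have hJ1 : J ≠ 1 := by
    rintro rfl
    rw [orderOf_one] at hJ2
    omega
  intro s hs
  obtain ⟨c, hc⟩ := Cfsg.Agent.Lib.helper5.exists_conj_mem_sylow P s ⟨1, by rw [hs]; norm_num⟩
  have hs1 : c * s * c⁻¹ ≠ 1 := by
    intro h
    have : s = c⁻¹ * (c * s * c⁻¹) * c := by group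
    rw [h] at this
    have hs' : s = 1 := by rw [this]; group
    rw [hs', orderOf_one] at hs
    omega
  have h1 : IsConj J q := (key J hJ hJ1).symm
  have h2 : IsConj q (c * s * c⁻¹) := key _ hc hs1
  have h3 : IsConj (c * s * c⁻¹) s := (isConj_iff.mpr ⟨c, rfl⟩ : IsConj s (c * s * c⁻¹)).symm
  exact (h1.trans h2).trans h3

/-- structure of the centralizer of an involution: `U = O(C_G(J))` is a normal 2-complement of
`C_G(J)` with `C_G(J) = U P`. -/
theorem cent_struct {g₀ : ℕ} (hg₀ : Odd g₀) (hG : Nat.card G = 4 * g₀)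
    (hnc : ¬ ∃ N : Subgroup G, N.Normal ∧ Nat.card N = g₀) (P : Sylow 2 G)
    (J : G) (hJ : J ∈ (P : Subgroup G)) (hJ2 : orderOf J = 2) :
    (Cfsg.centralizerPPrimeCore 2 J ≤ Subgroup.centralizer ({J} : Set G)) ∧
    (∀ c ∈ Subgroup.centralizer ({J} : Set G), ∀ u ∈ Cfsg.centralizerPPrimeCore 2 J,
      c * u * c⁻¹ ∈ Cfsg.centralizerPPrimeCore 2 J) ∧
    Odd (Nat.card (Cfsg.centralizerPPrimeCore 2 J)) ∧
    (∀ v ∈ Subgroup.centralizer ({J} : Set G), Odd (orderOf v) →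
      v ∈ Cfsg.centralizerPPrimeCore 2 J) ∧
    (∀ c ∈ Subgroup.centralizer ({J} : Set G), ∃ t ∈ (P : Subgroup G),
      c * t⁻¹ ∈ Cfsg.centralizerPPrimeCore 2 J) := by
  have : Fact (Nat.Prime 2) := ⟨Nat.prime_two⟩
  have hK := klein_of_hyp hg₀ hG hnc P
  have h4 := card_sylow_four hg₀ hG P
  obtain ⟨C, hC⟩ : ∃ C : Subgroup G, C = Subgroup.centralizer ({J} : Set G) := ⟨_, rfl⟩
  unfold Cfsg.centralizerPPrimeCore
  rw [← hC]
  have hmemC : ∀ x : G, x ∈ C ↔ x * J = J * x := by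
    intro x; rw [hC, Subgroup.mem_centralizer_singleton_iff]
  have hPC : (P : Subgroup G) ≤ C := by
    intro t ht
    rw [hmemC]
    exact Cfsg.Agent.Lib.helper1.klein_comm P hK ht hJ
  obtain ⟨Q, hQ⟩ : ∃ Q : Sylow 2 ↥C, Q = P.subtype hPC := ⟨_, rfl⟩
  have hQcoe : (Q : Subgroup ↥C) = (P : Subgroup G).subgroupOf C := by rw [hQ]; rfl
  have hmemQ : ∀ x : ↥C, x ∈ (Q : Subgroup ↥C) ↔ (x : G) ∈ (P : Subgroup G) := by
    intro x; rw [hQcoe, Subgroup.mem_subgroupOf]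
  have hcardQ : Nat.card (Q : Subgroup ↥C) = 4 := by
    rw [hQcoe, Nat.card_congr (Subgroup.subgroupOfEquivOfLe hPC).toEquiv, h4]
  have hKQ : IsKleinFour (Q : Subgroup ↥C) := by
    refine ⟨hcardQ, ?_⟩
    rw [hQcoe, Monoid.exponent_eq_of_mulEquiv (Subgroup.subgroupOfEquivOfLe hPC)]
    exact hK.exponent_two
  have hJC : J ∈ C := by rw [hmemC]
  have hzQ : (⟨J, hJC⟩ : ↥C) ∈ Q := (hmemQ _).mpr hJ
  have hJ1 : J ≠ 1 := by
    rintro rfl
    rw [orderOf_one] at hJ2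
    omega
  have hz1 : (⟨J, hJC⟩ : ↥C) ≠ 1 := fun h => hJ1 (congrArg Subtype.val h)
  have hz : ∀ h : ↥C, h * ⟨J, hJC⟩ = ⟨J, hJC⟩ * h := by
    intro h
    apply Subtype.ext
    exact (hmemC _).mp h.2
  obtain ⟨k, hk⟩ := @Cfsg.Agent.Lib.helper5.exists_index_pow_of_klein ↥C _ _ Q hKQ _ hzQ hz1 hz
  obtain ⟨N, hN⟩ : ∃ N : Subgroup ↥C, N = Cfsg.pPrimeCore 2 ↥C := ⟨_, rfl⟩
  rw [← hN] at hk ⊢
  have hNn : N.Normal := by rw [hN]; exact Cfsg.Agent.Lib.helper9.ppc_normal 2 ↥C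
  have hNodd : Odd (Nat.card N) := by
    rw [hN]
    exact Nat.coprime_two_right.mp (Cfsg.Agent.Lib.helper9.pPrimeCore_coprime 2 ↥C)
  have hidx : N.index = 4 := by
    have h1 := Subgroup.card_mul_index N
    rw [hk] at h1
    have h4C : 4 ∣ Nat.card ↥C := by
      rw [← h4]; exact Subgroup.card_dvd_of_le hPC
    have hCG : Nat.card ↥C ∣ 4 * g₀ := by
      rw [← hG]; exact Subgroup.card_subgroup_dvd_card C
    have hk2 : k ≤ 2 := by
      by_contra hlt
      have h8 : 2 ^ 3 ∣ 2 ^ k := pow_dvd_pow 2 (by omega)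
      have h8' : 2 ^ 3 ∣ 4 * g₀ := (h8.trans (Dvd.intro_left _ h1)).trans hCG
      obtain ⟨m, hm⟩ := h8'
      obtain ⟨r, hr⟩ := hg₀
      omega
    rw [hk]
    obtain ⟨r, hr⟩ := hNodd
    rw [← h1, hr] at h4C
    interval_cases k
    · exfalso; omega
    · exfalso; omega
    · norm_num
  have hcardq : Nat.card (↥C ⧸ N) = 4 := by rw [← Subgroup.index_eq_card, hidx]
  refine ⟨Subgroup.map_subtype_le _, ?_, ?_, ?_, ?_⟩
  · intro c hc u hu
    obtain ⟨n, hn, rfl⟩ := Subgroup.mem_map.mp hu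
    exact Subgroup.mem_map.mpr ⟨⟨c, hc⟩ * n * ⟨c, hc⟩⁻¹, hNn.conj_mem n hn ⟨c, hc⟩, rfl⟩
  · rw [Subgroup.card_subtype]
    exact hNodd
  · intro v hv hvodd
    refine Subgroup.mem_map.mpr ⟨⟨v, hv⟩, ?_, rfl⟩
    rw [← QuotientGroup.eq_one_iff]
    have h1 : ((⟨v, hv⟩ : ↥C) : ↥C ⧸ N) ^ orderOf v = 1 := by
      rw [← QuotientGroup.mk_pow]
      have : (⟨v, hv⟩ : ↥C) ^ orderOf v = 1 := Subtype.ext (pow_orderOf_eq_one v)
      rw [this]; rfl
    have h2 : ((⟨v, hv⟩ : ↥C) : ↥C ⧸ N) ^ 4 = 1 := by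
      have := pow_card_eq_one' (G := ↥C ⧸ N) (x := ((⟨v, hv⟩ : ↥C) : ↥C ⧸ N))
      rwa [hcardq] at this
    have hd := Nat.dvd_gcd (orderOf_dvd_of_pow_eq_one h1) (orderOf_dvd_of_pow_eq_one h2)
    have hcop : Nat.gcd (orderOf v) 4 = 1 := by
      have : Nat.Coprime (orderOf v) (2 ^ 2) :=
        Nat.Coprime.pow_right 2 (Nat.coprime_two_right.mpr hvodd)
      exact this
    rw [hcop, Nat.dvd_one, orderOf_eq_one_iff] at hd
    exact hd
  · intro c hc
    have hinj : Function.Injective (fun t : ↥(Q : Subgroup ↥C) => ((t : ↥C) : ↥C ⧸ N)) := by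
      intro t t' htt
      have hmem : (t : ↥C)⁻¹ * (t' : ↥C) ∈ N := QuotientGroup.eq.mp htt
      have hmemQ' : (t : ↥C)⁻¹ * (t' : ↥C) ∈ (Q : Subgroup ↥C) :=
        (Q : Subgroup ↥C).mul_mem ((Q : Subgroup ↥C).inv_mem t.2) t'.2
      have h1 : ((t : ↥C)⁻¹ * (t' : ↥C)) ^ Nat.card N = 1 := by
        have := pow_card_eq_one' (G := ↥N) (x := ⟨_, hmem⟩)
        exact congrArg Subtype.val this
      have h2 : ((t : ↥C)⁻¹ * (t' : ↥C)) ^ 4 = 1 := by
        have := pow_card_eq_one' (G := ↥(Q : Subgroup ↥C)) (x := ⟨_, hmemQ'⟩)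
        rw [hcardQ] at this
        exact congrArg Subtype.val this
      have hd := Nat.dvd_gcd (orderOf_dvd_of_pow_eq_one h1) (orderOf_dvd_of_pow_eq_one h2)
      have hcop : Nat.gcd (Nat.card N) 4 = 1 := by
        have : Nat.Coprime (Nat.card N) (2 ^ 2) :=
          Nat.Coprime.pow_right 2 (Nat.coprime_two_right.mpr hNodd)
        exact this
      rw [hcop, Nat.dvd_one, orderOf_eq_one_iff] at hd
      apply Subtype.ext
      exact inv_mul_eq_one.mp hd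
    have hbij := hinj.bijective_of_nat_card_le (by rw [hcardq, hcardQ])
    obtain ⟨t, ht⟩ := hbij.2 ((⟨c, hc⟩ : ↥C) : ↥C ⧸ N)
    have hmem : (t : ↥C)⁻¹ * (⟨c, hc⟩ : ↥C) ∈ N := QuotientGroup.eq.mp ht
    have hmem2 := hNn.conj_mem _ hmem ⟨c, hc⟩
    refine ⟨((t : ↥C) : G), (hmemQ _).mp t.2, ?_⟩
    refine Subgroup.mem_map.mpr ⟨_, hmem2, ?_⟩
    simp only [Subgroup.coe_subtype, Subgroup.coe_mul, Subgroup.coe_inv]
    group

end Cfsg.Agent.Lib.helper2.K4
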