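import Mathlib
import Cfsg.Agent.Lib.helper2.K4a
import Cfsg.Agent.S0925
import Cfsg.Agent.S0942
import Cfsg.Agent.S1618
import Cfsg.Agent.Lib.helper24.CharReg
import Cfsg.Agent.Lib.helper24.CharKer
import Cfsg.Agent.Lib.helper5.BlockSecond
import Cfsg.Agent.Lib.helper5.BlockSecond3
import Cfsg.Agent.Lib.helper5.BlockSections

set_option autoImplicit false

/-!
# Brauer's order formula for groups with a Klein four Sylow 2-subgroup
-/

namespace Cfsg.Agent.Lib.helper2.K4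

open Cfsg Cfsg.Agent.Lib.helper24

universe u

variable {G : Type u} [Group G]

/-- cardinality of a subgroup that is a product of two subgroups with trivial intersection -/
theorem card_prod (A B D : Subgroup G) (hAB : ∀ a ∈ A, ∀ b ∈ B, a * b ∈ D)
    (hD : ∀ d ∈ D, ∃ b ∈ B, d * b⁻¹ ∈ A) (hint : ∀ x ∈ A, x ∈ B → x = 1) :
    Nat.card D = Nat.card A * Nat.card B := by
  rw [← Nat.card_prod]
  symm
  apply Nat.card_eq_of_bijective (fun x : A × B => (⟨x.1 * x.2, hAB _ x.1.2 _ x.2.2⟩ : D))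
  constructor
  · rintro ⟨⟨a, ha⟩, ⟨b, hb⟩⟩ ⟨⟨a', ha'⟩, ⟨b', hb'⟩⟩ h
    have h' : a * b = a' * b' := congrArg Subtype.val h
    have h1 : a'⁻¹ * a = b' * b⁻¹ := by
      calc a'⁻¹ * a = a'⁻¹ * (a * b) * b⁻¹ := by group
        _ = a'⁻¹ * (a' * b') * b⁻¹ := by rw [h']
        _ = b' * b⁻¹ := by group
    have h2 : a'⁻¹ * a = 1 :=
      hint _ (A.mul_mem (A.inv_mem ha') ha) (h1 ▸ B.mul_mem hb' (B.inv_mem hb))
    have h3 : a = a' := by
      calc a = a' * (a'⁻¹ * a) := by group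
        _ = a' := by rw [h2, mul_one]
    subst h3
    have h4 : b = b' := mul_left_cancel h'
    subst h4
    rfl
  · rintro ⟨d, hd⟩
    obtain ⟨b, hb, hdb⟩ := hD d hd
    exact ⟨(⟨d * b⁻¹, hdb⟩, ⟨b, hb⟩), by apply Subtype.ext; simp⟩

/-- a sum over the principal block with four members -/
theorem sum_block (M : Ideal Cfsg.AlgInt) (χ₁ χ₂ χ₃ : Cfsg.IrrCharacter G)
    (hB : Cfsg.principalBlock M G = {χ : Cfsg.IrrCharacter G |
      (χ : G → ℂ) = (fun _ => 1) ∨ χ = χ₁ ∨ χ = χ₂ ∨ χ = χ₃})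
    (hdist : (χ₁ : G → ℂ) ≠ (fun _ => 1) ∧ (χ₂ : G → ℂ) ≠ (fun _ => 1) ∧
      (χ₃ : G → ℂ) ≠ (fun _ => 1) ∧ χ₁ ≠ χ₂ ∧ χ₁ ≠ χ₃ ∧ χ₂ ≠ χ₃)
    (F : Cfsg.IrrCharacter G → ℂ) :
    ∑ᶠ χ ∈ Cfsg.principalBlock M G, F χ = F (trivIrr G) + F χ₁ + F χ₂ + F χ₃ := by
  classical
  obtain ⟨h1, h2, h3, h12, h13, h23⟩ := hdist
  have ht : ∀ χ : Cfsg.IrrCharacter G, (χ : G → ℂ) = (fun _ => 1) ↔ χ = trivIrr G := by
    intro χ
    constructor
    · intro h; exact Subtype.ext h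
    · intro h; rw [h]; rfl
  have hset : Cfsg.principalBlock M G =
      ↑({trivIrr G, χ₁, χ₂, χ₃} : Finset (Cfsg.IrrCharacter G)) := by
    rw [hB]
    ext χ
    simp only [Set.mem_setOf_eq, Finset.coe_insert, Finset.coe_singleton, Set.mem_insert_iff,
      Set.mem_singleton_iff, ht]
  rw [hset, finsum_mem_coe_finset, Finset.sum_insert, Finset.sum_insert, Finset.sum_insert,
    Finset.sum_singleton]
  · ring
  · simp only [Finset.mem_singleton]; exact h23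
  · simp only [Finset.mem_insert, Finset.mem_singleton]
    push Not
    exact ⟨h12, h13⟩
  · simp only [Finset.mem_insert, Finset.mem_singleton]
    push Not
    refine ⟨?_, ?_, ?_⟩
    · intro h; exact h1 ((ht χ₁).mpr h.symm)
    · intro h; exact h2 ((ht χ₂).mpr h.symm)
    · intro h; exact h3 ((ht χ₃).mpr h.symm)

/-- the class function `1 + ε₁ χ₁ + ε₂ χ₂ + ε₃ χ₃` is four times the indicator function of the
2-section of `J` -/
theorem psi_val [Finite G] (M : Ideal Cfsg.AlgInt) (hM : Cfsg.IsPModular 2 M) {g₀ : ℕ}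
    (hg₀ : Odd g₀) (hG : Nat.card G = 4 * g₀)
    (hnc : ¬ ∃ N : Subgroup G, N.Normal ∧ Nat.card N = g₀)
    (P : Sylow 2 G) (J : G) (hJ : J ∈ (P : Subgroup G)) (hJ2 : orderOf J = 2)
    (χ₁ χ₂ χ₃ : Cfsg.IrrCharacter G) (ε₁ ε₂ ε₃ : ℤ)
    (hB : Cfsg.principalBlock M G = {χ : Cfsg.IrrCharacter G |
      (χ : G → ℂ) = (fun _ => 1) ∨ χ = χ₁ ∨ χ = χ₂ ∨ χ = χ₃})
    (hdist : (χ₁ : G → ℂ) ≠ (fun _ => 1) ∧ (χ₂ : G → ℂ) ≠ (fun _ => 1) ∧
      (χ₃ : G → ℂ) ≠ (fun _ => 1) ∧ χ₁ ≠ χ₂ ∧ χ₁ ≠ χ₃ ∧ χ₂ ≠ χ₃)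
    (hε : (ε₁ = 1 ∨ ε₁ = -1) ∧ (ε₂ = 1 ∨ ε₂ = -1) ∧ (ε₃ = 1 ∨ ε₃ = -1))
    (hval : (χ₁ : G → ℂ) J = ε₁ ∧ (χ₂ : G → ℂ) J = ε₂ ∧ (χ₃ : G → ℂ) J = ε₃)
    (g x : G) (hx : Cfsg.IsPPart 2 g x) [Decidable (IsConj J x)] :
    1 + (ε₁ : ℂ) * χ₁.1 g + (ε₂ : ℂ) * χ₂.1 g + (ε₃ : ℂ) * χ₃.1 g =
      if IsConj J x then 4 else 0 := by
  have : Fact (Nat.Prime 2) := ⟨Nat.prime_two⟩
  have hJJ1 : J * J = 1 := by rw [← sq, ← hJ2]; exact pow_orderOf_eq_one J
  have hJinv : J⁻¹ = J := inv_eq_of_mul_eq_one_left hJJ1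
  by_cases hc : IsConj J x
  · rw [if_pos hc]
    obtain ⟨c, hcx⟩ := isConj_iff.mp hc
    obtain ⟨v, hxv, hcomm, -, hv⟩ := hx
    have hg : g = c * (J * (c⁻¹ * v * c)) * c⁻¹ := by rw [← hxv, ← hcx]; group
    have hv'C : c⁻¹ * v * c ∈ Subgroup.centralizer ({J} : Set G) := by
      rw [Subgroup.mem_centralizer_singleton_iff]
      have h1 : v * (c * J * c⁻¹) = (c * J * c⁻¹) * v := by rw [hcx]; exact hcomm.eq.symm
      calc c⁻¹ * v * c * J = c⁻¹ * (v * (c * J * c⁻¹)) * c := by group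
        _ = c⁻¹ * ((c * J * c⁻¹) * v) * c := by rw [h1]
        _ = J * (c⁻¹ * v * c) := by group
    have hv'odd : Odd (orderOf (c⁻¹ * v * c)) := by
      have h1 : orderOf (c⁻¹ * v * c) = orderOf v := by
        have := orderOf_injective (MulAut.conj c⁻¹).toMonoidHom (MulAut.conj c⁻¹).injective v
        simpa using this
      rw [h1, ← Nat.not_even_iff_odd, even_iff_two_dvd]
      exact hv
    have hv'U := (cent_struct hg₀ hG hnc P J hJ hJ2).2.2.2.1 _ hv'C hv'odd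
    have key : ∀ χ ∈ Cfsg.principalBlock M G, χ.1 g = χ.1 J := by
      intro χ hχ
      rw [hg, isClassFunction_irr χ]
      exact Cfsg.Agent.S0942.result 2 M hM J ⟨1, by rw [hJ2]; norm_num⟩ _ hv'U χ hχ
    have m1 : χ₁ ∈ Cfsg.principalBlock M G := by rw [hB]; right; left; rfl
    have m2 : χ₂ ∈ Cfsg.principalBlock M G := by rw [hB]; right; right; left; rfl
    have m3 : χ₃ ∈ Cfsg.principalBlock M G := by rw [hB]; right; right; right; rfl
    rw [key χ₁ m1, key χ₂ m2, key χ₃ m3, hval.1, hval.2.1, hval.2.2]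
    obtain ⟨h1, h2, h3⟩ := hε
    rcases h1 with h1 | h1 <;> rcases h2 with h2 | h2 <;> rcases h3 with h3 | h3 <;>
      subst h1 <;> subst h2 <;> subst h3 <;> push_cast <;> norm_num
  · rw [if_neg hc]
    have hJJ : Cfsg.IsPPart 2 J J :=
      ⟨1, mul_one _, Commute.one_right _, ⟨1, by rw [hJ2]; norm_num⟩,
        by rw [orderOf_one]; norm_num⟩
    have hnc' : ¬ IsConj x J := fun h => hc h.symm
    have horth := (Cfsg.Agent.S0925.result 2 M hM).2 g J x J hx hJJ hnc'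
      (Cfsg.principalBlock M G) ⟨trivIrr G, rfl⟩
    rw [sum_block M χ₁ χ₂ χ₃ hB hdist, hJinv, hval.1, hval.2.1, hval.2.2, trivIrr_apply,
      trivIrr_apply] at horth
    linear_combination horth

/-- pairs of involutions whose product has 2-part `J` -/
theorem pair_iff [Finite G] {g₀ : ℕ}
    (hg₀ : Odd g₀) (hG : Nat.card G = 4 * g₀)
    (hnc : ¬ ∃ N : Subgroup G, N.Normal ∧ Nat.card N = g₀)
    (P : Sylow 2 G) (J : G) (hJ : J ∈ (P : Subgroup G)) (hJ2 : orderOf J = 2)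
    (J' : G) (hJ' : J' ∈ (P : Subgroup G)) (hJ'1 : J' ≠ 1) (hJJ' : J ≠ J')
    (a b : G) (haa : a * a = 1) (hbb : b * b = 1) (ha1 : a ≠ 1) (hb1 : b ≠ 1) :
    (Cfsg.IsPPart 2 (a * b) J ↔
      ((a * J'⁻¹ ∈ Cfsg.centralizerPPrimeCore 2 J ∧
          b * (J * J')⁻¹ ∈ Cfsg.centralizerPPrimeCore 2 J) ∨
        (a * (J * J')⁻¹ ∈ Cfsg.centralizerPPrimeCore 2 J ∧
          b * J'⁻¹ ∈ Cfsg.centralizerPPrimeCore 2 J))) ∧
    ¬ (a * J'⁻¹ ∈ Cfsg.centralizerPPrimeCore 2 J ∧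
        a * (J * J')⁻¹ ∈ Cfsg.centralizerPPrimeCore 2 J) := by
  have : Fact (Nat.Prime 2) := ⟨Nat.prime_two⟩
  have hK := klein_of_hyp hg₀ hG hnc P
  obtain ⟨hUC, hUn, hUodd, hUodd', hUP⟩ := cent_struct hg₀ hG hnc P J hJ hJ2
  obtain ⟨U, hU⟩ : ∃ U : Subgroup G, U = Cfsg.centralizerPPrimeCore 2 J := ⟨_, rfl⟩
  rw [← hU] at hUC hUn hUodd hUodd' hUP ⊢
  obtain ⟨C, hC⟩ : ∃ C : Subgroup G, C = Subgroup.centralizer ({J} : Set G) := ⟨_, rfl⟩
  rw [← hC] at hUC hUn hUodd' hUP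
  have hmemC : ∀ x : G, x ∈ C ↔ x * J = J * x := by
    intro x; rw [hC, Subgroup.mem_centralizer_singleton_iff]
  have hJJ1 : J * J = 1 := by rw [← sq, ← hJ2]; exact pow_orderOf_eq_one J
  have hJinv : J⁻¹ = J := inv_eq_of_mul_eq_one_left hJJ1
  have hJ1 : J ≠ 1 := by
    rintro rfl
    rw [orderOf_one] at hJ2
    omega
  have hJ'2 := Cfsg.Agent.Lib.helper1.klein_orderOf P hK J' hJ' hJ'1
  have hJ'J'1 : J' * J' = 1 := by rw [← sq, ← hJ'2]; exact pow_orderOf_eq_one J'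
  have hJ'inv : J'⁻¹ = J' := inv_eq_of_mul_eq_one_left hJ'J'1
  have hcommJ : J * J' = J' * J := Cfsg.Agent.Lib.helper1.klein_comm P hK hJ hJ'
  have hJC : J ∈ C := by rw [hmemC]
  have hJ'C : J' ∈ C := by rw [hmemC]; exact hcommJ.symm
  have hJJ'P : J * J' ∈ (P : Subgroup G) := (P : Subgroup G).mul_mem hJ hJ'
  have hJJ'C : J * J' ∈ C := C.mul_mem hJC hJ'C
  have h4 : J * J' * J * J' = 1 := by
    calc J * J' * J * J' = J * (J' * J) * J' := by group
      _ = J * (J * J') * J' := by rw [hcommJ]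
      _ = (J * J) * (J' * J') := by group
      _ = 1 := by rw [hJJ1, hJ'J'1, mul_one]
  have hodd_ord : ∀ x ∈ U, ¬ 2 ∣ orderOf x := by
    intro x hx h2
    have h3 : 2 ∣ Nat.card U := h2.trans (Subgroup.orderOf_dvd_natCard U hx)
    exact hUodd.not_two_dvd_nat h3
  have hUinv : ∀ x ∈ U, x * x = 1 → x = 1 := by
    intro x hx hxx
    by_contra hx1
    have : orderOf x = 2 := orderOf_eq_prime (by rw [sq]; exact hxx) hx1
    exact hodd_ord x hx (by rw [this])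
  have hUP1 : ∀ x ∈ U, x ∈ (P : Subgroup G) → x = 1 := by
    intro x hx hxP
    by_contra hx1
    have := Cfsg.Agent.Lib.helper1.klein_orderOf P hK x hxP hx1
    exact hodd_ord x hx (by rw [this])
  have hainv : a⁻¹ = a := inv_eq_of_mul_eq_one_left haa
  have hbinv : b⁻¹ = b := inv_eq_of_mul_eq_one_left hbb
  refine ⟨⟨?_, ?_⟩, ?_⟩
  · rintro ⟨v, hJv, hcomm, -, hv⟩
    have hvodd : Odd (orderOf v) := by
      rw [← Nat.not_even_iff_odd, even_iff_two_dvd]; exact hv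
    have hk : (a * b) ^ orderOf v = J := by
      rw [← hJv, hcomm.mul_pow, pow_orderOf_eq_one, mul_one]
      obtain ⟨m, hm⟩ := hvodd
      rw [hm, pow_succ, pow_mul, sq, hJJ1, one_pow, one_mul]
    have haC : a ∈ C := by
      rw [hmemC]
      have h1 : a * (a * b) * a⁻¹ = (a * b)⁻¹ := by
        rw [mul_inv_rev, hainv, hbinv]
        calc a * (a * b) * a = (a * a) * b * a := by group
          _ = b * a := by rw [haa, one_mul]
      have h2 : a * J * a⁻¹ = J := by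
        calc a * J * a⁻¹ = a * (a * b) ^ orderOf v * a⁻¹ := by rw [hk]
          _ = (a * (a * b) * a⁻¹) ^ orderOf v := by rw [conj_pow]
          _ = ((a * b) ^ orderOf v)⁻¹ := by rw [h1, inv_pow]
          _ = J := by rw [hk, hJinv]
      calc a * J = (a * J * a⁻¹) * a := by group
        _ = J * a := by rw [h2]
    have hvC : v ∈ C := by rw [hmemC]; exact hcomm.eq.symm
    have hbC : b ∈ C := by
      have : b = a * (J * v) := by
        rw [hJv, ← mul_assoc, haa, one_mul]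
      rw [this]
      exact C.mul_mem haC (C.mul_mem hJC hvC)
    have hvU : v ∈ U := hUodd' v hvC hvodd
    obtain ⟨ta, hta, hau⟩ := hUP a haC
    obtain ⟨tb, htb, hbu⟩ := hUP b hbC
    have h1 : (a * b) * (ta * tb)⁻¹ ∈ U := by
      have : (a * b) * (ta * tb)⁻¹ = (a * (b * tb⁻¹) * a⁻¹) * (a * ta⁻¹) := by group
      rw [this]
      exact U.mul_mem (hUn a haC _ hbu) hau
    have e : (a * b)⁻¹ * v = J⁻¹ := by
      rw [← hJv, mul_inv_rev, mul_assoc, (hcomm.inv_left).eq, ← mul_assoc, inv_mul_cancel,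
        one_mul]
    have h2 : (ta * tb) * J⁻¹ ∈ U := by
      have : (ta * tb) * J⁻¹ = ((a * b) * (ta * tb)⁻¹)⁻¹ * v := by
        rw [← e]; group
      rw [this]
      exact U.mul_mem (U.inv_mem h1) hvU
    have h3 : (ta * tb) * J⁻¹ = 1 :=
      hUP1 _ h2 ((P : Subgroup G).mul_mem ((P : Subgroup G).mul_mem hta htb)
        ((P : Subgroup G).inv_mem hJ))
    have h5 : ta * tb = J := by
      calc ta * tb = (ta * tb) * J⁻¹ * J := by group
        _ = J := by rw [h3, one_mul]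
    have hta1 : ta ≠ 1 := by
      rintro rfl
      rw [inv_one, mul_one] at hau
      exact ha1 (hUinv a hau haa)
    have htb1 : tb ≠ 1 := by
      rintro rfl
      rw [inv_one, mul_one] at hbu
      exact hb1 (hUinv b hbu hbb)
    rcases Cfsg.Agent.Lib.helper1.klein_cases P hK hJ hJ' hta hJ1 hJ'1 hJJ' with h | h | h | h
    · exact absurd h hta1
    · exfalso
      apply htb1
      rw [h] at h5
      exact mul_left_cancel (h5.trans (mul_one J).symm)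
    · left
      have htb' : tb = J * J' := by
        rw [h] at h5
        calc tb = J' * (J' * tb) := by rw [← mul_assoc, hJ'J'1, one_mul]
          _ = J' * J := by rw [h5]
          _ = J * J' := hcommJ.symm
      rw [h] at hau
      rw [htb'] at hbu
      exact ⟨hau, hbu⟩
    · right
      have htb' : tb = J' := by
        rw [h] at h5
        calc tb = (J * J' * J * J') * tb := by rw [h4, one_mul]
          _ = J * J' * J * (J' * tb) := by group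
          _ = J * J' * (J * J' * tb) := by group
          _ = J * J' * J := by rw [h5]
          _ = J * (J' * J) := by group
          _ = J * (J * J') := by rw [hcommJ]
          _ = J' := by rw [← mul_assoc, hJJ1, one_mul]
      rw [h] at hau
      rw [htb'] at hbu
      exact ⟨hau, hbu⟩
  · have hfin : ∀ w : G, w ∈ U → J * w = a * b → Cfsg.IsPPart 2 (a * b) J := by
      intro w hw e
      have hwC : w ∈ C := hUC hw
      exact ⟨w, e, ((hmemC w).mp hwC).symm, ⟨1, by rw [hJ2]; norm_num⟩, hodd_ord w hw⟩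
    have hC2 : ∀ x : G, x ∈ C → ∀ y : G, y ∈ C → J * (x * y) = (x * y) * J := by
      intro x hx y hy
      exact ((hmemC _).mp (C.mul_mem hx hy)).symm
    rintro (⟨hau, hbu⟩ | ⟨hau, hbu⟩)
    · have haC : a ∈ C := by
        have : a = (a * J'⁻¹) * J' := by group
        rw [this]; exact C.mul_mem (hUC hau) hJ'C
      have hbC : b ∈ C := by
        have : b = (b * (J * J')⁻¹) * (J * J') := by group
        rw [this]; exact C.mul_mem (hUC hbu) hJJ'C
      apply hfin (a * J'⁻¹ * (J' * (b * (J * J')⁻¹) * J'⁻¹))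
        (U.mul_mem hau (hUn J' hJ'C _ hbu))
      calc J * (a * J'⁻¹ * (J' * (b * (J * J')⁻¹) * J'⁻¹))
          = J * (a * b) * (J'⁻¹ * J⁻¹ * J'⁻¹) := by group
        _ = (a * b) * J * (J' * J * J') := by rw [hC2 a haC b hbC, hJ'inv, hJinv]
        _ = (a * b) * (J * J' * J * J') := by group
        _ = a * b := by rw [h4, mul_one]
    · have haC : a ∈ C := by
        have : a = (a * (J * J')⁻¹) * (J * J') := by group
        rw [this]; exact C.mul_mem (hUC hau) hJJ'C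
      have hbC : b ∈ C := by
        have : b = (b * J'⁻¹) * J' := by group
        rw [this]; exact C.mul_mem (hUC hbu) hJ'C
      apply hfin (a * (J * J')⁻¹ * ((J * J') * (b * J'⁻¹) * (J * J')⁻¹))
        (U.mul_mem hau (hUn _ hJJ'C _ hbu))
      calc J * (a * (J * J')⁻¹ * ((J * J') * (b * J'⁻¹) * (J * J')⁻¹))
          = J * (a * b) * (J'⁻¹ * J'⁻¹ * J⁻¹) := by group
        _ = (a * b) * J * (J' * J' * J) := by rw [hC2 a haC b hbC, hJ'inv, hJinv]
        _ = (a * b) * (J * (J' * J') * J) := by group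
        _ = a * b := by rw [hJ'J'1, mul_one, hJJ1, mul_one]
  · rintro ⟨h1, h2⟩
    have h3 : (a * J'⁻¹)⁻¹ * (a * (J * J')⁻¹) ∈ U := U.mul_mem (U.inv_mem h1) h2
    have h5 : (a * J'⁻¹)⁻¹ * (a * (J * J')⁻¹) = J⁻¹ := by group
    rw [h5, hJinv] at h3
    exact hJ1 (hUP1 J h3 hJ)

open Classical in
/-- counting the conjugates of `J` in a coset `U d` -/
theorem count_coset [Fintype G] (J : G) (hJJ1 : J * J = 1)
    (hone : ∀ s : G, orderOf s = 2 → IsConj J s) (U : Subgroup G)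
    (d : G) (hdd : d * d = 1) (hdU : d ∉ U) :
    (∑ t : G, if (t * J * t⁻¹) * d⁻¹ ∈ U then (1 : ℂ) else 0) =
      (Nat.card (Subgroup.centralizer ({J} : Set G)) : ℂ) *
        (Nat.card {u : G // u ∈ U ∧ d * u * d⁻¹ = u⁻¹} : ℂ) := by
  have : Fintype (Subgroup.centralizer ({J} : Set G)) := Fintype.ofFinite _
  have hdinv : d⁻¹ = d := inv_eq_of_mul_eq_one_left hdd
  have hsq : ∀ t : G, (t * J * t⁻¹) * (t * J * t⁻¹) = 1 := by
    intro t
    calc (t * J * t⁻¹) * (t * J * t⁻¹) = t * (J * J) * t⁻¹ := by group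
      _ = 1 := by rw [hJJ1]; group
  have h1 : ∀ t : G, (if (t * J * t⁻¹) * d⁻¹ ∈ U then (1 : ℂ) else 0) =
      ∑ a : G, if t * J * t⁻¹ = a then (if a * a = 1 ∧ a * d⁻¹ ∈ U then (1 : ℂ) else 0) else 0 := by
    intro t
    rw [Finset.sum_ite_eq Finset.univ (t * J * t⁻¹), if_pos (Finset.mem_univ _)]
    by_cases h : (t * J * t⁻¹) * d⁻¹ ∈ U
    · rw [if_pos h, if_pos ⟨hsq t, h⟩]
    · rw [if_neg h, if_neg (fun h' => h h'.2)]
  rw [Finset.sum_congr rfl (fun t _ => h1 t), Finset.sum_comm]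
  have h2 : ∀ a : G, (∑ t : G, if t * J * t⁻¹ = a then
      (if a * a = 1 ∧ a * d⁻¹ ∈ U then (1 : ℂ) else 0) else 0) =
      if a * a = 1 ∧ a * d⁻¹ ∈ U then (Nat.card (Subgroup.centralizer ({J} : Set G)) : ℂ)
        else 0 := by
    intro a
    by_cases h : a * a = 1 ∧ a * d⁻¹ ∈ U
    · rw [if_pos h]
      simp only [if_pos h]
      rw [Cfsg.Agent.Lib.helper5.sum_conj_eq J a]
      have ha1 : a ≠ 1 := by
        rintro rfl
        rw [one_mul] at h
        exact hdU (by simpa using U.inv_mem h.2)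
      have ha2 : orderOf a = 2 := orderOf_eq_prime (by rw [sq]; exact h.1) ha1
      rw [if_pos (hone a ha2)]
    · simp only [if_neg h]
      simp
  rw [Finset.sum_congr rfl (fun a _ => h2 a), ← Finset.sum_filter, Finset.sum_const,
    nsmul_eq_mul, mul_comm]
  congr 1
  rw [← Fintype.card_subtype, ← Nat.card_eq_fintype_card]
  congr 1
  have key : ∀ a : G, a * a = 1 → d * (a * d⁻¹) * d⁻¹ = (a * d⁻¹)⁻¹ := by
    intro a haa
    have hainv : a⁻¹ = a := inv_eq_of_mul_eq_one_left haa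
    rw [mul_inv_rev, inv_inv, hainv, hdinv]
    calc d * (a * d) * d = d * a * (d * d) := by group
      _ = d * a := by rw [hdd, mul_one]
  apply Nat.card_eq_of_bijective
    (fun a : {a : G // a * a = 1 ∧ a * d⁻¹ ∈ U} =>
      (⟨a.1 * d⁻¹, a.2.2, key a.1 a.2.1⟩ : {u : G // u ∈ U ∧ d * u * d⁻¹ = u⁻¹}))
  constructor
  · rintro ⟨a, ha⟩ ⟨b, hb⟩ h
    have h' : a * d⁻¹ = b * d⁻¹ := congrArg Subtype.val h
    exact Subtype.ext (mul_right_cancel h')
  · rintro ⟨u, hu, hud⟩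
    refine ⟨⟨u * d, ?_, ?_⟩, ?_⟩
    · have h3 : d * u = u⁻¹ * d := by
        calc d * u = (d * u * d⁻¹) * d := by group
          _ = u⁻¹ * d := by rw [hud]
      calc u * d * (u * d) = u * (d * u) * d := by group
        _ = u * (u⁻¹ * d) * d := by rw [h3]
        _ = d * d := by group
        _ = 1 := hdd
    · have : u * d * d⁻¹ = u := by group
      rw [this]; exact hu
    · apply Subtype.ext
      show u * d * d⁻¹ = u
      group

open Classical in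
/-- `|C_G(J)| (1 + ε₁ χ₁ + ε₂ χ₂ + ε₃ χ₃)(g)` counts the conjugates of `g` with 2-part `J` -/
theorem psi_section [Fintype G] (M : Ideal Cfsg.AlgInt) (hM : Cfsg.IsPModular 2 M) {g₀ : ℕ}
    (hg₀ : Odd g₀) (hG : Nat.card G = 4 * g₀)
    (hnc : ¬ ∃ N : Subgroup G, N.Normal ∧ Nat.card N = g₀)
    (P : Sylow 2 G) (J : G) (hJ : J ∈ (P : Subgroup G)) (hJ2 : orderOf J = 2)
    (χ₁ χ₂ χ₃ : Cfsg.IrrCharacter G) (ε₁ ε₂ ε₃ : ℤ)
    (hB : Cfsg.principalBlock M G = {χ : Cfsg.IrrCharacter G |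
      (χ : G → ℂ) = (fun _ => 1) ∨ χ = χ₁ ∨ χ = χ₂ ∨ χ = χ₃})
    (hdist : (χ₁ : G → ℂ) ≠ (fun _ => 1) ∧ (χ₂ : G → ℂ) ≠ (fun _ => 1) ∧
      (χ₃ : G → ℂ) ≠ (fun _ => 1) ∧ χ₁ ≠ χ₂ ∧ χ₁ ≠ χ₃ ∧ χ₂ ≠ χ₃)
    (hε : (ε₁ = 1 ∨ ε₁ = -1) ∧ (ε₂ = 1 ∨ ε₂ = -1) ∧ (ε₃ = 1 ∨ ε₃ = -1))
    (hval : (χ₁ : G → ℂ) J = ε₁ ∧ (χ₂ : G → ℂ) J = ε₂ ∧ (χ₃ : G → ℂ) J = ε₃)
    (g : G) :
    (Nat.card (Subgroup.centralizer ({J} : Set G)) : ℂ) *
        (1 + (ε₁ : ℂ) * χ₁.1 g + (ε₂ : ℂ) * χ₂.1 g + (ε₃ : ℂ) * χ₃.1 g) =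
      4 * ∑ w : G, if Cfsg.IsPPart 2 (w⁻¹ * g * w) J then (1 : ℂ) else 0 := by
  have : Fact (Nat.Prime 2) := ⟨Nat.prime_two⟩
  have : Fintype (Subgroup.centralizer ({J} : Set G)) := Fintype.ofFinite _
  obtain ⟨x, hx⟩ := Cfsg.Agent.Lib.helper5.exists_isPPart 2 g
  rw [psi_val M hM hg₀ hG hnc P J hJ hJ2 χ₁ χ₂ χ₃ ε₁ ε₂ ε₃ hB hdist hε hval g x hx]
  have hiff : ∀ w : G, Cfsg.IsPPart 2 (w⁻¹ * g * w) J ↔ w * J * w⁻¹ = x := by
    intro w
    have h1 := Cfsg.Agent.Lib.helper5.isPPart_conj hx w⁻¹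
    rw [inv_inv] at h1
    constructor
    · intro h
      have h2 := Cfsg.Agent.Lib.helper5.isPPart_unique h h1
      rw [h2]; group
    · intro h
      have h2 : w⁻¹ * x * w = J := by rw [← h]; group
      rw [h2] at h1
      exact h1
  simp only [hiff]
  rw [Cfsg.Agent.Lib.helper5.sum_conj_eq J x]
  split_ifs <;> ring

end Cfsg.Agent.Lib.helper2.K4
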