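import Mathlib
import Cfsg.Agent.Lib.helper2.K4b

set_option autoImplicit false

/-!
# Brauer's order formula for groups with a Klein four Sylow 2-subgroup: final assembly
-/

namespace Cfsg.Agent.Lib.helper2.K4

open Cfsg Cfsg.Agent.Lib.helper24

universe u

variable {G : Type u} [Group G]

open Classical in
/-- the number of pairs of conjugates of `J` whose product has 2-part `J` -/
theorem count_pairs [Fintype G] {g₀ : ℕ}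
    (hg₀ : Odd g₀) (hG : Nat.card G = 4 * g₀)
    (hnc : ¬ ∃ N : Subgroup G, N.Normal ∧ Nat.card N = g₀)
    (P : Sylow 2 G) (J : G) (hJ : J ∈ (P : Subgroup G)) (hJ2 : orderOf J = 2)
    (J' : G) (hJ' : J' ∈ (P : Subgroup G)) (hJ'1 : J' ≠ 1) (hJJ' : J ≠ J') :
    (∑ s : G, ∑ t : G,
        if Cfsg.IsPPart 2 (t * J * t⁻¹ * (s * J * s⁻¹)) J then (1 : ℂ) else 0) =
      2 * ((Nat.card (Subgroup.centralizer ({J} : Set G)) : ℂ) *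
          (Nat.card {u : G // u ∈ Cfsg.centralizerPPrimeCore 2 J ∧ J' * u * J'⁻¹ = u⁻¹} : ℂ)) *
        ((Nat.card (Subgroup.centralizer ({J} : Set G)) : ℂ) *
          (Nat.card {u : G // u ∈ Cfsg.centralizerPPrimeCore 2 J ∧
            (J * J') * u * (J * J')⁻¹ = u⁻¹} : ℂ)) := by
  have : Fact (Nat.Prime 2) := ⟨Nat.prime_two⟩
  have hK := klein_of_hyp hg₀ hG hnc P
  have hone := one_class hg₀ hG hnc P J hJ hJ2
  obtain ⟨hUC, hUn, hUodd, hUodd', hUP⟩ := cent_struct hg₀ hG hnc P J hJ hJ2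
  have hJJ1 : J * J = 1 := by rw [← sq, ← hJ2]; exact pow_orderOf_eq_one J
  have hJ1 : J ≠ 1 := by
    rintro rfl
    rw [orderOf_one] at hJ2
    omega
  have hJ'2 := Cfsg.Agent.Lib.helper1.klein_orderOf P hK J' hJ' hJ'1
  have hJ'J'1 : J' * J' = 1 := by rw [← sq, ← hJ'2]; exact pow_orderOf_eq_one J'
  have hcommJ : J * J' = J' * J := Cfsg.Agent.Lib.helper1.klein_comm P hK hJ hJ'
  have h4 : J * J' * (J * J') = 1 := by
    calc J * J' * (J * J') = J * (J' * J) * J' := by group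
      _ = J * (J * J') * J' := by rw [hcommJ]
      _ = (J * J) * (J' * J') := by group
      _ = 1 := by rw [hJJ1, hJ'J'1, mul_one]
  have hodd_ord : ∀ x ∈ Cfsg.centralizerPPrimeCore 2 J, ¬ 2 ∣ orderOf x := by
    intro x hx h2
    have h3 : 2 ∣ Nat.card (Cfsg.centralizerPPrimeCore 2 J) :=
      h2.trans (Subgroup.orderOf_dvd_natCard _ hx)
    exact hUodd.not_two_dvd_nat h3
  have hJ'U : J' ∉ Cfsg.centralizerPPrimeCore 2 J := by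
    intro h
    exact hodd_ord J' h (by rw [hJ'2])
  have hJJ'ne : J * J' ≠ 1 := by
    intro h
    apply hJJ'
    calc J = J * (J' * J') := by rw [hJ'J'1, mul_one]
      _ = (J * J') * J' := by group
      _ = J' := by rw [h, one_mul]
  have hJJ'U : J * J' ∉ Cfsg.centralizerPPrimeCore 2 J := by
    intro h
    have h2 : orderOf (J * J') = 2 := orderOf_eq_prime (by rw [sq]; exact h4) hJJ'ne
    exact hodd_ord _ h (by rw [h2])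
  have hsq : ∀ t : G, (t * J * t⁻¹) * (t * J * t⁻¹) = 1 := by
    intro t
    calc (t * J * t⁻¹) * (t * J * t⁻¹) = t * (J * J) * t⁻¹ := by group
      _ = 1 := by rw [hJJ1]; group
  have hne : ∀ t : G, t * J * t⁻¹ ≠ 1 := by
    intro t h
    apply hJ1
    have : J = t⁻¹ * (t * J * t⁻¹) * t := by group
    rw [this, h]; group
  have hpt : ∀ s t : G,
      (if Cfsg.IsPPart 2 (t * J * t⁻¹ * (s * J * s⁻¹)) J then (1 : ℂ) else 0) =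
        (if (s * J * s⁻¹) * (J * J')⁻¹ ∈ Cfsg.centralizerPPrimeCore 2 J then (1 : ℂ) else 0) *
          (if (t * J * t⁻¹) * J'⁻¹ ∈ Cfsg.centralizerPPrimeCore 2 J then (1 : ℂ) else 0) +
        (if (s * J * s⁻¹) * J'⁻¹ ∈ Cfsg.centralizerPPrimeCore 2 J then (1 : ℂ) else 0) *
          (if (t * J * t⁻¹) * (J * J')⁻¹ ∈ Cfsg.centralizerPPrimeCore 2 J then (1 : ℂ) else 0) := by
    intro s t
    obtain ⟨hiff, hex⟩ := pair_iff hg₀ hG hnc P J hJ hJ2 J' hJ' hJ'1 hJJ'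
      (t * J * t⁻¹) (s * J * s⁻¹) (hsq t) (hsq s) (hne t) (hne s)
    obtain ⟨-, hex'⟩ := pair_iff hg₀ hG hnc P J hJ hJ2 J' hJ' hJ'1 hJJ'
      (s * J * s⁻¹) (t * J * t⁻¹) (hsq s) (hsq t) (hne s) (hne t)
    by_cases p1 : (t * J * t⁻¹) * J'⁻¹ ∈ Cfsg.centralizerPPrimeCore 2 J <;>
    by_cases p2 : (t * J * t⁻¹) * (J * J')⁻¹ ∈ Cfsg.centralizerPPrimeCore 2 J <;>
    by_cases q1 : (s * J * s⁻¹) * J'⁻¹ ∈ Cfsg.centralizerPPrimeCore 2 J <;>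
    by_cases q2 : (s * J * s⁻¹) * (J * J')⁻¹ ∈ Cfsg.centralizerPPrimeCore 2 J <;>
    simp only [hiff, p1, p2, q1, q2, and_self, and_true, true_and, and_false, false_and,
      or_self, or_true, true_or, or_false, false_or, if_true, if_false, mul_one, mul_zero,
      add_zero, zero_add, not_true, not_false_iff] at hex hex' ⊢
  simp only [hpt]
  simp only [Finset.sum_add_distrib, ← Finset.sum_mul_sum]
  rw [count_coset J hJJ1 hone _ J' hJ'J'1 hJ'U, count_coset J hJJ1 hone _ (J * J') h4 hJJ'U]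
  ring

open Classical in
/-- the character-theoretic identity: `|G| (1 + ε₁/f₁ + ε₂/f₂ + ε₃/f₃) = 8 |C| i' i''` -/
theorem char_identity [Fintype G] (M : Ideal Cfsg.AlgInt) (hM : Cfsg.IsPModular 2 M) {g₀ : ℕ}
    (hg₀ : Odd g₀) (hG : Nat.card G = 4 * g₀)
    (hnc : ¬ ∃ N : Subgroup G, N.Normal ∧ Nat.card N = g₀)
    (P : Sylow 2 G) (J : G) (hJ : J ∈ (P : Subgroup G)) (hJ2 : orderOf J = 2)
    (χ₁ χ₂ χ₃ : Cfsg.IrrCharacter G) (ε₁ ε₂ ε₃ : ℤ)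
    (hB : Cfsg.principalBlock M G = {χ : Cfsg.IrrCharacter G |
      (χ : G → ℂ) = (fun _ => 1) ∨ χ = χ₁ ∨ χ = χ₂ ∨ χ = χ₃})
    (hdist : (χ₁ : G → ℂ) ≠ (fun _ => 1) ∧ (χ₂ : G → ℂ) ≠ (fun _ => 1) ∧
      (χ₃ : G → ℂ) ≠ (fun _ => 1) ∧ χ₁ ≠ χ₂ ∧ χ₁ ≠ χ₃ ∧ χ₂ ≠ χ₃)
    (hε : (ε₁ = 1 ∨ ε₁ = -1) ∧ (ε₂ = 1 ∨ ε₂ = -1) ∧ (ε₃ = 1 ∨ ε₃ = -1))
    (hval : (χ₁ : G → ℂ) J = ε₁ ∧ (χ₂ : G → ℂ) J = ε₂ ∧ (χ₃ : G → ℂ) J = ε₃)
    (J' : G) (hJ' : J' ∈ (P : Subgroup G)) (hJ'1 : J' ≠ 1) (hJJ' : J ≠ J') :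
    (Nat.card G : ℂ) * (1 + (ε₁ : ℂ) / χ₁.1 1 + (ε₂ : ℂ) / χ₂.1 1 + (ε₃ : ℂ) / χ₃.1 1) =
      8 * (Nat.card (Subgroup.centralizer ({J} : Set G)) : ℂ) *
        (Nat.card {u : G // u ∈ Cfsg.centralizerPPrimeCore 2 J ∧ J' * u * J'⁻¹ = u⁻¹} : ℂ) *
        (Nat.card {u : G // u ∈ Cfsg.centralizerPPrimeCore 2 J ∧
            (J * J') * u * (J * J')⁻¹ = u⁻¹} : ℂ) := by
  have hgpos : (Nat.card G : ℂ) ≠ 0 := by exact_mod_cast (Nat.card_pos (α := G)).ne'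
  have hcpos : (Nat.card (Subgroup.centralizer ({J} : Set G)) : ℂ) ≠ 0 := by
    exact_mod_cast (Nat.card_pos (α := Subgroup.centralizer ({J} : Set G))).ne'
  have he : ∀ ε : ℤ, (ε = 1 ∨ ε = -1) → (ε : ℂ) * (ε : ℂ) = 1 := by
    rintro ε (h | h) <;> subst h <;> push_cast <;> norm_num
  have he1 := he ε₁ hε.1
  have he2 := he ε₂ hε.2.1
  have he3 := he ε₃ hε.2.2
  have hf : ∀ χ : Cfsg.IrrCharacter G, χ.1 1 ≠ 0 := by
    intro χ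
    rw [← charDegree_cast χ]
    exact_mod_cast (charDegree_pos χ).ne'
  -- first evaluation of the double sum
  have hE1 : ∀ s : G, (∑ t : G, (1 + (ε₁ : ℂ) * χ₁.1 (t * J * t⁻¹ * (s * J * s⁻¹)) +
      (ε₂ : ℂ) * χ₂.1 (t * J * t⁻¹ * (s * J * s⁻¹)) +
      (ε₃ : ℂ) * χ₃.1 (t * J * t⁻¹ * (s * J * s⁻¹)))) =
      (Nat.card G : ℂ) * (1 + (ε₁ : ℂ) / χ₁.1 1 + (ε₂ : ℂ) / χ₂.1 1 + (ε₃ : ℂ) / χ₃.1 1) := by
    intro s
    rw [Finset.sum_add_distrib, Finset.sum_add_distrib, Finset.sum_add_distrib,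
      ← Finset.mul_sum, ← Finset.mul_sum, ← Finset.mul_sum,
      irr_sum_conj_mul χ₁ J (s * J * s⁻¹), irr_sum_conj_mul χ₂ J (s * J * s⁻¹),
      irr_sum_conj_mul χ₃ J (s * J * s⁻¹), isClassFunction_irr χ₁ J s,
      isClassFunction_irr χ₂ J s, isClassFunction_irr χ₃ J s, hval.1, hval.2.1, hval.2.2,
      Finset.sum_const, Finset.card_univ, nsmul_eq_mul, mul_one, ← Nat.card_eq_fintype_card]
    linear_combination ((Nat.card G : ℂ) * (ε₁ : ℂ) / χ₁.1 1) * he1 +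
      ((Nat.card G : ℂ) * (ε₂ : ℂ) / χ₂.1 1) * he2 +
      ((Nat.card G : ℂ) * (ε₃ : ℂ) / χ₃.1 1) * he3
  -- second evaluation
  have hE2 : ∀ s t : G, (Nat.card (Subgroup.centralizer ({J} : Set G)) : ℂ) *
      (1 + (ε₁ : ℂ) * χ₁.1 (t * J * t⁻¹ * (s * J * s⁻¹)) +
      (ε₂ : ℂ) * χ₂.1 (t * J * t⁻¹ * (s * J * s⁻¹)) +
      (ε₃ : ℂ) * χ₃.1 (t * J * t⁻¹ * (s * J * s⁻¹))) =
      4 * ∑ w : G, if Cfsg.IsPPart 2 ((w⁻¹ * t) * J * (w⁻¹ * t)⁻¹ *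
        ((w⁻¹ * s) * J * (w⁻¹ * s)⁻¹)) J then (1 : ℂ) else 0 := by
    intro s t
    rw [psi_section M hM hg₀ hG hnc P J hJ hJ2 χ₁ χ₂ χ₃ ε₁ ε₂ ε₃ hB hdist hε hval]
    congr 1
    apply Finset.sum_congr rfl
    intro w _
    have : w⁻¹ * (t * J * t⁻¹ * (s * J * s⁻¹)) * w =
        (w⁻¹ * t) * J * (w⁻¹ * t)⁻¹ * ((w⁻¹ * s) * J * (w⁻¹ * s)⁻¹) := by group
    rw [this]
  have hE3 : ∀ w : G, (∑ s : G, ∑ t : G, if Cfsg.IsPPart 2 ((w⁻¹ * t) * J * (w⁻¹ * t)⁻¹ *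
        ((w⁻¹ * s) * J * (w⁻¹ * s)⁻¹)) J then (1 : ℂ) else 0) =
      ∑ s : G, ∑ t : G,
        if Cfsg.IsPPart 2 (t * J * t⁻¹ * (s * J * s⁻¹)) J then (1 : ℂ) else 0 := by
    intro w
    rw [← Equiv.sum_comp (Equiv.mulLeft w⁻¹) (fun s : G => ∑ t : G,
        if Cfsg.IsPPart 2 (t * J * t⁻¹ * (s * J * s⁻¹)) J then (1 : ℂ) else 0)]
    apply Finset.sum_congr rfl
    intro s _
    rw [← Equiv.sum_comp (Equiv.mulLeft w⁻¹) (fun t : G =>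
        if Cfsg.IsPPart 2 (t * J * t⁻¹ * ((Equiv.mulLeft w⁻¹) s * J * ((Equiv.mulLeft w⁻¹) s)⁻¹)) J
          then (1 : ℂ) else 0)]
    rfl
  have hcount := count_pairs hg₀ hG hnc P J hJ hJ2 J' hJ' hJ'1 hJJ'
  have hmain : (Nat.card (Subgroup.centralizer ({J} : Set G)) : ℂ) *
      ((Nat.card G : ℂ) * ((Nat.card G : ℂ) *
        (1 + (ε₁ : ℂ) / χ₁.1 1 + (ε₂ : ℂ) / χ₂.1 1 + (ε₃ : ℂ) / χ₃.1 1))) =
      4 * ((Nat.card G : ℂ) * (∑ s : G, ∑ t : G,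
        if Cfsg.IsPPart 2 (t * J * t⁻¹ * (s * J * s⁻¹)) J then (1 : ℂ) else 0)) := by
    have h1 : (Nat.card (Subgroup.centralizer ({J} : Set G)) : ℂ) *
        (∑ s : G, ∑ t : G, (1 + (ε₁ : ℂ) * χ₁.1 (t * J * t⁻¹ * (s * J * s⁻¹)) +
          (ε₂ : ℂ) * χ₂.1 (t * J * t⁻¹ * (s * J * s⁻¹)) +
          (ε₃ : ℂ) * χ₃.1 (t * J * t⁻¹ * (s * J * s⁻¹)))) =
        4 * ∑ s : G, ∑ t : G, ∑ w : G, if Cfsg.IsPPart 2 ((w⁻¹ * t) * J * (w⁻¹ * t)⁻¹ *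
          ((w⁻¹ * s) * J * (w⁻¹ * s)⁻¹)) J then (1 : ℂ) else 0 := by
      rw [Finset.mul_sum, Finset.mul_sum]
      apply Finset.sum_congr rfl
      intro s _
      rw [Finset.mul_sum, Finset.mul_sum]
      apply Finset.sum_congr rfl
      intro t _
      exact hE2 s t
    have h2 : (∑ s : G, ∑ t : G, ∑ w : G, if Cfsg.IsPPart 2 ((w⁻¹ * t) * J * (w⁻¹ * t)⁻¹ *
          ((w⁻¹ * s) * J * (w⁻¹ * s)⁻¹)) J then (1 : ℂ) else 0) =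
        ∑ w : G, ∑ s : G, ∑ t : G, if Cfsg.IsPPart 2 ((w⁻¹ * t) * J * (w⁻¹ * t)⁻¹ *
          ((w⁻¹ * s) * J * (w⁻¹ * s)⁻¹)) J then (1 : ℂ) else 0 := by
      rw [Finset.sum_congr rfl (fun s _ => Finset.sum_comm)]
      exact Finset.sum_comm
    rw [Finset.sum_congr rfl (fun s _ => hE1 s), h2, Finset.sum_congr rfl (fun w _ => hE3 w),
      Finset.sum_const, Finset.sum_const, Finset.card_univ, nsmul_eq_mul, nsmul_eq_mul,
      ← Nat.card_eq_fintype_card] at h1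
    exact h1
  rw [hcount] at hmain
  have h3 : (Nat.card (Subgroup.centralizer ({J} : Set G)) : ℂ) * (Nat.card G : ℂ) ≠ 0 :=
    mul_ne_zero hcpos hgpos
  apply mul_left_cancel₀ h3
  linear_combination hmain

/-- the group-theoretic counts -/
theorem group_counts [Finite G] {g₀ : ℕ}
    (hg₀ : Odd g₀) (hG : Nat.card G = 4 * g₀)
    (hnc : ¬ ∃ N : Subgroup G, N.Normal ∧ Nat.card N = g₀)
    (P : Sylow 2 G) (J : G) (hJ : J ∈ (P : Subgroup G)) (hJ2 : orderOf J = 2)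
    (J' : G) (hJ' : J' ∈ (P : Subgroup G)) (hJ'1 : J' ≠ 1) (hJJ' : J ≠ J') :
    ∃ u₀ : ℕ, 0 < u₀ ∧
      Nat.card (Subgroup.centralizer ((P : Subgroup G) : Set G)) = u₀ * 4 ∧
      Nat.card (Subgroup.centralizer ({J} : Set G)) =
        (Nat.card {u : G // u ∈ Cfsg.centralizerPPrimeCore 2 J ∧ J' * u * J'⁻¹ = u⁻¹} * u₀) * 4 ∧
      Nat.card (Subgroup.centralizer ({J} : Set G)) =
        (Nat.card {u : G // u ∈ Cfsg.centralizerPPrimeCore 2 J ∧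
            (J * J') * u * (J * J')⁻¹ = u⁻¹} * u₀) * 4 := by
  have : Fact (Nat.Prime 2) := ⟨Nat.prime_two⟩
  have hK := klein_of_hyp hg₀ hG hnc P
  have h4 := card_sylow_four hg₀ hG P
  obtain ⟨hUC, hUn, hUodd, hUodd', hUP⟩ := cent_struct hg₀ hG hnc P J hJ hJ2
  obtain ⟨U, hU⟩ : ∃ U : Subgroup G, U = Cfsg.centralizerPPrimeCore 2 J := ⟨_, rfl⟩
  rw [← hU] at hUC hUn hUodd hUodd' hUP ⊢
  obtain ⟨C, hC⟩ : ∃ C : Subgroup G, C = Subgroup.centralizer ({J} : Set G) := ⟨_, rfl⟩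
  rw [← hC] at hUC hUn hUodd' hUP ⊢
  obtain ⟨CP, hCP⟩ : ∃ CP : Subgroup G,
    CP = Subgroup.centralizer ((P : Subgroup G) : Set G) := ⟨_, rfl⟩
  rw [← hCP]
  have hmemC : ∀ x : G, x ∈ C ↔ x * J = J * x := by
    intro x; rw [hC, Subgroup.mem_centralizer_singleton_iff]
  have hmemCP : ∀ x : G, x ∈ CP ↔ ∀ h ∈ (P : Subgroup G), h * x = x * h := by
    intro x; rw [hCP, Subgroup.mem_centralizer_iff]; rfl
  have hJJ1 : J * J = 1 := by rw [← sq, ← hJ2]; exact pow_orderOf_eq_one J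
  have hJ1 : J ≠ 1 := by
    rintro rfl
    rw [orderOf_one] at hJ2
    omega
  have hJ'2 := Cfsg.Agent.Lib.helper1.klein_orderOf P hK J' hJ' hJ'1
  have hJ'J'1 : J' * J' = 1 := by rw [← sq, ← hJ'2]; exact pow_orderOf_eq_one J'
  have hcommJ : J * J' = J' * J := Cfsg.Agent.Lib.helper1.klein_comm P hK hJ hJ'
  have hJC : J ∈ C := by rw [hmemC]
  have hJ'C : J' ∈ C := by rw [hmemC]; exact hcommJ.symm
  have hJJ'C : J * J' ∈ C := C.mul_mem hJC hJ'C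
  have h44 : J * J' * (J * J') = 1 := by
    calc J * J' * (J * J') = J * (J' * J) * J' := by group
      _ = J * (J * J') * J' := by rw [hcommJ]
      _ = (J * J) * (J' * J') := by group
      _ = 1 := by rw [hJJ1, hJ'J'1, mul_one]
  have hodd_ord : ∀ x ∈ U, ¬ 2 ∣ orderOf x := by
    intro x hx h2
    have h3 : 2 ∣ Nat.card U := h2.trans (Subgroup.orderOf_dvd_natCard U hx)
    exact hUodd.not_two_dvd_nat h3
  have hUP1 : ∀ x ∈ U, x ∈ (P : Subgroup G) → x = 1 := by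
    intro x hx hxP
    by_contra hx1
    have := Cfsg.Agent.Lib.helper1.klein_orderOf P hK x hxP hx1
    exact hodd_ord x hx (by rw [this])
  have hPC : (P : Subgroup G) ≤ C := by
    intro t ht
    rw [hmemC]
    exact Cfsg.Agent.Lib.helper1.klein_comm P hK ht hJ
  have hPCP : (P : Subgroup G) ≤ CP := by
    intro t ht
    rw [hmemCP]
    intro h hh
    exact Cfsg.Agent.Lib.helper1.klein_comm P hK hh ht
  have hCPC : CP ≤ C := by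
    intro x hx
    rw [hmemC]
    exact ((hmemCP x).mp hx J hJ).symm
  have hc1 : Nat.card C = Nat.card U * Nat.card (P : Subgroup G) :=
    card_prod U (P : Subgroup G) C (fun a ha b hb => C.mul_mem (hUC ha) (hPC hb)) hUP hUP1
  have hc2 : Nat.card CP = Nat.card (U ⊓ CP : Subgroup G) * Nat.card (P : Subgroup G) := by
    apply card_prod (U ⊓ CP) (P : Subgroup G) CP
    · intro a ha b hb
      exact CP.mul_mem (Subgroup.mem_inf.mp ha).2 (hPCP hb)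
    · intro d hd
      obtain ⟨t, ht, hdt⟩ := hUP d (hCPC hd)
      exact ⟨t, ht, Subgroup.mem_inf.mpr ⟨hdt, CP.mul_mem hd (CP.inv_mem (hPCP ht))⟩⟩
    · intro x hx hxP
      exact hUP1 x (Subgroup.mem_inf.mp hx).1 hxP
  have hinf : ∀ d : G, d ∈ (P : Subgroup G) → d ≠ 1 → d ≠ J →
      U ⊓ Subgroup.centralizer ({d} : Set G) = U ⊓ CP := by
    intro d hd hd1 hdJ
    ext x
    rw [Subgroup.mem_inf, Subgroup.mem_inf, Subgroup.mem_centralizer_singleton_iff, hmemCP]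
    constructor
    · rintro ⟨hxU, hxd⟩
      refine ⟨hxU, ?_⟩
      have hxJ : x * J = J * x := (hmemC x).mp (hUC hxU)
      intro h hh
      rcases Cfsg.Agent.Lib.helper1.klein_cases P hK hJ hd hh hJ1 hd1 (fun e => hdJ e.symm)
        with h1 | h1 | h1 | h1
      · rw [h1, one_mul, mul_one]
      · rw [h1]; exact hxJ.symm
      · rw [h1]; exact hxd.symm
      · rw [h1]
        calc J * d * x = J * (d * x) := by group
          _ = J * (x * d) := by rw [hxd]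
          _ = (J * x) * d := by group
          _ = (x * J) * d := by rw [hxJ]
          _ = x * (J * d) := by group
    · rintro ⟨hxU, hx⟩
      exact ⟨hxU, (hx d hd).symm⟩
  have hi1 := Cfsg.Agent.S1618.card_inverted U J' hJ'J'1 (fun k hk => hUn J' hJ'C k hk) hUodd
  rw [hinf J' hJ' hJ'1 (fun e => hJJ' e.symm)] at hi1
  have hJJ'ne : J * J' ≠ 1 := by
    intro h
    apply hJJ'
    calc J = J * (J' * J') := by rw [hJ'J'1, mul_one]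
      _ = (J * J') * J' := by group
      _ = J' := by rw [h, one_mul]
  have hJJ'neJ : J * J' ≠ J := by
    intro h
    apply hJ'1
    calc J' = (J * J) * J' := by rw [hJJ1, one_mul]
      _ = J * (J * J') := by group
      _ = 1 := by rw [h, hJJ1]
  have hi2 := Cfsg.Agent.S1618.card_inverted U (J * J') h44
    (fun k hk => hUn (J * J') hJJ'C k hk) hUodd
  rw [hinf (J * J') ((P : Subgroup G).mul_mem hJ hJ') hJJ'ne hJJ'neJ] at hi2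
  refine ⟨Nat.card (U ⊓ CP : Subgroup G), Nat.card_pos, ?_, ?_, ?_⟩
  · rw [hc2, h4]
  · rw [hc1, h4, hi1]
  · rw [hc1, h4, hi2]

/-- **Brauer's order formula** for a group of order `4 g₀`, `g₀` odd, without a normal
2-complement. -/
theorem order_formula [Finite G] (M : Ideal Cfsg.AlgInt) (hM : Cfsg.IsPModular 2 M) (g₀ : ℕ)
    (hg₀ : Odd g₀) (hG : Nat.card G = 4 * g₀)
    (hnc : ¬ ∃ N : Subgroup G, N.Normal ∧ Nat.card N = g₀)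
    (P : Sylow 2 G) (J : G) (hJ : J ∈ (P : Subgroup G)) (hJ2 : orderOf J = 2)
    (χ₁ χ₂ χ₃ : Cfsg.IrrCharacter G) (ε₁ ε₂ ε₃ : ℤ)
    (hB : Cfsg.principalBlock M G = {χ : Cfsg.IrrCharacter G |
      (χ : G → ℂ) = (fun _ => 1) ∨ χ = χ₁ ∨ χ = χ₂ ∨ χ = χ₃})
    (hdist : (χ₁ : G → ℂ) ≠ (fun _ => 1) ∧ (χ₂ : G → ℂ) ≠ (fun _ => 1) ∧
      (χ₃ : G → ℂ) ≠ (fun _ => 1) ∧ χ₁ ≠ χ₂ ∧ χ₁ ≠ χ₃ ∧ χ₂ ≠ χ₃)
    (hε : (ε₁ = 1 ∨ ε₁ = -1) ∧ (ε₂ = 1 ∨ ε₂ = -1) ∧ (ε₃ = 1 ∨ ε₃ = -1))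
    (hval : (χ₁ : G → ℂ) J = ε₁ ∧ (χ₂ : G → ℂ) J = ε₂ ∧ (χ₃ : G → ℂ) J = ε₃) :
    (Nat.card G : ℚ) = 8 * (((Cfsg.charDegree (χ₁ : G → ℂ) : ℚ) *
      Cfsg.charDegree (χ₂ : G → ℂ) * Cfsg.charDegree (χ₃ : G → ℂ)) /
      ((Cfsg.charDegree (χ₁ : G → ℂ) + ε₁) * (Cfsg.charDegree (χ₂ : G → ℂ) + ε₂) *
        (Cfsg.charDegree (χ₃ : G → ℂ) + ε₃))) *
      (Nat.card (Subgroup.centralizer ({J} : Set G)) : ℚ) ^ 3 /
      (Nat.card (Subgroup.centralizer ((P : Subgroup G) : Set G)) : ℚ) ^ 2 := by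
  classical
  have := Fintype.ofFinite G
  have : Fact (Nat.Prime 2) := ⟨Nat.prime_two⟩
  have h4 := card_sylow_four hg₀ hG P
  obtain ⟨J', hJ', hJ'1, hJJ'⟩ : ∃ J' ∈ (P : Subgroup G), J' ≠ 1 ∧ J ≠ J' := by
    by_contra hcon
    push Not at hcon
    have : Fintype ↥(P : Subgroup G) := Fintype.ofFinite _
    have hsub : (Finset.univ : Finset ↥(P : Subgroup G)) ⊆ {1, ⟨J, hJ⟩} := by
      intro x _
      by_cases hx : (x : G) = 1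
      · have : x = 1 := Subtype.ext hx
        rw [this]; exact Finset.mem_insert_self _ _
      · have h1 := hcon x.1 x.2 hx
        have : x = ⟨J, hJ⟩ := Subtype.ext h1.symm
        rw [this]; exact Finset.mem_insert_of_mem (Finset.mem_singleton_self _)
    have h1 := Finset.card_le_card hsub
    rw [Finset.card_univ, ← Nat.card_eq_fintype_card, h4] at h1
    have h2 : ({1, ⟨J, hJ⟩} : Finset ↥(P : Subgroup G)).card ≤ 2 := Finset.card_le_two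
    omega
  have hid := char_identity M hM hg₀ hG hnc P J hJ hJ2 χ₁ χ₂ χ₃ ε₁ ε₂ ε₃ hB hdist hε hval
    J' hJ' hJ'1 hJJ'
  obtain ⟨u₀, hu₀, hcp, hc', hc''⟩ := group_counts hg₀ hG hnc P J hJ hJ2 J' hJ' hJ'1 hJJ'
  obtain ⟨i', hi'⟩ : ∃ n : ℕ, n = Nat.card {u : G // u ∈ Cfsg.centralizerPPrimeCore 2 J ∧
    J' * u * J'⁻¹ = u⁻¹} := ⟨_, rfl⟩
  obtain ⟨i'', hi''⟩ : ∃ n : ℕ, n = Nat.card {u : G // u ∈ Cfsg.centralizerPPrimeCore 2 J ∧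
    (J * J') * u * (J * J')⁻¹ = u⁻¹} := ⟨_, rfl⟩
  obtain ⟨c, hc⟩ : ∃ n : ℕ, n = Nat.card (Subgroup.centralizer ({J} : Set G)) := ⟨_, rfl⟩
  obtain ⟨cp, hcpdef⟩ : ∃ n : ℕ,
    n = Nat.card (Subgroup.centralizer ((P : Subgroup G) : Set G)) := ⟨_, rfl⟩
  obtain ⟨g, hg⟩ : ∃ n : ℕ, n = Nat.card G := ⟨_, rfl⟩
  rw [← hi', ← hi'', ← hc, ← hg] at hid
  rw [← hi', ← hc] at hc'
  rw [← hi'', ← hc] at hc''
  rw [← hcpdef] at hcp
  rw [← hc, ← hcpdef, ← hg]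
  have hgpos : 0 < g := by rw [hg]; exact Nat.card_pos
  have hcpos : 0 < c := by rw [hc]; exact Nat.card_pos
  -- the degree relation
  have hdeg : 1 + (ε₁ : ℂ) * χ₁.1 1 + (ε₂ : ℂ) * χ₂.1 1 + (ε₃ : ℂ) * χ₃.1 1 = 0 := by
    have hx : Cfsg.IsPPart 2 (1 : G) 1 :=
      ⟨1, mul_one 1, Commute.one_right 1, ⟨0, by simp⟩, by simp⟩
    have h := psi_val M hM hg₀ hG hnc P J hJ hJ2 χ₁ χ₂ χ₃ ε₁ ε₂ ε₃ hB hdist hε hval 1 1 hx
    have hJ1 : J ≠ 1 := by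
      rintro rfl
      rw [orderOf_one] at hJ2
      omega
    rw [if_neg (fun hcj => hJ1 (isConj_one_left.mp hcj))] at h
    exact h
  have he : ∀ ε : ℤ, (ε = 1 ∨ ε = -1) → (ε : ℂ) * (ε : ℂ) = 1 := by
    rintro ε (h | h) <;> subst h <;> push_cast <;> norm_num
  have he1 := he ε₁ hε.1
  have he2 := he ε₂ hε.2.1
  have he3 := he ε₃ hε.2.2
  obtain ⟨d₁, hd₁⟩ : ∃ n : ℕ, n = Cfsg.charDegree (χ₁ : G → ℂ) := ⟨_, rfl⟩
  obtain ⟨d₂, hd₂⟩ : ∃ n : ℕ, n = Cfsg.charDegree (χ₂ : G → ℂ) := ⟨_, rfl⟩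
  obtain ⟨d₃, hd₃⟩ : ∃ n : ℕ, n = Cfsg.charDegree (χ₃ : G → ℂ) := ⟨_, rfl⟩
  rw [← hd₁, ← hd₂, ← hd₃]
  have hf₁ : χ₁.1 1 = (d₁ : ℂ) := by rw [hd₁]; exact (charDegree_cast χ₁).symm
  have hf₂ : χ₂.1 1 = (d₂ : ℂ) := by rw [hd₂]; exact (charDegree_cast χ₂).symm
  have hf₃ : χ₃.1 1 = (d₃ : ℂ) := by rw [hd₃]; exact (charDegree_cast χ₃).symm
  have hd₁pos : 0 < d₁ := by rw [hd₁]; exact charDegree_pos χ₁
  have hd₂pos : 0 < d₂ := by rw [hd₂]; exact charDegree_pos χ₂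
  have hd₃pos : 0 < d₃ := by rw [hd₃]; exact charDegree_pos χ₃
  rw [hf₁, hf₂, hf₃] at hid hdeg
  have hd₁ne : (d₁ : ℂ) ≠ 0 := by exact_mod_cast hd₁pos.ne'
  have hd₂ne : (d₂ : ℂ) ≠ 0 := by exact_mod_cast hd₂pos.ne'
  have hd₃ne : (d₃ : ℂ) ≠ 0 := by exact_mod_cast hd₃pos.ne'
  have hid' : (g : ℂ) * ((d₁ : ℂ) * d₂ * d₃ + ε₁ * d₂ * d₃ + ε₂ * d₁ * d₃ + ε₃ * d₁ * d₂) =
      8 * (c : ℂ) * i' * i'' * ((d₁ : ℂ) * d₂ * d₃) := by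
    have hX : (1 + (ε₁ : ℂ) / d₁ + (ε₂ : ℂ) / d₂ + (ε₃ : ℂ) / d₃) * ((d₁ : ℂ) * d₂ * d₃) =
        (d₁ : ℂ) * d₂ * d₃ + ε₁ * d₂ * d₃ + ε₂ * d₁ * d₃ + ε₃ * d₁ * d₂ := by
      field_simp
    rw [← hX]
    linear_combination ((d₁ : ℂ) * d₂ * d₃) * hid
  have hC1 : (g : ℂ) * (((d₁ : ℂ) + ε₁) * ((d₂ : ℂ) + ε₂) * ((d₃ : ℂ) + ε₃)) =
      8 * (c : ℂ) * i' * i'' * ((d₁ : ℂ) * d₂ * d₃) := by
    linear_combination hid' + (g : ℂ) * ε₁ * ε₂ * ε₃ * hdeg - (g : ℂ) * ε₂ * ε₃ * d₁ * he1 -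
      (g : ℂ) * ε₁ * ε₃ * d₂ * he2 - (g : ℂ) * ε₁ * ε₂ * d₃ * he3
  have hZ : (g : ℤ) * (((d₁ : ℤ) + ε₁) * ((d₂ : ℤ) + ε₂) * ((d₃ : ℤ) + ε₃)) =
      8 * (c : ℤ) * i' * i'' * ((d₁ : ℤ) * d₂ * d₃) := by
    exact_mod_cast hC1
  have hQ : (g : ℚ) * (((d₁ : ℚ) + ε₁) * ((d₂ : ℚ) + ε₂) * ((d₃ : ℚ) + ε₃)) =
      8 * (c : ℚ) * i' * i'' * ((d₁ : ℚ) * d₂ * d₃) := by
    exact_mod_cast hZ
  have hi'c : (i' : ℚ) * cp = c := by
    rw [hc', hcp]; push_cast; ring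
  have hi''c : (i'' : ℚ) * cp = c := by
    rw [hc'', hcp]; push_cast; ring
  have hcpne : (cp : ℚ) ≠ 0 := by
    rw [hcp]
    have : (0 : ℚ) < ((u₀ * 4 : ℕ) : ℚ) := by exact_mod_cast Nat.mul_pos hu₀ (by norm_num)
    exact this.ne'
  have hcne : (c : ℚ) ≠ 0 := by exact_mod_cast hcpos.ne'
  have hi'ne : (i' : ℚ) ≠ 0 := by
    intro h
    rw [h, zero_mul] at hi'c
    exact hcne hi'c.symm
  have hi''ne : (i'' : ℚ) ≠ 0 := by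
    intro h
    rw [h, zero_mul] at hi''c
    exact hcne hi''c.symm
  have hDne : ((d₁ : ℚ) * d₂ * d₃) ≠ 0 := by
    have : (0 : ℚ) < (d₁ : ℚ) * d₂ * d₃ := by
      have h1 : (0 : ℚ) < d₁ := by exact_mod_cast hd₁pos
      have h2 : (0 : ℚ) < d₂ := by exact_mod_cast hd₂pos
      have h3 : (0 : ℚ) < d₃ := by exact_mod_cast hd₃pos
      positivity
    exact this.ne'
  have hprod : (((d₁ : ℚ) + ε₁) * ((d₂ : ℚ) + ε₂) * ((d₃ : ℚ) + ε₃)) ≠ 0 := by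
    intro h
    rw [h, mul_zero] at hQ
    have : 8 * (c : ℚ) * i' * i'' * ((d₁ : ℚ) * d₂ * d₃) ≠ 0 :=
      mul_ne_zero (mul_ne_zero (mul_ne_zero (mul_ne_zero (by norm_num) hcne) hi'ne) hi''ne) hDne
    exact this hQ.symm
  have h1 : (g : ℚ) * (((d₁ : ℚ) + ε₁) * ((d₂ : ℚ) + ε₂) * ((d₃ : ℚ) + ε₃)) * (cp : ℚ) ^ 2 =
      8 * ((d₁ : ℚ) * d₂ * d₃) * (c : ℚ) ^ 3 := by
    linear_combination (cp : ℚ) ^ 2 * hQ +
      8 * (c : ℚ) * ((d₁ : ℚ) * d₂ * d₃) * i'' * cp * hi'c +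
      8 * (c : ℚ) * ((d₁ : ℚ) * d₂ * d₃) * c * hi''c
  have hcp2 : (cp : ℚ) ^ 2 ≠ 0 := pow_ne_zero 2 hcpne
  have hfin : (g : ℚ) = 8 * ((d₁ : ℚ) * d₂ * d₃) * (c : ℚ) ^ 3 /
      ((((d₁ : ℚ) + ε₁) * ((d₂ : ℚ) + ε₂) * ((d₃ : ℚ) + ε₃)) * (cp : ℚ) ^ 2) := by
    rw [eq_div_iff (mul_ne_zero hprod hcp2)]
    linear_combination h1
  rw [hfin]
  have hp1 : ((d₁ : ℚ) + ε₁) ≠ 0 := fun h => hprod (by rw [h]; ring)
  have hp2 : ((d₂ : ℚ) + ε₂) ≠ 0 := fun h => hprod (by rw [h]; ring)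
  have hp3 : ((d₃ : ℚ) + ε₃) ≠ 0 := fun h => hprod (by rw [h]; ring)
  field_simp

end Cfsg.Agent.Lib.helper2.K4
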