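import Mathlib
import Cfsg.Agent.Lib.helper2.K4c
import Cfsg.Agent.Lib.helper23.FSCount
import Cfsg.Agent.Lib.helper23.RealPerm
import Cfsg.Agent.Lib.helper23.Ito
import Cfsg.Agent.Lib.helper23.CharInt
import Cfsg.Agent.Lib.helper24.CharFS2

set_option autoImplicit false

/-!
# Brauer's second order formula for groups with a Klein four Sylow 2-subgroup
-/

namespace Cfsg.Agent.Lib.helper2.K4

open Cfsg Cfsg.Agent.Lib.helper24 Cfsg.Agent.Lib.helper23 Cfsg.Agent.Lib.helper5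
open scoped ComplexConjugate

universe u

variable {G : Type u} [Group G]

/-- parity of a character value at an involution -/
theorem irr_invol_parity [Fintype G] (χ : IrrCharacter G) (J : G) (hJ2 : orderOf J = 2) :
    ∃ m : ℕ, χ.1 1 + χ.1 J = 2 * (m : ℂ) := by
  classical
  obtain ⟨H, hH⟩ : ∃ H : Subgroup G, H = Subgroup.zpowers J := ⟨_, rfl⟩
  have hJH : J ∈ H := by rw [hH]; exact Subgroup.mem_zpowers J
  have hJ1 : J ≠ 1 := by rintro rfl; rw [orderOf_one] at hJ2; omega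
  have hcard : Nat.card H = 2 := by rw [hH, Nat.card_zpowers, hJ2]
  obtain ⟨m, hm⟩ := exists_nat_sum_subgroup H χ
  refine ⟨m, ?_⟩
  have hne : (⟨1, H.one_mem⟩ : H) ≠ ⟨J, hJH⟩ := by
    intro h; exact hJ1 (congrArg Subtype.val h).symm
  have huniv : (Finset.univ : Finset H) = {⟨1, H.one_mem⟩, ⟨J, hJH⟩} := by
    symm
    apply Finset.eq_univ_of_card
    rw [Finset.card_pair hne, ← Nat.card_eq_fintype_card, hcard]
  rw [huniv, Finset.sum_pair hne, hcard] at hm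
  push_cast at hm
  linear_combination 2 * hm

/-- the principal block is closed under complex conjugation -/
theorem irrConj_mem_principalBlock [Fintype G] (M : Ideal Cfsg.AlgInt) (χ : IrrCharacter G)
    (h : χ ∈ Cfsg.principalBlock M G) : irrConj χ ∈ Cfsg.principalBlock M G := by
  change Cfsg.SameBlock M (fun _ => 1) (irrConj χ).1
  have h' : Cfsg.SameBlock M (fun _ => 1) χ.1 := h
  intro g
  have h1 := h' g⁻¹
  have hc : Subgroup.centralizer ({g⁻¹} : Set G) = Subgroup.centralizer ({g} : Set G) := by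
    ext x
    rw [Subgroup.mem_centralizer_singleton_iff, Subgroup.mem_centralizer_singleton_iff]
    constructor
    · intro hx
      calc x * g = g * (x * g⁻¹) * g := by rw [hx]; group
        _ = g * x := by group
    · intro hx
      calc x * g⁻¹ = g⁻¹ * (x * g) * g⁻¹ := by rw [hx]; group
        _ = g⁻¹ * x := by group
  unfold Cfsg.centralChar at h1 ⊢
  rw [hc] at h1
  rw [irrConj_apply, irrConj_apply, ← irr_inv, ← irr_inv, inv_one]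
  exact h1

/-- elements whose 2-part is an involution are not squares -/
theorem no_sqrt [Finite G] {g₀ : ℕ} (hg₀ : Odd g₀) (hG : Nat.card G = 4 * g₀)
    (hnc : ¬ ∃ N : Subgroup G, N.Normal ∧ Nat.card N = g₀) (u z : G) (hz : orderOf z = 2)
    (hu : Cfsg.IsPPart 2 u z) (w : G) : w * w ≠ u := by
  intro hw
  have : Fact (Nat.Prime 2) := ⟨Nat.prime_two⟩
  obtain ⟨v, hzv, hcomm, -, hv⟩ := hu
  obtain ⟨m, hm⟩ : ∃ m, orderOf v = m := ⟨_, rfl⟩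
  have hmodd : Odd m := by
    rw [← hm, ← Nat.not_even_iff_odd, even_iff_two_dvd]; exact hv
  obtain ⟨k, hk⟩ := hmodd
  have hzz : z * z = 1 := by rw [← sq, ← hz]; exact pow_orderOf_eq_one z
  have hz1 : z ≠ 1 := by rintro rfl; rw [orderOf_one] at hz; omega
  have hy2 : (w ^ m) * (w ^ m) = z := by
    calc w ^ m * w ^ m = (w * w) ^ m := by rw [← pow_add, ← two_mul, pow_mul, sq]
      _ = (z * v) ^ m := by rw [hw, hzv]
      _ = z ^ m * v ^ m := hcomm.mul_pow m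
      _ = z := by
        rw [← hm, pow_orderOf_eq_one, mul_one, hm, hk, pow_succ, pow_mul, sq, hzz, one_pow,
          one_mul]
  obtain ⟨y, hy⟩ : ∃ y, y = w ^ m := ⟨_, rfl⟩
  rw [← hy] at hy2
  have hy4 : y ^ (2 ^ 2) = 1 := by
    have e4 : (2 : ℕ) ^ 2 = 2 + 2 := by norm_num
    rw [e4, pow_add, sq, hy2, hzz]
  obtain ⟨j, -, hj⟩ := (Nat.dvd_prime_pow Nat.prime_two).mp (orderOf_dvd_of_pow_eq_one hy4)
  have hpg : IsPGroup 2 (Subgroup.zpowers y) :=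
    IsPGroup.of_card (n := j) (by rw [Nat.card_zpowers, hj])
  obtain ⟨Q, hQ⟩ := hpg.exists_le_sylow
  have hK := klein_of_hyp hg₀ hG hnc Q
  have hyQ : y ∈ (Q : Subgroup G) := hQ (Subgroup.mem_zpowers y)
  have h2 : (⟨y, hyQ⟩ : (Q : Subgroup G)) ^ 2 = 1 := by
    have h0 := Monoid.pow_exponent_eq_one (⟨y, hyQ⟩ : (Q : Subgroup G))
    rw [hK.exponent_two] at h0
    exact h0
  have h3 : y * y = 1 := by
    have := congrArg Subtype.val h2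
    simpa [sq] using this
  rw [hy2] at h3
  exact hz1 h3

open Classical in
/-- the Frobenius–Schur indicators of the principal block satisfy a linear relation -/
theorem fs_relation [Fintype G] (M : Ideal Cfsg.AlgInt) (hM : Cfsg.IsPModular 2 M) {g₀ : ℕ}
    (hg₀ : Odd g₀) (hG : Nat.card G = 4 * g₀)
    (hnc : ¬ ∃ N : Subgroup G, N.Normal ∧ Nat.card N = g₀)
    (J : G) (hJ2 : orderOf J = 2)
    (χ₁ χ₂ χ₃ : Cfsg.IrrCharacter G)
    (hB : Cfsg.principalBlock M G = {χ : Cfsg.IrrCharacter G |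
      (χ : G → ℂ) = (fun _ => 1) ∨ χ = χ₁ ∨ χ = χ₂ ∨ χ = χ₃})
    (hdist : (χ₁ : G → ℂ) ≠ (fun _ => 1) ∧ (χ₂ : G → ℂ) ≠ (fun _ => 1) ∧
      (χ₃ : G → ℂ) ≠ (fun _ => 1) ∧ χ₁ ≠ χ₂ ∧ χ₁ ≠ χ₃ ∧ χ₂ ≠ χ₃) :
    1 + ((Nat.card G : ℂ)⁻¹ * ∑ s : G, χ₁.1 (s * s)) * χ₁.1 J +
      ((Nat.card G : ℂ)⁻¹ * ∑ s : G, χ₂.1 (s * s)) * χ₂.1 J +
      ((Nat.card G : ℂ)⁻¹ * ∑ s : G, χ₃.1 (s * s)) * χ₃.1 J = 0 := by
  have : Fact (Nat.Prime 2) := ⟨Nat.prime_two⟩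
  have := Fintype.ofFinite (Cfsg.IrrCharacter G)
  have hJJ : Cfsg.IsPPart 2 J J :=
    ⟨1, mul_one _, Commute.one_right _, ⟨1, by rw [hJ2]; norm_num⟩,
      by rw [orderOf_one]; norm_num⟩
  have hvan : ∀ u z : G, Cfsg.IsPPart 2 u z → IsConj J z → sqCount u = 0 := by
    intro u z huz hc
    have hz2 : orderOf z = 2 := by
      obtain ⟨c, hc⟩ := isConj_iff.mp hc
      rw [← hc, ← hJ2]
      have := orderOf_injective (MulAut.conj c).toMonoidHom (MulAut.conj c).injective J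
      simpa using this
    unfold sqCount
    rw [Nat.cast_eq_zero, Finset.card_eq_zero, Finset.filter_eq_empty_iff]
    intro w _
    exact no_sqrt hg₀ hG hnc u z hz2 huz w
  have h := (Cfsg.Agent.S0925.result 2 M hM).1 sqCount sqCount_isClassFunction J
    ⟨1, by rw [hJ2]; norm_num⟩ hvan (Cfsg.principalBlock M G) ⟨trivIrr G, rfl⟩ J J hJJ
    (IsConj.refl J)
  rw [blockPart_apply, sum_block M χ₁ χ₂ χ₃ hB hdist] at h
  rw [classInner_sqCount, classInner_sqCount, classInner_sqCount, classInner_sqCount,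
    trivIrr_fs, trivIrr_apply] at h
  linear_combination h

/-- Brauer's order formula in the case `ε₁ ε₂ ε₃ = -1`, `ε₃ = -1` -/
theorem order_formula2 [Finite G] (M : Ideal Cfsg.AlgInt) (hM : Cfsg.IsPModular 2 M) (g₀ : ℕ)
    (hg₀ : Odd g₀) (hG : Nat.card G = 4 * g₀)
    (hnc : ¬ ∃ N : Subgroup G, N.Normal ∧ Nat.card N = g₀)
    (P : Sylow 2 G) (J : G) (hJ : J ∈ (P : Subgroup G)) (hJ2 : orderOf J = 2)
    (χ₁ χ₂ χ₃ : Cfsg.IrrCharacter G) (ε₁ ε₂ ε₃ : ℤ)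
    (hB : Cfsg.principalBlock M G = {χ : Cfsg.IrrCharacter G |
      (χ : G → ℂ) = (fun _ => 1) ∨ χ = χ₁ ∨ χ = χ₂ ∨ χ = χ₃})
    (hdist : (χ₁ : G → ℂ) ≠ (fun _ => 1) ∧ (χ₂ : G → ℂ) ≠ (fun _ => 1) ∧
      (χ₃ : G → ℂ) ≠ (fun _ => 1) ∧ χ₁ ≠ χ₂ ∧ χ₁ ≠ χ₃ ∧ χ₂ ≠ χ₃)
    (hε : (ε₁ = 1 ∨ ε₁ = -1) ∧ (ε₂ = 1 ∨ ε₂ = -1) ∧ (ε₃ = 1 ∨ ε₃ = -1))
    (hval : (χ₁ : G → ℂ) J = ε₁ ∧ (χ₂ : G → ℂ) J = ε₂ ∧ (χ₃ : G → ℂ) J = ε₃)
    (hprod : ε₁ * ε₂ * ε₃ = -1) (hε₃ : ε₃ = -1) :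
    ∃ m : ℕ, 4 * Nat.card (Subgroup.centralizer ({J} : Set G)) =
        m * Nat.card (Subgroup.centralizer ((P : Subgroup G) : Set G)) *
          (Cfsg.charDegree (χ₃ : G → ℂ) + 1) ∧
      8 * Nat.card G = m ^ 3 * Nat.card (Subgroup.centralizer ((P : Subgroup G) : Set G)) *
        (Cfsg.charDegree (χ₃ : G → ℂ) ^ 3 - Cfsg.charDegree (χ₃ : G → ℂ)) := by
  classical
  have := Fintype.ofFinite G
  have : Fact (Nat.Prime 2) := ⟨Nat.prime_two⟩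
  have hform := order_formula M hM g₀ hg₀ hG hnc P J hJ hJ2 χ₁ χ₂ χ₃ ε₁ ε₂ ε₃ hB hdist hε hval
  have hrel := fs_relation M hM hg₀ hG hnc J hJ2 χ₁ χ₂ χ₃ hB hdist
  have hdeg : 1 + (ε₁ : ℂ) * χ₁.1 1 + (ε₂ : ℂ) * χ₂.1 1 + (ε₃ : ℂ) * χ₃.1 1 = 0 := by
    have hx : Cfsg.IsPPart 2 (1 : G) 1 :=
      ⟨1, mul_one 1, Commute.one_right 1, ⟨0, by simp⟩, by simp⟩
    have h := psi_val M hM hg₀ hG hnc P J hJ hJ2 χ₁ χ₂ χ₃ ε₁ ε₂ ε₃ hB hdist hε hval 1 1 hx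
    have hJ1 : J ≠ 1 := by
      rintro rfl
      rw [orderOf_one] at hJ2
      omega
    rw [if_neg (fun hcj => hJ1 (isConj_one_left.mp hcj))] at h
    exact h
  obtain ⟨d₁, hd₁⟩ : ∃ n : ℕ, n = Cfsg.charDegree (χ₁ : G → ℂ) := ⟨_, rfl⟩
  obtain ⟨d₂, hd₂⟩ : ∃ n : ℕ, n = Cfsg.charDegree (χ₂ : G → ℂ) := ⟨_, rfl⟩
  obtain ⟨d₃, hd₃⟩ : ∃ n : ℕ, n = Cfsg.charDegree (χ₃ : G → ℂ) := ⟨_, rfl⟩
  rw [← hd₁, ← hd₂, ← hd₃] at hform
  rw [← hd₃]
  have hf₁ : χ₁.1 1 = (d₁ : ℂ) := by rw [hd₁]; exact (charDegree_cast χ₁).symm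
  have hf₂ : χ₂.1 1 = (d₂ : ℂ) := by rw [hd₂]; exact (charDegree_cast χ₂).symm
  have hf₃ : χ₃.1 1 = (d₃ : ℂ) := by rw [hd₃]; exact (charDegree_cast χ₃).symm
  have hd₁pos : 0 < d₁ := by rw [hd₁]; exact charDegree_pos χ₁
  have hd₂pos : 0 < d₂ := by rw [hd₂]; exact charDegree_pos χ₂
  have hd₃pos : 0 < d₃ := by rw [hd₃]; exact charDegree_pos χ₃
  rw [hf₁, hf₂, hf₃] at hdeg
  subst hε₃
  have he12 : ε₁ = 1 ∧ ε₂ = 1 := by
    have hdegZ : 1 + ε₁ * (d₁ : ℤ) + ε₂ * (d₂ : ℤ) + (-1) * (d₃ : ℤ) = 0 := by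
      exact_mod_cast hdeg
    rcases hε.1 with h1 | h1 <;> rcases hε.2.1 with h2 | h2
    · exact ⟨h1, h2⟩
    · exfalso; rw [h1, h2] at hprod; norm_num at hprod
    · exfalso; rw [h1, h2] at hprod; norm_num at hprod
    · exfalso; rw [h1, h2] at hdegZ; omega
  obtain ⟨h1, h2⟩ := he12
  subst h1
  subst h2
  have hd3 : d₃ = 1 + d₁ + d₂ := by
    have hdegZ : 1 + (1 : ℤ) * (d₁ : ℤ) + 1 * (d₂ : ℤ) + (-1) * (d₃ : ℤ) = 0 := by
      exact_mod_cast hdeg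
    omega
  have hv1 : χ₁.1 J = 1 := by rw [hval.1]; norm_num
  have hv2 : χ₂.1 J = 1 := by rw [hval.2.1]; norm_num
  have hv3 : χ₃.1 J = -1 := by rw [hval.2.2]; norm_num
  obtain ⟨m₁, hm₁⟩ := irr_invol_parity χ₁ J hJ2
  obtain ⟨m₂, hm₂⟩ := irr_invol_parity χ₂ J hJ2
  rw [hf₁, hv1] at hm₁
  rw [hf₂, hv2] at hm₂
  have ho1 : Odd d₁ := by
    have : d₁ + 1 = 2 * m₁ := by exact_mod_cast hm₁
    exact ⟨m₁ - 1, by omega⟩
  have ho2 : Odd d₂ := by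
    have : d₂ + 1 = 2 * m₂ := by exact_mod_cast hm₂
    exact ⟨m₂ - 1, by omega⟩
  have ho3 : Odd d₃ := by
    obtain ⟨a, ha⟩ := ho1
    obtain ⟨b, hb⟩ := ho2
    exact ⟨a + b + 1, by omega⟩
  have hnu : ∀ χ : IrrCharacter G, ∀ d : ℕ, χ.1 1 = (d : ℂ) → Odd d →
      ((Nat.card G : ℂ)⁻¹ * ∑ s : G, χ.1 (s * s) = 0 ∧ irrConj χ ≠ χ) ∨
      (Nat.card G : ℂ)⁻¹ * ∑ s : G, χ.1 (s * s) = 1 := by
    intro χ d hd hodd
    rcases frobenius_schur χ with h | ⟨-, h⟩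
    · exact Or.inl h
    · exact Or.inr (fs_indicator_one_of_real_odd χ.1 χ.2 ((irrConj_eq_iff χ).mp h) d hd hodd)
  rw [hv1, hv2, hv3] at hrel
  have hnc1 : irrConj χ₁ ≠ χ₁ := by
    rcases hnu χ₁ d₁ hf₁ ho1 with ⟨a1, hc1⟩ | a1
    · exact hc1
    · exfalso
      rcases hnu χ₂ d₂ hf₂ ho2 with ⟨a2, -⟩ | a2 <;>
        rcases hnu χ₃ d₃ hf₃ ho3 with ⟨a3, -⟩ | a3 <;>
        rw [a1, a2, a3] at hrel <;> norm_num at hrel
  have hmem : irrConj χ₁ ∈ Cfsg.principalBlock M G :=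
    irrConj_mem_principalBlock M χ₁ (by rw [hB]; right; left; rfl)
  rw [hB] at hmem
  have hc12 : irrConj χ₁ = χ₂ := by
    rcases hmem with h | h | h | h
    · exfalso
      apply hdist.1
      funext g
      have h1 := congrFun h g
      rw [irrConj_apply] at h1
      have h2 := congrArg (starRingEnd ℂ) h1
      rw [Complex.conj_conj, map_one] at h2
      exact h2
    · exact absurd h hnc1
    · exact h
    · exfalso
      have h1 := congrArg (fun χ : IrrCharacter G => χ.1 J) h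
      simp only [irrConj_apply] at h1
      rw [hv1, hv3, map_one] at h1
      norm_num at h1
  have hd12 : d₂ = d₁ := by
    have h1 := congrArg (fun χ : IrrCharacter G => χ.1 1) hc12
    simp only [irrConj_apply] at h1
    rw [hf₁, hf₂, Complex.conj_natCast] at h1
    exact_mod_cast h1.symm
  subst hd12
  obtain ⟨c, hc⟩ : ∃ c : ℕ, c = Nat.card (Subgroup.centralizer ({J} : Set G)) := ⟨_, rfl⟩
  obtain ⟨cp, hcp⟩ : ∃ n : ℕ,
    n = Nat.card (Subgroup.centralizer ((P : Subgroup G) : Set G)) := ⟨_, rfl⟩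
  obtain ⟨g, hg⟩ : ∃ n : ℕ, n = Nat.card G := ⟨_, rfl⟩
  obtain ⟨t, ht⟩ : ∃ n : ℕ, n = (Subgroup.centralizer ({J} : Set G)).index := ⟨_, rfl⟩
  rw [← hc, ← hcp, ← hg] at hform ⊢
  have hct : c * t = g := by rw [hc, ht, hg]; exact Subgroup.card_mul_index _
  have hcpos : 0 < c := by rw [hc]; exact Nat.card_pos
  have hcppos : 0 < cp := by rw [hcp]; exact Nat.card_pos
  have hdiv1 : d₂ ∣ t := by
    apply dvd_of_isIntegral_div t d₂ hd₂pos.ne'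
    have h := centralChar_isIntegral χ₁.2 J
    unfold Cfsg.centralChar at h
    rw [← ht, hv1, hf₁, mul_one] at h
    exact h
  have hdiv3 : d₃ ∣ t := by
    apply dvd_of_isIntegral_div t d₃ hd₃pos.ne'
    have h := centralChar_isIntegral χ₃.2 J
    unfold Cfsg.centralChar at h
    rw [← ht, hv3, hf₃] at h
    have h2 := h.neg
    have e : -((t : ℂ) * -1 / (d₃ : ℂ)) = (t : ℂ) / d₃ := by ring
    rw [e] at h2
    exact h2
  have hcop : Nat.Coprime d₂ d₃ := by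
    have h1 := Nat.gcd_dvd_left d₂ d₃
    have h2 := Nat.gcd_dvd_right d₂ d₃
    have h3 : Nat.gcd d₂ d₃ ∣ 1 := by
      have h4 : Nat.gcd d₂ d₃ ∣ d₃ - (d₂ + d₂) := Nat.dvd_sub h2 (Dvd.dvd.add h1 h1)
      have e : d₃ - (d₂ + d₂) = 1 := by omega
      rwa [e] at h4
    exact Nat.dvd_one.mp h3
  obtain ⟨N, hN⟩ := hcop.mul_dvd_of_dvd_of_dvd hdiv1 hdiv3
  have hq1 : ((d₃ : ℚ) + ((-1 : ℤ) : ℚ)) = 2 * (d₂ : ℚ) := by rw [hd3]; push_cast; ring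
  have hformN : g * ((d₂ + 1) ^ 2 * cp ^ 2) = 4 * d₂ * d₃ * c ^ 3 := by
    have hQ : (g : ℚ) * (((d₂ : ℚ) + 1) ^ 2 * (cp : ℚ) ^ 2) = 4 * d₂ * d₃ * (c : ℚ) ^ 3 := by
      rw [hform, hq1]
      have a1 : ((d₂ : ℚ) + 1) ≠ 0 := by positivity
      have a2 : (d₂ : ℚ) ≠ 0 := by exact_mod_cast hd₂pos.ne'
      have a3 : (cp : ℚ) ≠ 0 := by exact_mod_cast hcppos.ne'
      push_cast
      field_simp
      norm_num
    exact_mod_cast hQ
  have hsq : N * ((d₂ + 1) * cp) ^ 2 = (2 * c) ^ 2 := by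
    have h0 := hformN
    rw [← hct, hN] at h0
    have h1 : (c * d₂ * d₃) * (N * ((d₂ + 1) * cp) ^ 2) = (c * d₂ * d₃) * (2 * c) ^ 2 := by
      calc (c * d₂ * d₃) * (N * ((d₂ + 1) * cp) ^ 2)
          = c * (d₂ * d₃ * N) * ((d₂ + 1) ^ 2 * cp ^ 2) := by ring
        _ = 4 * d₂ * d₃ * c ^ 3 := h0
        _ = (c * d₂ * d₃) * (2 * c) ^ 2 := by ring
    exact Nat.eq_of_mul_eq_mul_left (by positivity) h1
  have hdvd : (d₂ + 1) * cp ∣ 2 * c := by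
    have h1 : ((d₂ + 1) * cp) ^ 2 ∣ (2 * c) ^ 2 := ⟨N, by rw [← hsq]; ring⟩
    exact (Nat.pow_dvd_pow_iff (by norm_num)).mp h1
  obtain ⟨m, hm⟩ := hdvd
  refine ⟨m, ?_, ?_⟩
  · rw [hd3]
    calc 4 * c = 2 * (2 * c) := by ring
      _ = 2 * ((d₂ + 1) * cp * m) := by rw [hm]
      _ = m * cp * (1 + d₂ + d₂ + 1) := by ring
  · have hsub : d₃ ^ 3 - d₃ = d₃ * (2 * d₂) * (2 * d₂ + 2) := by
      apply Nat.sub_eq_of_eq_add
      rw [hd3]; ring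
    rw [hsub]
    have hpos : 0 < (d₂ + 1) ^ 2 * cp ^ 2 := by positivity
    apply Nat.eq_of_mul_eq_mul_right hpos
    calc 8 * g * ((d₂ + 1) ^ 2 * cp ^ 2) = 8 * (g * ((d₂ + 1) ^ 2 * cp ^ 2)) := by ring
      _ = 8 * (4 * d₂ * d₃ * c ^ 3) := by rw [hformN]
      _ = 4 * d₂ * d₃ * (2 * c) ^ 3 := by ring
      _ = 4 * d₂ * d₃ * ((d₂ + 1) * cp * m) ^ 3 := by rw [hm]
      _ = m ^ 3 * cp * (d₃ * (2 * d₂) * (2 * d₂ + 2)) * ((d₂ + 1) ^ 2 * cp ^ 2) := by ring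

end Cfsg.Agent.Lib.helper2.K4
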