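import Mathlib
import Cfsg.Agent.Lib.helper2.SLGen

set_option autoImplicit false

namespace Cfsg.Agent.Lib.helper2.Transport

open Matrix Matrix.SpecialLinearGroup

section congr

variable {n : Type*} [DecidableEq n] [Fintype n] {R S : Type*} [CommRing R] [CommRing S]

/-- A ring isomorphism induces an isomorphism of special linear groups. -/
def slCongr (e : R ≃+* S) : SpecialLinearGroup n R ≃* SpecialLinearGroup n S where
  toFun := SpecialLinearGroup.map (e : R →+* S)
  invFun := SpecialLinearGroup.map (e.symm : S →+* R)
  left_inv g := by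
    apply Subtype.ext
    ext i j
    show e.symm (e (g i j)) = g i j
    simp
  right_inv g := by
    apply Subtype.ext
    ext i j
    show e (e.symm (g i j)) = g i j
    simp
  map_mul' := map_mul _

theorem map_center {G H : Type*} [Group G] [Group H] (e : G ≃* H) :
    (Subgroup.center G).map (e : G →* H) = Subgroup.center H := by
  ext h
  constructor
  · rintro ⟨g, hg, rfl⟩
    have hg : g ∈ Subgroup.center G := hg
    rw [Subgroup.mem_center_iff] at hg ⊢
    intro y
    obtain ⟨x, rfl⟩ := e.surjective y
    have := hg x
    show e x * e g = e g * e x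
    rw [← map_mul, ← map_mul, this]
  · intro hh
    refine ⟨e.symm h, ?_, by simp⟩
    show e.symm h ∈ Subgroup.center G
    rw [Subgroup.mem_center_iff] at hh ⊢
    intro x
    apply e.injective
    have := hh (e x)
    rw [map_mul, map_mul, MulEquiv.apply_symm_apply, this]

/-- A ring isomorphism induces an isomorphism of projective special linear groups. -/
noncomputable def pslCongr (e : R ≃+* S) :
    ProjectiveSpecialLinearGroup n R ≃* ProjectiveSpecialLinearGroup n S :=
  QuotientGroup.congr _ _ (slCongr e) (map_center _)

end congr

section hom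

variable {ι F M : Type*} [DecidableEq ι] [Fintype ι] [Field F] [Nontrivial ι] [Monoid M]

/-- A map out of `SL` which is multiplicative for right multiplication by transvections
(on a set of "valid" elements containing `1` and stable under this) is multiplicative. -/
theorem hom_of_transvections (f : SpecialLinearGroup ι F → M)
    (valid : SpecialLinearGroup ι F → Prop) (hv1 : valid 1)
    (hS : ∀ (i j : ι) (hij : i ≠ j) (a : F) (g : SpecialLinearGroup ι F), valid g →
      valid (g * transvection hij a) ∧ f (g * transvection hij a) = f g * f (transvection hij a)) :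
    ∀ g h, f (g * h) = f g * f h := by
  have key : ∀ h : SpecialLinearGroup ι F,
      ∀ g, valid g → valid (g * h) ∧ f (g * h) = f g * f h := by
    intro h
    refine SLGen.transvection_induction
      (fun h => ∀ g, valid g → valid (g * h) ∧ f (g * h) = f g * f h) ?_ ?_ h
    · intro i j hij a g hg
      exact hS i j hij a g hg
    · intro A B hA hB g hg
      obtain ⟨h1', h2'⟩ := hA g hg
      obtain ⟨h3', h4'⟩ := hB (g * A) h1'
      refine ⟨by rw [← mul_assoc]; exact h3', ?_⟩
      have e1 := hA 1 hv1
      rw [one_mul] at e1
      have e2 := (hB A e1.1).2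
      rw [← mul_assoc, h4', h2', e2, mul_assoc]
  intro g h
  have hvg : valid g := by
    have := (key g 1 hv1).1
    rwa [one_mul] at this
  exact (key h g hvg).2

end hom

section two

variable {F : Type*} [Field F]

theorem mul_t01 (g : SpecialLinearGroup (Fin 2) F) (h : (0 : Fin 2) ≠ 1) (a : F) :
    (g * transvection h a) 0 0 = g 0 0 ∧ (g * transvection h a) 0 1 = g 0 0 * a + g 0 1
      ∧ (g * transvection h a) 1 0 = g 1 0 ∧ (g * transvection h a) 1 1 = g 1 0 * a + g 1 1 := by
  simp [transvection_coe, Matrix.transvection, Matrix.mul_apply, Fin.sum_univ_two,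
    Matrix.single_apply, Matrix.one_apply, mul_add]

theorem mul_t10 (g : SpecialLinearGroup (Fin 2) F) (h : (1 : Fin 2) ≠ 0) (a : F) :
    (g * transvection h a) 0 0 = g 0 0 + g 0 1 * a ∧ (g * transvection h a) 0 1 = g 0 1
      ∧ (g * transvection h a) 1 0 = g 1 0 + g 1 1 * a ∧ (g * transvection h a) 1 1 = g 1 1 := by
  simp [transvection_coe, Matrix.transvection, Matrix.mul_apply, Fin.sum_univ_two,
    Matrix.single_apply, Matrix.one_apply, mul_add]

theorem t01_entries (h : (0 : Fin 2) ≠ 1) (a : F) :
    (transvection h a : SpecialLinearGroup (Fin 2) F) 0 0 = 1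
      ∧ (transvection h a : SpecialLinearGroup (Fin 2) F) 0 1 = a
      ∧ (transvection h a : SpecialLinearGroup (Fin 2) F) 1 0 = 0
      ∧ (transvection h a : SpecialLinearGroup (Fin 2) F) 1 1 = 1 := by
  simp [transvection_coe, Matrix.transvection, Matrix.single_apply, Matrix.one_apply]

theorem t10_entries (h : (1 : Fin 2) ≠ 0) (a : F) :
    (transvection h a : SpecialLinearGroup (Fin 2) F) 0 0 = 1
      ∧ (transvection h a : SpecialLinearGroup (Fin 2) F) 0 1 = 0
      ∧ (transvection h a : SpecialLinearGroup (Fin 2) F) 1 0 = a
      ∧ (transvection h a : SpecialLinearGroup (Fin 2) F) 1 1 = 1 := by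
  simp [transvection_coe, Matrix.transvection, Matrix.single_apply, Matrix.one_apply]

end two

end Cfsg.Agent.Lib.helper2.Transport
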